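import Cfsg.Agent.Lib.JO.Defs
import Cfsg.Agent.Lib.TwoFusion.ZStarIso

/-! Basic consequences of `H79.JO.Hyp`. -/

set_option autoImplicit false
set_option linter.unusedSectionVars false

namespace H79.JO

open Subgroup H4.YM H4.TL H25.L2B.Bas
open H25.L2B (fix_sq aut_comm syl_iff)
open scoped commutatorElement

variable {G : Type*} [Group G] {F : Type*} [Field F]

namespace Hyp

variable (X : Hyp G F)


include X in
theorem char : (2 : F) = 0 := X.jf.char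
include X in
theorem four : 4 ≤ Nat.card F := by rw [X.jf.card8]; omega
theorem tinv : X.t⁻¹ = X.t := inv_eq_of_mul_eq_one_right X.tt
theorem ttu (u : G) : X.t * (X.t * u) = u := by rw [← mul_assoc, X.tt, one_mul]
theorem v_add (a b : F) : X.v (a + b) = X.v a * X.v b := X.jf.v_add a b
theorem v_zero : X.v 0 = 1 := by
  have := X.v_add 0 0
  rw [add_zero] at this
  exact left_eq_mul.1 this
theorem v_inj {a b : F} (h : X.v a = X.v b) : a = b := X.jf.v_inj' a b h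
theorem v_eq_one {a : F} : X.v a = 1 ↔ a = 0 :=
  ⟨fun h => X.v_inj (h.trans X.v_zero.symm), fun h => h ▸ X.v_zero⟩
theorem v_sq (a : F) : X.v a * X.v a = 1 := by
  rw [← v_add, ← two_mul, X.char, zero_mul, v_zero]
theorem v_inv (a : F) : (X.v a)⁻¹ = X.v a := inv_eq_of_mul_eq_one_right (X.v_sq a)
theorem v_comm (a b : F) : cj (X.v a) (X.v b) = X.v b := by
  rw [cj_eq_iff, ← v_add, ← v_add, add_comm]
theorem t_v (a : F) : cj X.t (X.v a) = X.v a := X.tA _ (X.jf.vA a)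
theorem v_t (a : F) : cj (X.v a) X.t = X.t := cj_comm.1 (X.t_v a)
theorem mem_V {x : G} : x ∈ X.V ↔ ∃ a, x = X.v a := by
  refine ⟨fun h => ?_, fun ⟨a, h⟩ => h ▸ subset_closure ⟨a, rfl⟩⟩
  induction h using closure_induction with
  | mem x hx => exact hx.imp fun _ e => e.symm
  | one => exact ⟨0, X.v_zero.symm⟩
  | mul x y _ _ hx hy =>
    obtain ⟨a, rfl⟩ := hx; obtain ⟨b, rfl⟩ := hy; exact ⟨a + b, (X.v_add a b).symm⟩
  | inv x _ hx => obtain ⟨a, rfl⟩ := hx; exact ⟨a, X.v_inv a⟩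
theorem v_mem_V (a : F) : X.v a ∈ X.V := X.mem_V.2 ⟨a, rfl⟩
theorem V_le_A0 : X.V ≤ X.A0 := fun x hx => by
  obtain ⟨a, rfl⟩ := X.mem_V.1 hx; exact X.jf.vA a
theorem A0_le_L : X.A0 ≤ X.L := X.AL
theorem cen_A0 {x : G} (hx : x ∈ X.A0) (h : ∀ a ∈ X.A0, cj x a = a) : x = 1 := by
  obtain ⟨a, rfl⟩ := X.jf.cVA x hx fun a => h _ (X.jf.vA a)
  obtain ⟨k, k0, k1⟩ : ∃ k : F, k ≠ 0 ∧ k ≠ 1 := by
    by_contra! e
    have h8 := X.jf.card8
    haveI : Finite F := Nat.finite_of_card_ne_zero (by omega)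
    have : (Set.univ : Set F) ⊆ {0, 1} := fun k _ => by
      by_cases k0 : k = 0
      · exact Or.inl k0
      · exact Or.inr (e k k0)
    have h2 := (Set.ncard_le_ncard this).trans (Set.ncard_insert_le _ _)
    rw [Set.ncard_univ, Set.ncard_singleton] at h2
    omega
  have e := X.jf.hv (Units.mk0 k k0) a
  rw [cj_comm.1 (h _ (X.jf.hA _))] at e
  have e2 : a = k * a := X.v_inj e
  have : (k - 1) * a = 0 := by linear_combination -e2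
  rw [(mul_eq_zero.1 this).resolve_left (sub_ne_zero.2 k1), X.v_zero]
theorem t_A0 : X.t ∉ X.A0 := fun h => X.t1 (X.cen_A0 h X.tA)
theorem card_V : Nat.card X.V = Nat.card F :=
  (Nat.card_congr (Equiv.ofBijective (fun a => (⟨X.v a, X.v_mem_V a⟩ : X.V))
    ⟨fun _ _ e => X.v_inj (congrArg Subtype.val e), fun x =>
      (X.mem_V.1 x.2).imp fun _ e => Subtype.ext e.symm⟩)).symm
theorem iE : Idx X.V X.E X.t :=
  idx_adj (fun h => X.t_A0 (X.V_le_A0 h)) (fun k hk => by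
    obtain ⟨a, rfl⟩ := X.mem_V.1 hk; rwa [t_v]) (X.tt ▸ one_mem _)
theorem mem_E {x : G} : x ∈ X.E ↔ ∃ a, x = X.v a ∨ x = X.t * X.v a := by
  rw [X.iE.mem_iff, mem_V, mem_V, exists_or]
  simp only [inv_mul_eq_iff_eq_mul]
theorem E_sq {x : G} (hx : x ∈ X.E) : x * x = 1 := by
  obtain ⟨a, rfl | rfl⟩ := X.mem_E.1 hx
  · exact X.v_sq a
  · rw [mul_assoc, ← mul_assoc (X.v a), ← cj_eq_iff.1 (X.t_v a), mul_assoc, ttu, v_sq]
theorem E_comm {x y : G} (hx : x ∈ X.E) (hy : y ∈ X.E) : cj x y = y :=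
  cj_eq_iff.2 (comm_of_sq (X.E_sq hx) (X.E_sq hy) (X.E_sq (mul_mem hx hy)))
theorem mem_K {x : G} : x ∈ X.K ↔ cj x X.t = X.t ∧ ∀ a ∈ X.A0, cj x a = a := by
  rw [K, mem_inf, mem_cen, mem_centralizer_iff]
  exact and_congr_right fun _ => ⟨fun h a ha => cj_eq_iff.2 (h _ ha).symm,
    fun h a ha => (cj_eq_iff.1 (h a ha)).symm⟩
theorem t_K : X.t ∈ X.K := X.mem_K.2 ⟨cj_eq_iff.2 rfl, X.tA⟩
theorem O0_le_K : X.O0 ≤ X.K := (closure_le _).2 fun _ h => h.1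
theorem C_A0 {c x : G} (hc : cj c X.t = X.t) (hx : x ∈ X.A0) : cj c x ∈ X.A0 := X.nA c hc x hx
theorem C_K {c x : G} (hc : cj c X.t = X.t) (hx : x ∈ X.K) : cj c x ∈ X.K := by
  rw [mem_K] at hx ⊢
  refine ⟨by nth_rewrite 1 [← hc]; rw [cj_cj, hx.1, hc], fun a ha => ?_⟩
  have hN := X.C_A0 (inv_cj_eq.2 hc) ha
  rw [← cj_inv_cj c a, cj_cj, hx.2 _ hN]
theorem C_O0 {c x : G} (hc : cj c X.t = X.t) (hx : x ∈ X.O0) : cj c x ∈ X.O0 := by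
  induction hx using closure_induction with
  | mem x hx =>
    refine subset_closure ⟨X.C_K hc hx.1, ?_⟩
    rw [show orderOf (cj c x) = orderOf x from (MulAut.conj c).orderOf_eq x]
    exact hx.2
  | one => rw [cj_one]; exact one_mem _
  | mul x y _ _ hx hy => rw [cj_mul]; exact mul_mem hx hy
  | inv x _ hx => rw [cj_inv]; exact inv_mem hx
theorem Ω_t : X.Ω X.t := IsConj.refl _
theorem Ω_cj {s : G} (g : G) : X.Ω (cj g s) ↔ X.Ω s := isConj_cj g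
theorem Ω_iff {s : G} : X.Ω s ↔ ∃ g, cj g X.t = s := isConj_iff_cj
theorem sqΩ {s : G} (h : X.Ω s) : s * s = 1 := by
  obtain ⟨g, rfl⟩ := X.Ω_iff.1 h; exact cj_sq X.tt
theorem nΩ1 : ¬ X.Ω 1 := fun h => by
  obtain ⟨g, e⟩ := X.Ω_iff.1 h; exact X.t1 (cj_eq_one.1 e)
theorem L_cj {x : G} (g : G) : cj g x ∈ X.L ↔ x ∈ X.L :=
  ⟨fun h => inv_cj_cj g x ▸ X.nrm.conj_mem _ h g⁻¹, fun h => X.nrm.conj_mem _ h g⟩
theorem sq_mem_L (g : G) : g * g ∈ X.L := by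
  rcases X.top g with h | h
  · exact mul_mem h h
  · have := mul_mem ((X.L_cj X.t).2 h) h
    rwa [cj, tinv, ttu, mul_assoc, ttu] at this
theorem mul_mem_L (h : X.t ∉ X.L) {x y : G} : x * y ∈ X.L ↔ (x ∈ X.L ↔ y ∈ X.L) := by
  by_cases hx : x ∈ X.L
  · simp [hx, mul_mem_cancel_left hx]
  by_cases hy : y ∈ X.L
  · simp [hx, hy, mul_mem_cancel_right hy]
  have := mul_mem ((X.L_cj X.t).2 ((X.top x).resolve_left hx)) ((X.top y).resolve_left hy)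
  rw [cj, tinv, ttu, mul_assoc, ttu] at this
  simp [hx, hy, this]
theorem Ω_L {s : G} (h : X.Ω s) : s ∈ X.L ↔ X.t ∈ X.L := by
  obtain ⟨g, rfl⟩ := X.Ω_iff.1 h; exact X.L_cj g
theorem L_top (h : X.t ∈ X.L) : X.L = ⊤ :=
  eq_top_iff.2 fun g _ => (X.top g).elim id fun e => (mul_mem_cancel_left h).1 e
theorem Lna : ¬ IsMulCommutative X.L := fun h => by
  have := X.cen_A0 (X.jf.vA 1) fun a ha => cj_eq_iff.2 (congrArg Subtype.val
    (h.is_comm.comm (⟨_, X.AL (X.jf.vA 1)⟩ : X.L) ⟨_, X.AL ha⟩))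
  exact one_ne_zero (X.v_eq_one.1 this)
theorem L_comm : commutator X.L = ⊤ := by
  haveI := X.simple
  refine (IsSimpleGroup.eq_bot_or_eq_top_of_normal (commutator X.L) inferInstance).resolve_left
    fun h => X.Lna ⟨⟨fun a b => ?_⟩⟩
  rw [← commutatorElement_eq_one_iff_mul_comm, ← mem_bot, ← h]
  exact commutator_mem_commutator (mem_top _) (mem_top _)
theorem L_perf : X.L ≤ ⁅X.L, X.L⁆ := by
  have := congrArg (map X.L.subtype) X.L_comm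
  rw [commutator_def, map_commutator, ← MonoidHom.range_eq_map, range_subtype] at this
  exact this.ge

variable [Finite G] [Finite F]

include X in
theorem cardF : ∃ n, 2 ≤ n ∧ Nat.card F = 2 ^ n := by
  letI := Fintype.ofFinite F
  haveI : CharP F 2 := CharTwo.of_one_ne_zero_of_two_eq_zero one_ne_zero X.char
  obtain ⟨n, -, hn⟩ := FiniteField.card F 2
  have := X.four
  rw [Nat.card_eq_fintype_card, hn] at this ⊢
  exact ⟨n, (Nat.pow_le_pow_iff_right one_lt_two).1 this, rfl⟩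
theorem card_E : Nat.card X.E = 2 * Nat.card F := by rw [X.iE.card, card_V]
theorem card_A0 : Nat.card X.A0 = 175560 := X.jf.cardA
theorem A0_perf : X.A0 ≤ ⁅X.A0, X.A0⁆ := by
  haveI := X.jf.simA
  have h : commutator X.A0 = ⊤ := by
    refine (IsSimpleGroup.eq_bot_or_eq_top_of_normal (commutator X.A0) inferInstance).resolve_left
      fun h => one_ne_zero (X.v_eq_one.1 (X.cen_A0 (X.jf.vA 1) fun a ha => cj_eq_iff.2 ?_))
    have : ⁅(⟨_, X.jf.vA 1⟩ : X.A0), (⟨a, ha⟩ : X.A0)⁆ = 1 := by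
      rw [← mem_bot, ← h]
      exact commutator_mem_commutator (mem_top _) (mem_top _)
    exact congrArg Subtype.val (commutatorElement_eq_one_iff_mul_comm.1 this)
  have := congrArg (map X.A0.subtype) h
  rw [commutator_def, map_commutator, ← MonoidHom.range_eq_map, range_subtype] at this
  exact this.ge
theorem sylV : Syl X.V X.A0 :=
  ⟨pg_of_sq fun x hx => X.E_sq (X.iE.le hx), X.V_le_A0, 21945, by decide,
    by rw [card_A0, card_V, X.jf.card8]⟩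
theorem mem_N1 {n : G} : n ∈ X.N1 ↔ cj n X.t = X.t ∧ ∀ a, cj n (X.v a) ∈ X.V := by
  rw [N1, mem_inf, mem_cen, mem_norm]
  refine and_congr_right fun _ => ⟨fun h a => h _ (X.v_mem_V a), fun h x hx => ?_⟩
  obtain ⟨a, rfl⟩ := X.mem_V.1 hx
  exact h a
theorem E_le_N1 : X.E ≤ X.N1 := fun _ hx => X.mem_N1.2 ⟨X.E_comm hx X.iE.mem, fun a => by
  rw [X.E_comm hx (X.iE.le (X.v_mem_V a))]; exact X.v_mem_V a⟩
theorem K_le_N1 : X.K ≤ X.N1 := fun _ hx => X.mem_N1.2 ⟨(X.mem_K.1 hx).1, fun a => by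
  rw [(X.mem_K.1 hx).2 _ (X.jf.vA a)]; exact X.v_mem_V a⟩
/-- `C(t) = A0 × K` -/
theorem aut {c : G} (hc : cj c X.t = X.t) : ∃ a ∈ X.A0, ∃ κ ∈ X.K, c = a * κ := by
  have hn : c ∈ normalizer (X.A0 : Set G) := mem_norm.2 fun x hx => X.C_A0 hc hx
  obtain ⟨a, ha, h⟩ := X.jf.inner (X.A0.normalizerMonoidHom ⟨c, hn⟩)
  refine ⟨a, ha, a⁻¹ * c, X.mem_K.2 ⟨?_, fun x hx => ?_⟩, (mul_inv_cancel_left _ _).symm⟩
  · rw [mul_cj, hc, inv_cj_eq, cj_comm.1 (X.tA a ha)]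
  · rw [mul_cj, inv_cj_eq]
    exact (h ⟨x, hx⟩).symm
/-- `N1` acts semilinearly -/
theorem N1_act {n : G} (hn : n ∈ X.N1) :
    ∃ (k : Fˣ) (τ : F ≃+* F), ∀ a, cj n (X.v a) = X.v (k * τ a) := by
  obtain ⟨a, ha, κ, hκ, rfl⟩ := X.aut (X.mem_N1.1 hn).1
  have e : ∀ b, cj (a * κ) (X.v b) = cj a (X.v b) := fun b => by
    rw [mul_cj, (X.mem_K.1 hκ).2 _ (X.jf.vA b)]
  simp only [e]
  exact X.jf.nVA a ha fun b => X.mem_V.1 (e b ▸ (X.mem_N1.1 hn).2 b)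
theorem cenV {c : G} (hc : cj c X.t = X.t) (h : ∀ a, cj c (X.v a) = X.v a) :
    ∃ a, ∃ κ ∈ X.K, c = X.v a * κ := by
  obtain ⟨a, ha, κ, hκ, rfl⟩ := X.aut hc
  obtain ⟨b, rfl⟩ := X.jf.cVA a ha fun b => by
    have := h b
    rwa [mul_cj, (X.mem_K.1 hκ).2 _ (X.jf.vA b)] at this
  exact ⟨b, κ, hκ, rfl⟩
theorem idx2 (h : X.t ∈ X.L) (H : Subgroup G) : H.index ≠ 2 := fun e => by
  have := X.L_perf.trans (comm_le e _ _)
  rw [X.L_top h, top_le_iff] at this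
  rw [this, index_top] at e
  omega
theorem idx2L (H : Subgroup X.L) : H.index ≠ 2 := fun e => by
  have := comm_le e ⊤ ⊤
  rw [← commutator_def, L_comm, top_le_iff] at this
  rw [this, index_top] at e
  omega
include X in
theorem oddCore_bot : Cfsg.oddCore G = ⊥ := by
  haveI := X.simple
  rcases IsSimpleGroup.eq_bot_or_eq_top_of_normal ((Cfsg.oddCore G).subgroupOf X.L) inferInstance
    with h | h
  · refine eq_bot_iff.2 fun g hg => mem_bot.2 (X.cen g fun x hx => ?_)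
    have h1 : cj g x * x⁻¹ ∈ X.L := mul_mem ((X.L_cj g).2 hx) (inv_mem hx)
    have h2 : (⟨_, h1⟩ : X.L) ∈ (Cfsg.oddCore G).subgroupOf X.L := by
      have := mul_mem hg ((Cfsg.pPrimeCore_normal 2 G).conj_mem _ (inv_mem hg) x)
      exact mem_subgroupOf.2 (by simpa only [cj, mul_assoc] using this)
    rw [h, mem_bot] at h2
    exact mul_inv_eq_one.1 (congrArg Subtype.val h2)
  · have h1 : X.v 1 ∈ Cfsg.oddCore G :=
      mem_subgroupOf.1 (h ▸ mem_top (⟨X.v 1, X.AL (X.jf.vA 1)⟩ : X.L))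
    have h2 := orderOf_dvd_natCard (⟨_, h1⟩ : Cfsg.oddCore G)
    rw [orderOf_mk, orderOf_eq_prime (p := 2) (by rw [pow_two, v_sq])
      fun e => one_ne_zero (X.v_eq_one.1 e)] at h2
    exact absurd (even_iff_two_dvd.2 h2) (Nat.not_even_iff_odd.2 H1.odd_card_oddCore)
/-- the `Z*`-theorem -/
theorem zst : ∃ s, X.Ω s ∧ s ≠ X.t ∧ cj s X.t = X.t := by
  by_contra! h
  have h1 : Cfsg.IsIsolatedInvolution X.t :=
    ⟨orderOf_eq_prime (by rw [pow_two, X.tt]) X.t1, fun g hg => by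
      by_contra e
      exact h _ (X.Ω_iff.2 ⟨g, rfl⟩) e (cj_eq_iff.2 hg.symm.eq)⟩
  refine X.t1 (X.cen _ fun x _ => ?_)
  have := H41.Isolated.zstar h1 x
  rw [X.oddCore_bot, mem_bot] at this
  exact mul_inv_eq_one.1 this
theorem syl_L {S : Subgroup G} (h : Syl S ⊤) : Syl (S ⊓ X.L) X.L :=
  haveI := X.nrm
  syl_iff.2 ((syl_iff.1 h).inf_normal le_top (normalizer_eq_top X.L).ge)

end Hyp


namespace Fr

variable (X : Fr G F)

theorem tR : X.t ∈ X.R := mem_zpowers _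
theorem R_two {ρ : G} (hρ : ρ ∈ X.R) : ρ = 1 ∨ ρ = X.t := by
  obtain ⟨n, rfl⟩ := hρ
  rcases Int.even_or_odd' n with ⟨n, rfl | rfl⟩
  · left; simp only [_root_.zpow_mul, zpow_two, X.tt, _root_.one_zpow]
  · right; simp only [_root_.zpow_add, _root_.zpow_mul, zpow_two, X.tt, _root_.one_zpow, one_mul, zpow_one]
theorem f_one : X.f = 1 := rfl
theorem σ_one : X.σ = 1 := rfl
theorem ft : cj X.f X.t = X.t := one_cj _
theorem fR (ρ : G) (h : ρ ∈ X.R) : cj X.f ρ ∈ X.R := by rwa [f_one, one_cj]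
theorem fpow (i : ℕ) (_h : X.σ ^ i = 1) : X.f ^ i ∈ X.R := by rw [f_one, one_pow]; exact one_mem _
theorem R_le_K : X.R ≤ X.K := zpowers_le.2 X.t_K
theorem VR_E : X.V ⊔ X.R = X.E := rfl
theorem T_E : X.T = X.E := le_antisymm (adj_le le_rfl (one_mem _)) le_adj
theorem R_v {ρ : G} (hρ : ρ ∈ X.R) (a : F) : cj ρ (X.v a) = X.v a :=
  (X.mem_K.1 (X.R_le_K hρ)).2 _ (X.jf.vA a)
theorem f_v (a : F) : cj X.f (X.v a) = X.v (X.σ a) := one_cj _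
theorem fpow_v (i : ℕ) (a : F) : cj (X.f ^ i) (X.v a) = X.v ((X.σ ^ i) a) := by
  rw [f_one, σ_one, one_pow, one_pow, one_cj]; rfl
theorem fpow_R (i : ℕ) {ρ : G} (hρ : ρ ∈ X.R) : cj (X.f ^ i) ρ ∈ X.R := by
  induction i with
  | zero => rwa [pow_zero, one_cj]
  | succ i ih => rw [pow_succ', mul_cj]; exact X.fR _ ih
theorem VR_le_T : X.V ⊔ X.R ≤ X.T := le_adj
theorem R_le_T : X.R ≤ X.T := le_sup_right.trans X.VR_le_T
theorem V_le_T : X.V ≤ X.T := le_sup_left.trans X.VR_le_T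
theorem E_le_T : X.E ≤ X.T := adj_le X.V_le_T (X.R_le_T X.tR)
theorem f_mem_T : X.f ∈ X.T := self_mem_adj
theorem T_t {x : G} (hx : x ∈ X.T) : cj x X.t = X.t := X.E_comm (X.T_E ▸ hx) X.iE.mem
theorem pgT : IsPGroup 2 X.T := pg_of_sq fun _ hx => X.E_sq (X.T_E ▸ hx)
variable [Finite G] [Finite F]

theorem Rsyl : Syl X.R X.K := by
  have p : IsPGroup 2 X.R := pg_le X.pgT X.R_le_T
  obtain ⟨S, h1, h2⟩ := exists_syl p X.R_le_K
  rwa [le_antisymm h1 fun x hx => ?_]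
  rcases X.two S h2.pg (fun y hy => X.mem_K.1 (h2.le hy)) x hx with rfl | rfl
  exacts [one_mem _, X.tR]
theorem syl : Syl X.T (centralizer {X.t}) := by
  obtain ⟨S, h1, h2⟩ := exists_syl X.pgT fun x hx => mem_cen.2 (X.T_t hx)
  rwa [le_antisymm h1 fun x hx => ?_]
  obtain ⟨a, ha, κ, hκ, rfl⟩ := X.aut (mem_cen.1 (h2.le hx))
  obtain ⟨j, hj⟩ := pg_pow h2.pg hx
  have c : Commute a κ := (cj_eq_iff.1 ((X.mem_K.1 hκ).2 a ha)).symm
  rw [c.mul_pow] at hj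
  have e : a ^ 2 ^ j = 1 := X.cen_A0 (pow_mem ha _) (by
    rw [eq_inv_of_mul_eq_one_left hj]
    exact (X.mem_K.1 (inv_mem (pow_mem hκ _))).2)
  rw [e, one_mul] at hj
  have hV : X.A0 ⊓ S = X.V := X.sylV.eq_of_le (pg_le h2.pg inf_le_right) inf_le_left
    (le_inf X.V_le_A0 (X.V_le_T.trans h1))
  have kT : κ ∈ X.T := by
    rcases X.two _ (pg_zpowers hj) (fun y hy => X.mem_K.1 (zpowers_le.2 hκ hy)) κ (mem_zpowers _) with
      rfl | rfl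
    exacts [one_mem _, X.R_le_T X.tR]
  have : a ∈ X.A0 ⊓ S := ⟨ha, (mul_mem_cancel_right (h1 kT)).1 hx⟩
  exact mul_mem (X.V_le_T (hV ▸ this)) kT
theorem h_v (k : Fˣ) (a : F) : cj (X.h k) (X.v a) = X.v (k * a) := X.jf.hv k a
theorem h_mem (k : Fˣ) : X.h k ∈ X.A0 := X.jf.hA k
theorem h_t (k : Fˣ) : cj (X.h k) X.t = X.t := cj_comm.1 (X.tA _ (X.h_mem k))
theorem h_odd (k : Fˣ) : Odd (orderOf (X.h k)) := by
  obtain ⟨n, h1, h2⟩ := X.cardF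
  refine Odd.of_dvd_nat ?_ ((orderOf_map_dvd X.h k).trans (orderOf_dvd_natCard k))
  rw [Nat.card_units, h2]
  exact Nat.Even.sub_odd Nat.one_le_two_pow ((Nat.even_pow' (by omega)).2 even_two) odd_one
theorem h_N1 (k : Fˣ) : X.h k ∈ X.N1 :=
  X.mem_N1.2 ⟨X.h_t k, fun a => X.h_v k a ▸ X.v_mem_V _⟩
theorem R_inv {ρ : G} (hρ : ρ ∈ X.R) (_h : ρ * ρ = 1) : ρ = 1 ∨ ρ = X.t := X.R_two hρ
theorem σ_two : ∃ j : ℕ, X.σ ^ 2 ^ j = 1 := by
  obtain ⟨j, hj⟩ := pg_pow X.pgT X.f_mem_T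
  refine ⟨j, RingEquiv.ext fun a => X.v_inj ?_⟩
  rw [← fpow_v, hj, one_cj]; rfl
theorem mem_VR {x : G} : x ∈ X.V ⊔ X.R ↔ ∃ ρ ∈ X.R, ∃ a, x = ρ * X.v a := by
  obtain ⟨S, hS⟩ := sub_ind (fun x => ∃ ρ ∈ X.R, ∃ a, x = ρ * X.v a)
    ⟨1, one_mem _, 0, by rw [X.v_zero, mul_one]⟩ (by
      rintro _ _ ⟨ρ, hρ, a, rfl⟩ ⟨ρ', hρ', a', rfl⟩
      refine ⟨ρ * ρ', mul_mem hρ hρ', a + a', ?_⟩
      rw [X.v_add, mul_assoc, ← mul_assoc (X.v a), ← cj_eq_iff.1 (X.R_v hρ' a)]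
      simp only [mul_assoc])
  constructor
  · refine fun h => (hS x).1 ((sup_le (fun y hy => (hS y).2 ?_) (fun y hy => (hS y).2 ?_) :
      X.V ⊔ X.R ≤ S) h)
    · exact ⟨1, one_mem _, by simpa only [one_mul] using X.mem_V.1 hy⟩
    · exact ⟨y, hy, 0, by rw [X.v_zero, mul_one]⟩
  · rintro ⟨ρ, hρ, a, rfl⟩
    exact mul_mem (mem_sup_right hρ) (mem_sup_left (X.v_mem_V a))
theorem mem_T {x : G} : x ∈ X.T ↔ ∃ ρ ∈ X.R, ∃ a, ∃ i : ℕ, x = ρ * X.v a * X.f ^ i := by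
  obtain ⟨S, hS⟩ := sub_ind (fun x => ∃ w ∈ X.V ⊔ X.R, ∃ i : ℕ, x = w * X.f ^ i)
    ⟨1, one_mem _, 0, by simp⟩ (by
      rintro _ _ ⟨w, hw, i, rfl⟩ ⟨w', hw', j, rfl⟩
      refine ⟨w * cj (X.f ^ i) w', mul_mem hw ?_, i + j, by simp [cj, pow_add, mul_assoc]⟩
      obtain ⟨ρ, hρ, a, rfl⟩ := X.mem_VR.1 hw'
      exact X.mem_VR.2 ⟨_, X.fpow_R i hρ, _, by rw [cj_mul, fpow_v]⟩)
  constructor
  · intro h
    obtain ⟨w, hw, i, rfl⟩ := (hS x).1 (adj_le (fun y hy => (hS y).2 ⟨y, hy, 0, by simp⟩)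
      ((hS _).2 ⟨1, one_mem _, 1, by simp⟩) h)
    obtain ⟨ρ, hρ, a, rfl⟩ := X.mem_VR.1 hw
    exact ⟨ρ, hρ, a, i, rfl⟩
  · rintro ⟨ρ, hρ, a, i, rfl⟩
    exact mul_mem (mul_mem (X.R_le_T hρ) (X.V_le_T (X.v_mem_V a))) (pow_mem X.f_mem_T i)
theorem T_v {ρ : G} (hρ : ρ ∈ X.R) (a : F) (i : ℕ) (b : F) :
    cj (ρ * X.v a * X.f ^ i) (X.v b) = X.v ((X.σ ^ i) b) := by
  rw [mul_cj, mul_cj, fpow_v, X.v_comm, X.R_v hρ]
theorem T_act {x : G} (hx : x ∈ X.T) : ∃ i : ℕ, ∀ a, cj x (X.v a) = X.v ((X.σ ^ i) a) := by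
  obtain ⟨ρ, hρ, a, i, rfl⟩ := X.mem_T.1 hx
  exact ⟨i, X.T_v hρ a i⟩
theorem T_le_N1 : X.T ≤ X.N1 := fun _ hx => X.mem_N1.2 ⟨X.T_t hx, fun a => by
  obtain ⟨i, h⟩ := X.T_act hx
  exact h a ▸ X.v_mem_V _⟩
theorem cen_T {x : G} (hx : x ∈ X.T) (h : ∀ a, cj x (X.v a) = X.v a) : x ∈ X.V ⊔ X.R := by
  obtain ⟨ρ, hρ, a, i, rfl⟩ := X.mem_T.1 hx
  exact mul_mem (X.mem_VR.2 ⟨ρ, hρ, a, rfl⟩) (mem_sup_right (X.fpow i
    (RingEquiv.ext fun b => X.v_inj ((X.T_v hρ a i b).symm.trans (h b)))))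
theorem VR_inv {x : G} (hx : x ∈ X.V ⊔ X.R) (h : x * x = 1) : x ∈ X.E := by
  obtain ⟨ρ, hρ, a, rfl⟩ := X.mem_VR.1 hx
  rw [mul_assoc, ← mul_assoc (X.v a), ← cj_eq_iff.1 (X.R_v hρ a), mul_assoc, X.v_sq, mul_one] at h
  rcases X.R_inv hρ h with rfl | rfl
  · exact X.mem_E.2 ⟨a, Or.inl (one_mul _)⟩
  · exact X.mem_E.2 ⟨a, Or.inr rfl⟩
theorem A0_T {x : G} (h : x ∈ X.A0) (hx : x ∈ X.T) : x ∈ X.V := by
  rw [← X.sylV.eq_of_le (X := X.A0 ⊓ X.T) (pg_le X.pgT inf_le_right) inf_le_left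
    (le_inf X.V_le_A0 X.V_le_T)]
  exact ⟨h, hx⟩
theorem v_R {a : F} (h : X.v a ∈ X.R) : a = 0 :=
  X.v_eq_one.1 (X.cen_A0 (X.jf.vA a) (X.mem_K.1 (X.R_le_K h)).2)
theorem card_T : Nat.card X.T = Nat.card F * Nat.card X.R * orderOf X.σ := by
  have hn : 0 < orderOf X.σ := orderOf_pos (G := RingAut F) _
  rw [← Nat.card_fin (orderOf X.σ), ← Nat.card_prod, ← Nat.card_prod]
  refine (Nat.card_congr (Equiv.ofBijective (fun p : (F × X.R) × Fin (orderOf X.σ) =>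
    (⟨p.1.2 * X.v p.1.1 * X.f ^ (p.2 : ℕ), X.mem_T.2 ⟨_, p.1.2.2, _, _, rfl⟩⟩ : X.T)) ⟨?_, ?_⟩)).symm
  · rintro ⟨⟨a, ρ, hρ⟩, i, hi⟩ ⟨⟨a', ρ', hρ'⟩, j, hj⟩ e
    have e1 : ρ * X.v a * X.f ^ i = ρ' * X.v a' * X.f ^ j := congrArg Subtype.val e
    obtain rfl : i = j := pow_injOn_Iio_orderOf hi hj (RingEquiv.ext fun b => X.v_inj (by
      rw [← X.T_v hρ a i, e1, X.T_v hρ']))
    have e2 := mul_right_cancel e1
    have e3 : X.v (a + a') = ρ⁻¹ * ρ' := by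
      rw [X.v_add, eq_inv_mul_iff_mul_eq, ← mul_assoc, e2, mul_assoc, X.v_sq, mul_one]
    obtain rfl : a = a' := by
      have := X.v_R (e3 ▸ mul_mem (inv_mem hρ) hρ')
      linear_combination this - a' * X.char
    obtain rfl := mul_right_cancel e2
    rfl
  · rintro ⟨x, hx⟩
    obtain ⟨ρ, hρ, a, i, rfl⟩ := X.mem_T.1 hx
    have h1 := X.fpow (orderOf X.σ * (i / orderOf X.σ)) (by rw [pow_mul, pow_orderOf_eq_one, one_pow])
    refine ⟨⟨⟨a, _, mul_mem hρ h1⟩, _, Nat.mod_lt i hn⟩, Subtype.ext ?_⟩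
    show ρ * _ * X.v a * X.f ^ (i % _) = ρ * X.v a * X.f ^ i
    rw [mul_assoc ρ, cj_eq_iff.1 (X.R_v h1 a), mul_assoc, mul_assoc, ← pow_add, Nat.div_add_mod,
      mul_assoc]
/-- an element of `N1` acting as a scalar -/
theorem scal {n : G} (hn : cj n X.t = X.t) {k : Fˣ} (h : ∀ a, cj n (X.v a) = X.v (k * a)) :
    ∃ a, ∃ κ ∈ X.K, n = X.v a * X.h k * κ := by
  obtain ⟨a, κ, hκ, e⟩ := X.cenV (c := n * X.h k⁻¹) (by rw [mul_cj, h_t, hn]) fun a => by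
    rw [mul_cj, h_v, h, Units.mul_inv_cancel_left]
  refine ⟨a, κ, hκ, ?_⟩
  rw [mul_assoc, ← cj_eq_iff.1 ((X.mem_K.1 hκ).2 _ (X.h_mem k)), ← mul_assoc, ← e, map_inv,
    inv_mul_cancel_right]
theorem sylΩ {s : G} (hs : X.Ω s) {P : Subgroup G} (hP : IsPGroup 2 P) (h : ∀ x ∈ P, cj x s = s) :
    ∃ c, cj c X.t = s ∧ P ≤ cm c X.T := by
  obtain ⟨g, rfl⟩ := X.Ω_iff.1 hs
  have S := X.syl.cm g
  rw [cm_cen] at S
  obtain ⟨c, hc, e⟩ := S.conj hP fun x hx => mem_cen.2 (h x hx)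
  exact ⟨c * g, by rw [mul_cj, mem_cen.1 hc], by rwa [cm_mul]⟩
theorem cardΩ {s : G} (hs : X.Ω s) {P : Subgroup G} (hP : IsPGroup 2 P) (h : ∀ x ∈ P, cj x s = s) :
    Nat.card P ≤ Nat.card X.T := by
  obtain ⟨c, -, e⟩ := X.sylΩ hs hP h
  exact card_cm c X.T ▸ card_le_of_le e
theorem infT {P : Subgroup G} (hP : IsPGroup 2 P) (h : X.T ≤ P) {r : G} (hr : r ∈ P)
    (hc : cj r X.t = X.t) : r ∈ X.T := by
  rw [← X.syl.eq_of_le (X := P ⊓ centralizer {X.t}) (pg_le hP inf_le_left) inf_le_right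
    (le_inf h X.syl.le)]
  exact ⟨hr, mem_cen.2 hc⟩
theorem zstT : ∃ s ∈ X.T, X.Ω s ∧ s ≠ X.t := by
  obtain ⟨s, h1, h2, h3⟩ := X.zst
  obtain ⟨c, e1, e2⟩ := X.sylΩ h1 (P := zpowers X.t) (pg_zpowers (k := 1) (by simpa [pow_two] using X.tt))
    fun x hx => mem_cen.1 (zpowers_le.2 (mem_cen.2 (cj_comm.1 h3)) hx)
  exact ⟨_, mem_cm.1 (e2 (mem_zpowers _)), (X.Ω_cj _).2 X.Ω_t, fun e => h2 (e1 ▸ inv_cj_eq.1 e)⟩
theorem R2_of_tL (h : X.t ∉ X.L) {ρ : G} (hρ : ρ ∈ X.R) : ρ = 1 ∨ ρ = X.t := by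
  obtain ⟨k, hk⟩ := pg_pow X.Rsyl.pg hρ
  induction k generalizing ρ with
  | zero => exact Or.inl (by simpa using hk)
  | succ k ih =>
    rcases ih (mul_mem hρ hρ) (by rw [← pow_two, ← pow_mul, ← pow_succ', hk]) with e | e
    · exact X.R_inv hρ e
    · exact absurd (e ▸ X.sq_mem_L ρ) h
theorem σ_one_of_eight (_h : Nat.card F = 8) : X.σ = 1 := rfl
theorem T_eq_E (h : ∀ ρ ∈ X.R, ρ = 1 ∨ ρ = X.t) (h1 : X.σ = 1) : X.T = X.E := by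
  refine le_antisymm (fun x hx => ?_) X.E_le_T
  obtain ⟨i, hi⟩ := X.T_act hx
  obtain ⟨ρ, hρ, a, rfl⟩ := X.mem_VR.1 (X.cen_T hx fun a => by rw [hi, h1, one_pow]; rfl)
  rcases h ρ hρ with rfl | rfl
  · exact X.mem_E.2 ⟨a, Or.inl (one_mul _)⟩
  · exact X.mem_E.2 ⟨a, Or.inr rfl⟩
end Fr

end H79.JO
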