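import Cfsg.Agent.Lib.JO.Good

set_option autoImplicit false

namespace H79.JO.BLB

open Subgroup H4.YM H4.TL H79.JO
open H25.L2B (syl_iff)

/-- there is no homogeneous Boolean multiplication on a field with at least four elements -/
theorem no_star {F : Type*} [Field F] [Finite F] (h2 : (2 : F) = 0) (h4 : 4 ≤ Nat.card F)
    (s : F → F → F) (a1 : ∀ u u' w, s (u + u') w = s u w + s u' w)
    (a2 : ∀ u w w', s u (w + w') = s u w + s u w') (hm : ∀ (k : Fˣ) u w, s (k * u) (k * w) = k * s u w)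
    (id : ∀ u, u ≠ 0 → s u u = u) (cm : ∀ u u' w, s u (s u' w) = s u' (s u w)) : False := by
  have z : ∀ x : F, x + x = 0 := fun x => by rw [← two_mul, h2, zero_mul]
  have z1 : ∀ u, s u 0 = 0 := fun u => by
    have := a2 u 0 0
    rw [add_zero, z] at this
    exact this
  have id' : ∀ u, s u u = u := fun u => by
    by_cases e : u = 0
    · rw [e, z1]
    · exact id u e
  have sy : ∀ u w, s u w = s w u := fun u w => by
    have := id' (u + w)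
    rw [a1, a2, a2, id', id'] at this
    linear_combination this - z (s w u)
  obtain ⟨w, hw, hmin⟩ := WellFounded.has_min (InvImage.wf (fun w : F => {x | s w x = x})
    (wellFounded_lt (α := Set F))) {w | w ≠ 0} ⟨1, one_ne_zero⟩
  have k0 : ∀ u, s u w = 0 ∨ s u w = w := fun u => by
    refine or_iff_not_imp_left.2 fun e => ?_
    have l : {x | s (s u w) x = x} ⊆ {x | s w x = x} := fun x hx => by
      have hx' : s (s u w) x = x := hx
      have e1 : s (s u w) x = s u (s w x) := by rw [sy _ x, cm, sy x]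
      have e2 : s w (s w x) = s w x := by rw [sy w x, cm, id']
      change s w x = x
      conv_lhs => rw [← hx', e1, cm, e2, ← e1, hx']
    have l2 : s (s u w) w = w :=
      (eq_of_le_of_not_lt l (hmin _ e)).ge (show w ∈ {x | s w x = x} from id' w)
    rwa [sy, cm, id'] at l2
  have k1 : ∀ u x, x ≠ 0 → s u x = 0 ∨ s u x = x := fun u x hx => by
    have e := hm (Units.mk0 (x / w) (div_ne_zero hx hw)) (w / x * u) w
    have hw' : w ≠ 0 := hw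
    rw [Units.val_mk0, div_mul_cancel₀ _ hw', show x / w * (w / x * u) = u by field_simp] at e
    exact (k0 (w / x * u)).imp (fun q => by rw [e, q, mul_zero])
      fun q => by rw [e, q, div_mul_cancel₀ _ hw']
  obtain ⟨x, x0, x1⟩ : ∃ x : F, x ≠ 0 ∧ x ≠ 1 := by
    by_contra! q
    have : Nat.card F ≤ 2 := by
      rw [← Set.ncard_univ, ← Set.ncard_pair (zero_ne_one (α := F))]
      exact Set.ncard_le_ncard fun y _ => or_iff_not_imp_left.2 (q y)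
    omega
  have e1 : s 1 x = 0 := (k1 1 x x0).elim (fun q => q) fun q =>
    (k1 x 1 one_ne_zero).elim (fun r => (sy 1 x).trans r) fun r =>
      absurd (q.symm.trans ((sy 1 x).trans r)) x1
  have e2 := k1 1 (1 + x) fun q => x1 (by linear_combination q - z 1)
  rw [a2, id', e1, add_zero] at e2
  exact e2.elim one_ne_zero fun q => x0 (by linear_combination -q)

end H79.JO.BLB

namespace H79.JO

open Subgroup H4.YM H4.TL Matrix MatrixGroups H79.JO.BLB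
open H25.L2B (fix_sq fix_trace aut_comm aut_inv_uniq syl_iff WrD Lie2 Eight)

variable {G : Type*} [Group G] [Finite G] {F : Type*} [Field F] [Finite F]

theorem Fr.Tow.bool {X : Fr G F} {A Y : Subgroup G} {b : G → F} (D : X.Tow A Y b) :
    (∀ y ∈ Y, y * y = 1 → y ∈ X.V) ∨ ∀ y ∈ Y, y * y ∈ X.V := by
  refine or_iff_not_imp_left.2 fun hn => ?_
  push Not at hn
  obtain ⟨y0, y0Y, y02, y0V⟩ := hn
  obtain ⟨e, e1, e2, e3, e4⟩ := D.b_pow
  have cm : ∀ a ∈ A, ∀ c ∈ A, Commute a c := fun a ha c hc => D.toGood.comm ha hc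
  have V2 : ∀ u ∈ X.V, u * u = 1 := fun u hu => by
    obtain ⟨a, rfl⟩ := X.mem_V.1 hu
    exact X.v_sq a
  have YV : ∀ y ∈ Y, ∀ u ∈ X.V, cj y u = u := fun y hy u hu => by
    obtain ⟨a, rfl⟩ := X.mem_V.1 hu
    exact D.YV y hy a
  have bh : ∀ (k : Fˣ), ∀ y ∈ Y, b (cj (X.h k) y) = k * b y := fun k y hy =>
    X.v_inj ((D.b_cj _ (X.h_N1 k) y hy).trans (X.h_v k _))
  have b0 : b y0 ≠ 0 := fun q => y0V (D.toGood.sqV ((D.b_ker y0 y0Y).1 q) y02)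
  have inv : ∀ c, c ≠ 0 → ∃ y ∈ Y, y * y = 1 ∧ b y = c := fun c hc =>
    ⟨cj (X.h (Units.mk0 (c / b y0) (div_ne_zero hc b0))) y0, D.nY _ (X.h_N1 _) _ y0Y, cj_sq y02, by
      rw [bh _ _ y0Y, Units.val_mk0, div_mul_cancel₀ _ b0]⟩
  have z2 : ∀ x : F, x + x = 0 := fun x => by rw [← two_mul, X.char, zero_mul]
  have same : ∀ y ∈ Y, ∀ y' ∈ Y, b y = b y' → ∃ a ∈ A, y' = y * a := fun y hy y' hy' q => by
    have h1 := D.b_mul y hy _ (Y.mul_mem (Y.inv_mem hy) hy')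
    rw [mul_inv_cancel_left, q, left_eq_add] at h1
    exact ⟨_, (D.b_ker _ (Y.mul_mem (Y.inv_mem hy) hy')).1 h1, (mul_inv_cancel_left _ _).symm⟩
  have sq : ∀ y ∈ Y, ∀ x ∈ A, ∃ α ∈ A, cj y x = x * (α * α) := fun y hy x hx => by
    obtain ⟨α, h1, h2⟩ := e3 _ (A.mul_mem (A.inv_mem hx) (D.YA y hy x hx)) (by
      rw [(cm _ (A.inv_mem hx) _ (D.YA y hy x hx)).mul_pow, ← cj_pow, YV y hy _ (e1 x hx), inv_pow,
        inv_mul_cancel])
    exact ⟨α, h1, by rw [h2, mul_inv_cancel_left]⟩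
  by_cases h4 : ∀ a ∈ A, a * a ∈ X.V
  · intro y hy
    by_cases q : b y = 0
    · exact h4 y ((D.b_ker y hy).1 q)
    obtain ⟨w, hw, w2, wb⟩ := inv _ q
    obtain ⟨a, ha, rfl⟩ := same w hw y hy wb
    obtain ⟨α, h1, h2⟩ := sq w hw a ha
    have : w * a * (w * a) = a * a * (α * α) := by
      rw [show w * a * (w * a) = cj w a * (w * w) * a by simp only [cj]; group, w2, mul_one, h2,
        mul_assoc, ← (cm a ha _ (A.mul_mem h1 h1)).eq, mul_assoc]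
    rw [this]
    exact X.V.mul_mem (h4 a ha) (h4 α h1)
  exfalso
  push Not at h4
  obtain ⟨a0, a0A, a04⟩ := h4
  obtain ⟨d, rfl⟩ : 4 ∣ e := by
    haveI : Fact (Nat.Prime 2) := ⟨Nat.prime_two⟩
    obtain ⟨i, hi⟩ := (IsPGroup.iff_orderOf.1 D.pg) ⟨a0, a0A⟩
    rw [← orderOf_coe] at hi
    have h1 : 2 ^ i ∣ 2 * e := hi ▸ orderOf_dvd_of_pow_eq_one (by
      rw [two_mul, pow_add]; exact V2 _ (e1 a0 a0A))
    have h2 : ¬ 2 ^ i ∣ 2 ^ 2 := fun q => a04 (D.toGood.sqV (A.mul_mem a0A a0A) (by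
      have : a0 ^ 4 = 1 := orderOf_dvd_iff_pow_eq_one.1 (hi ▸ q)
      rw [← this]; simp only [pow_succ, pow_zero, one_mul, mul_assoc]))
    have h3 : 3 ≤ i := by
      by_contra q
      exact h2 (pow_dvd_pow 2 (by omega))
    exact Nat.dvd_of_mul_dvd_mul_left two_pos (((pow_dvd_pow 2 h3).trans h1 : 2 ^ 3 ∣ 2 * e))
  have pw : ∀ α : G, (α * α) ^ (2 * d) = α ^ (4 * d) := fun α => by
    rw [← pow_two, ← pow_mul]; congr 1; ring
  have key : ∀ y x α : G, cj y x = x * (α * α) → (x⁻¹ * cj y x) ^ (2 * d) = α ^ (4 * d) :=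
    fun y x α q => by rw [q, inv_mul_cancel_left, pw]
  -- the pairing
  obtain ⟨μ, hμ⟩ : ∃ μ : G → G → G, ∀ y x, μ y x = (x⁻¹ * cj y x) ^ (2 * d) := ⟨_, fun _ _ => rfl⟩
  have mV : ∀ y ∈ Y, ∀ x ∈ A, μ y x ∈ X.V := fun y hy x hx => by
    obtain ⟨α, h1, h2⟩ := sq y hy x hx
    rw [hμ, key y x α h2]
    exact e1 α h1
  have m1 : ∀ y ∈ Y, ∀ x ∈ A, ∀ x' ∈ A, μ y (x * x') = μ y x * μ y x' := fun y hy x hx x' hx' => by
    have c1 := A.mul_mem (A.inv_mem hx) (D.YA y hy x hx)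
    have c2 := A.mul_mem (A.inv_mem hx') (D.YA y hy x' hx')
    rw [hμ, hμ, hμ, ← (cm _ c1 _ c2).mul_pow, cj_mul, _root_.mul_inv_rev, mul_assoc,
      ← mul_assoc x⁻¹, ← mul_assoc x'⁻¹, (cm _ (A.inv_mem hx') _ c1).eq, mul_assoc _ x'⁻¹]
  have m2 : ∀ y ∈ Y, ∀ y' ∈ Y, ∀ x ∈ A, μ (y * y') x = μ y x * μ y' x := fun y hy y' hy' x hx => by
    obtain ⟨α, h1, h2⟩ := sq y hy x hx
    obtain ⟨β, h3, h4⟩ := sq y' hy' x hx
    have c := cm α h1 _ (D.YA y hy β h3)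
    rw [hμ, hμ, hμ, key y x α h2, key y' x β h4, key (y * y') x (α * cj y β) (by
      rw [mul_cj, h4, cj_mul, cj_mul, h2, mul_assoc, c.mul_mul_mul_comm]), c.mul_pow, ← cj_pow,
      YV y hy _ (e1 β h3)]
  have m3 : ∀ a ∈ A, ∀ x ∈ A, μ a x = 1 := fun a ha x hx => by
    rw [hμ, D.toGood.cjA ha hx, inv_mul_cancel, one_pow]
  have m4 : ∀ y ∈ Y, ∀ x ∈ A, ∀ x' ∈ A, x ^ (4 * d) = x' ^ (4 * d) → μ y x = μ y x' :=
    fun y hy x hx x' hx' q => by
      obtain ⟨α, h1, h2⟩ := e3 _ (A.mul_mem (A.inv_mem hx) hx') (by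
        rw [(cm _ (A.inv_mem hx) _ hx').mul_pow, inv_pow, q, inv_mul_cancel])
      rw [← mul_inv_cancel_left x x', ← h2, m1 y hy x hx _ (A.mul_mem h1 h1), m1 y hy α h1 α h1,
        V2 _ (mV y hy α h1), mul_one]
  choose Yb Yb1 Yb2 using D.b_surj
  choose Xw Xw1 Xw2 using fun w => e2 _ (X.v_mem_V w)
  choose s hs using fun u w => X.mem_V.1 (mV _ (Yb1 u) _ (Xw1 w))
  have hS : ∀ y ∈ Y, ∀ x ∈ A, ∀ w, x ^ (4 * d) = X.v w → μ y x = X.v (s (b y) w) :=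
    fun y hy x hx w q => by
      obtain ⟨a, ha, r⟩ := same _ (Yb1 (b y)) y hy (Yb2 _)
      rw [← hs, m4 y hy x hx _ (Xw1 w) (q.trans (Xw2 w).symm)]
      conv_lhs => rw [r, m2 _ (Yb1 _) a (D.AY ha) _ (Xw1 w), m3 a ha _ (Xw1 w), mul_one]
  refine no_star X.char X.four s (fun u u' w => X.v_inj ?_) (fun u w w' => X.v_inj ?_)
    (fun k u w => X.v_inj ?_) (fun u hu => X.v_inj ?_) fun u u' w => X.v_inj ?_
  · rw [X.v_add, ← hs u w, ← hs u' w, ← m2 _ (Yb1 u) _ (Yb1 u') _ (Xw1 w),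
      hS _ (Y.mul_mem (Yb1 u) (Yb1 u')) _ (Xw1 w) w (Xw2 w), D.b_mul _ (Yb1 u) _ (Yb1 u'), Yb2, Yb2]
  · rw [X.v_add, ← hs u w, ← hs u w', ← m1 _ (Yb1 u) _ (Xw1 w) _ (Xw1 w'),
      hS _ (Yb1 u) _ (A.mul_mem (Xw1 w) (Xw1 w')) (w + w') (by
        rw [(cm _ (Xw1 w) _ (Xw1 w')).mul_pow, Xw2, Xw2, X.v_add]), Yb2]
  · rw [← X.h_v k (s u w), ← hs u w, hμ, cj_pow, cj_mul, cj_inv, ← cj_cj, ← hμ,
      hS _ (D.nY _ (X.h_N1 k) _ (Yb1 u)) _ (D.nA _ (X.h_N1 k) _ (Xw1 w)) (k * w) (by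
        rw [← cj_pow, Xw2, X.h_v]), bh k _ (Yb1 u), Yb2]
  · obtain ⟨y, hy, y2, rfl⟩ := inv u hu
    have q : cj y (X.t * cj y X.t) = X.t * cj y X.t * ((X.t * cj y X.t)⁻¹ * (X.t * cj y X.t)⁻¹) := by
      rw [mul_inv_cancel_left, cj_mul, ← mul_cj, y2, one_cj, _root_.mul_inv_rev, ← cj_inv, X.tinv]
    rw [← hS y hy _ (D.tY y hy) _ (e4 y hy).symm, hμ, key _ _ _ q, inv_pow, ← e4 y hy, X.v_inv]
  · have hy := Yb1 u
    have hy' := Yb1 u'
    have hx := Xw1 w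
    obtain ⟨α, h1, h2⟩ := sq _ hy _ hx
    obtain ⟨α', h1', h2'⟩ := sq _ hy' _ hx
    obtain ⟨β, h3, h4⟩ := sq _ hy _ h1'
    obtain ⟨β', h3', h4'⟩ := sq _ hy' _ h1
    have r1 : α ^ (4 * d) = X.v (s u w) := by rw [← hs, hμ, key _ _ _ h2]
    have r2 : α' ^ (4 * d) = X.v (s u' w) := by rw [← hs, hμ, key _ _ _ h2']
    have r3 := hS _ hy _ h1' _ r2
    have r4 := hS _ hy' _ h1 _ r1
    rw [Yb2, hμ, key _ _ _ h4] at r3
    rw [Yb2, hμ, key _ _ _ h4'] at r4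
    obtain ⟨a, ha, r⟩ := same _ (Y.mul_mem hy' hy) _ (Y.mul_mem hy hy') (by
      rw [D.b_mul _ hy' _ hy, D.b_mul _ hy _ hy', add_comm])
    have r5 : cj (Yb u * Yb u') (Xw w) = cj (Yb u' * Yb u) (Xw w) := by
      rw [r, mul_cj _ a, D.toGood.cjA ha hx]
    rw [mul_cj, mul_cj, h2', h2, cj_mul, cj_mul, cj_mul, cj_mul, h2', h2, h4, h4',
      (cm _ h1' _ (A.mul_mem h3 h3)).symm.mul_mul_mul_comm,
      (cm _ h1 _ (A.mul_mem h3' h3')).symm.mul_mul_mul_comm, ← mul_assoc, ← mul_assoc _ (α * α),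
      mul_assoc _ (α * α), (cm _ (A.mul_mem h1 h1) _ (A.mul_mem h1' h1')).eq,
      ← mul_assoc _ (α' * α'), mul_left_cancel_iff] at r5
    have p4 : ∀ γ : G, γ ^ (4 * d) = (γ * γ * (γ * γ)) ^ d := fun γ => by
      rw [pow_mul]; simp only [pow_succ, pow_zero, one_mul, mul_assoc]
    rw [← r3, ← r4, p4, p4, r5]

end H79.JO
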