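import Cfsg.Agent.Lib.L2B.Defs8
import Cfsg.Agent.Lib.L2B.Bas1

/-!
Standard subgroups of type `J₁`: the set-up.
-/

set_option autoImplicit false

namespace H79.JO

open Subgroup H4.YM H4.TL

variable {G : Type*} [Group G] {F : Type*} [Field F]

/-- What is used of `J₁`: the Sylow subgroup `v F`, the torus `h`, `C(v 1) = ⟨v 1⟩ × X5`. -/
structure Jf (A0 X5 : Subgroup G) (v : F → G) (h : Fˣ →* G) (r : G) : Prop where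
  char : (2 : F) = 0
  card8 : Nat.card F = 8
  v_add : ∀ a b, v (a + b) = v a * v b
  v_inj' : ∀ a b, v a = v b → a = b
  vA : ∀ a, v a ∈ A0
  hA : ∀ k, h k ∈ A0
  hv : ∀ (k : Fˣ) a, cj (h k) (v a) = v (k * a)
  simA : IsSimpleGroup A0
  cardA : Nat.card A0 = 175560
  nVA : ∀ n ∈ A0, (∀ a, ∃ b, cj n (v a) = v b) →
    ∃ (k : Fˣ) (τ : F ≃+* F), ∀ a, cj n (v a) = v (k * τ a)
  cVA : ∀ n ∈ A0, (∀ a, cj n (v a) = v a) → ∃ a, n = v a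
  invA : ∀ i ∈ A0, i * i = 1 → i ≠ 1 → ∃ a ∈ A0, cj a i = v 1
  XA : X5 ≤ A0
  isoX : Nonempty (X5 ≃* alternatingGroup (Fin 5))
  cz : ∀ c ∈ A0, cj c (v 1) = v 1 ↔ c ∈ X5 ∨ v 1 * c ∈ X5
  vX : ∀ a, v a ∈ X5 ↔ a + a ^ 2 + a ^ 4 = 0
  rX : r ∈ X5
  r3 : r ^ 3 = 1
  rv : ∀ a, cj r (v a) = v (a ^ 2)
  gen : ∀ D : Subgroup G, (∀ a, a ≠ 0 → ∀ c ∈ A0, cj c (v a) = v a → c ∈ D) → A0 ≤ D
  inner : ∀ θ : A0 ≃* A0, ∃ a ∈ A0, ∀ x : A0, (θ x : G) = cj a x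

/-- The group `G = L⟨t⟩` with the component `A0` of `C(t)`. -/
structure Hyp (G : Type*) [Group G] (F : Type*) [Field F] where
  t : G
  L : Subgroup G
  A0 : Subgroup G
  X5 : Subgroup G
  v : F → G
  h : Fˣ →* G
  r : G
  jf : Jf A0 X5 v h r
  tt : t * t = 1
  t1 : t ≠ 1
  tA : ∀ a ∈ A0, cj t a = a
  nA : ∀ c, cj c t = t → ∀ a ∈ A0, cj c a ∈ A0
  two : ∀ P : Subgroup G, IsPGroup 2 P → (∀ x ∈ P, cj x t = t ∧ ∀ a ∈ A0, cj x a = a) →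
    ∀ x ∈ P, x = 1 ∨ x = t
  nrm : L.Normal
  simple : IsSimpleGroup L
  AL : A0 ≤ L
  top : ∀ g, g ∈ L ∨ t * g ∈ L
  cen : ∀ g, (∀ x ∈ L, cj g x = x) → g = 1

namespace Hyp

variable (X : Hyp G F)

/-- the Sylow subgroup of `A0` -/
def V : Subgroup G := closure (Set.range X.v)

/-- `⟨t⟩ × V` -/
def E : Subgroup G := adj X.V X.t

/-- `C(t) ∩ C(A0)` -/
def K : Subgroup G := centralizer {X.t} ⊓ centralizer (X.A0 : Set G)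

/-- `C(t) ∩ N(V)` -/
def N1 : Subgroup G := centralizer {X.t} ⊓ normalizer (X.V : Set G)

/-- conjugate to `t` -/
def Ω (s : G) : Prop := IsConj X.t s

/-- the elements of odd order of `K` -/
def O0 : Subgroup G := closure {x | x ∈ X.K ∧ Odd (orderOf x)}

end Hyp

/-- The same data; `R`, `f`, `σ`, `T` are trivial. -/
structure Fr (G : Type*) [Group G] (F : Type*) [Field F] extends Hyp G F

namespace Fr

variable (X : Fr G F)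

/-- the Sylow subgroup of `K` -/
def R : Subgroup G := zpowers X.t

/-- no field automorphism -/
def f (_X : Fr G F) : G := 1

/-- no field automorphism -/
def σ (_X : Fr G F) : F ≃+* F := 1

/-- the Sylow subgroup of `C(t)` -/
def T : Subgroup G := adj (X.V ⊔ X.R) X.f

/-- the pure case -/
structure Pure : Prop where
  R2 : ∀ ρ ∈ X.R, ρ = 1 ∨ ρ = X.t
  nV : ∀ a, ¬ X.Ω (X.v a)
  tV : ∀ a, X.Ω (X.t * X.v a)
  wc : ∀ g, (∀ a, cj g (X.v a) ∈ X.T) → ∀ a, cj g (X.v a) ∈ X.V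

/-- a good subgroup -/
structure Good (A : Subgroup G) : Prop extends X.Pure where
  pg : IsPGroup 2 A
  VA : X.V ≤ A
  Ω : ∀ a ∈ A, X.Ω (X.t * a)
  nA : ∀ n ∈ X.N1, ∀ a ∈ A, cj n a ∈ A

/-- the top of the tower when `N(A⟨t⟩)` induces translations -/
structure Tow (A Y : Subgroup G) (b : G → F) : Prop extends X.Good A where
  pgY : IsPGroup 2 Y
  AY : A ≤ Y
  YV : ∀ y ∈ Y, ∀ a, cj y (X.v a) = X.v a
  YA : ∀ y ∈ Y, ∀ a ∈ A, cj y a ∈ A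
  nY : ∀ n ∈ X.N1, ∀ y ∈ Y, cj n y ∈ Y
  YL : Y ≤ X.L
  cenY : ∀ y ∈ Y, cj y X.t = X.t → y ∈ X.V
  nΩ : ∀ y ∈ Y, ¬ X.Ω y
  ΩA : ∀ y ∈ Y, X.Ω (X.t * y) → y ∈ A
  tY : ∀ y ∈ Y, X.t * cj y X.t ∈ A
  tr : ∀ a ∈ A, ∃ y ∈ Y, cj y X.t = X.t * a
  NQ : ∀ g ∈ normalizer (adj A X.t : Set G), ∃ y ∈ Y, ∃ n ∈ X.N1, g = y * n
  b_mul : ∀ x ∈ Y, ∀ y ∈ Y, b (x * y) = b x + b y
  b_ker : ∀ y ∈ Y, b y = 0 ↔ y ∈ A
  b_surj : ∀ a, ∃ y ∈ Y, b y = a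
  b_cj : ∀ n ∈ X.N1, ∀ y ∈ Y, X.v (b (cj n y)) = cj n (X.v (b y))
  b_pow : ∃ e : ℕ, (∀ a ∈ A, a ^ e ∈ X.V) ∧ (∀ u ∈ X.V, ∃ a ∈ A, a ^ e = u) ∧
    (∀ a ∈ A, a ^ e = 1 → ∃ α ∈ A, α * α = a) ∧ ∀ y ∈ Y, X.v (b y) = (X.t * cj y X.t) ^ e

/-- the top of the tower when `N(A⟨t⟩)` induces no translation -/
structure NR (A : Subgroup G) : Prop extends X.Good A where
  eight : Nat.card F = 8
  tr : ∀ a ∈ A, ∃ g ∈ normalizer (adj A X.t : Set G), cj g X.t = X.t * a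
  notr : ∀ g ∈ normalizer (adj A X.t : Set G), (∀ a, cj g (X.v a) = X.v a) →
    ∃ α ∈ A, cj (α * g) X.t = X.t
  gl : ∀ α : F ≃+ F, ∃ g ∈ normalizer (adj A X.t : Set G), ∀ a, cj g (X.v a) = X.v (α a)

/-- `a ↦ a ^ e` maps `A` onto `V` with kernel the squares -/
structure NE (A : Subgroup G) (e : ℕ) : Prop extends X.NR A where
  tL : X.t ∉ X.L
  eV : ∀ a ∈ A, a ^ e ∈ X.V
  eS : ∀ u ∈ X.V, ∃ a ∈ A, a ^ e = u
  eK : ∀ a ∈ A, a ^ e = 1 → ∃ α ∈ A, α * α = a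

/-- `S` is a Sylow subgroup of `L` -/
structure NS (A : Subgroup G) (e : ℕ) (S : Subgroup G) : Prop extends X.NE A e where
  sylS : Syl S X.L
  AS : A ≤ S
  SM : S ≤ normalizer (adj A X.t : Set G)
  card : Nat.card S = 8 * Nat.card A
  tS : ∀ s ∈ S, cj X.t s ∈ S
  syl0 : Syl (adj S X.t) ⊤
  ΩQ : ∀ s ∈ adj S X.t, X.Ω s → s ∈ adj A X.t

end Fr

theorem defs_auto : True := by
  have := @Hyp.V.eq_1.{0,0}; have := @Hyp.O0.eq_1.{0,0}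
  have := @Hyp.E.eq_1.{0,0}; have := @Hyp.K.eq_1.{0,0}; have := @Hyp.N1.eq_1.{0,0}
  have := @Hyp.Ω.eq_1.{0,0}; have := @Fr.T.eq_1.{0,0}; have := @Fr.R.eq_1.{0,0}
  have := @Fr.f.eq_1.{0,0}; have := @Fr.σ.eq_1.{0,0}
  trivial

end H79.JO
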