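import Cfsg.Agent.Lib.JO.Defs
import Cfsg.Agent.Lib.StdW.Basic

/-!
Pump-ups of `A₅`, and the frames of the case leading to `O'N`.
-/

set_option autoImplicit false

namespace H79.JO

open Subgroup H69 H36.SW H4.YM H4.TL

variable {G : Type*} [Group G] {F : Type*} [Field F]

/-- isomorphic to `L₃(4)` -/
def IsL34 (E : Type*) [Group E] : Prop :=
  ∃ (K : Type) (_ : Field K) (_ : Fintype K), Fintype.card K = 4 ∧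
    Nonempty (E ≃* Matrix.ProjectiveSpecialLinearGroup (Fin 3) K)

/-- isomorphic to `U₃(4)` -/
def IsU34 (E : Type*) [Group E] : Prop :=
  ∃ (K : Type) (_ : Field K) (_ : Fintype K), Fintype.card K = 16 ∧ Nonempty (E ≃* Cfsg.PSU 3 K 4)

/-- the hypotheses of the pump-up lemma: `X ≅ A₅` is a component of `C(t)` modulo `Y` and cores -/
structure PH (H Y X : Subgroup G) (t w g : G) : Prop where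
  pY : IsPGroup 2 Y
  YH : Y ≤ H
  nY : H ≤ 𝐍(Y)
  XH : X ≤ H
  tH : t ∈ H
  tt : t * t = 1
  tY : t ∉ Y
  iso : Nonempty (X ≃* alternatingGroup (Fin 5))
  Xt : ∀ x ∈ X, x * t = t * x
  XY : X ≤ 𝐂(Y)
  h1 : ∀ x ∈ H, x * t * x⁻¹ * t ∈ Y → ∃ a ∈ X, a⁻¹ * x ∈ 𝐂(X)
  h2 : ∀ x ∈ H, x ∈ 𝐂(X) → P2 x → x * t * x⁻¹ * t ∈ Y → x ∈ Y ∨ x * t ∈ Y
  wX : w ∈ X
  w2 : w * w = 1
  w1 : w ≠ 1
  gH : g ∈ H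
  gw : g * w = w * g
  gt : g * t * g⁻¹ = t * w

/-- the pump-up `I` of `X` in `H` -/
structure PU (H Y X I : Subgroup G) : Prop where
  IH : I ≤ H
  XI : X ≤ I
  nI : H ≤ 𝐍(I)
  min : ∀ N : Subgroup G, X ≤ N → H ≤ 𝐍(N) → I ≤ N
  perf : I ≤ ⁅I, I⁆
  IY : I ≤ 𝐂(Y)
  cI : ∀ x ∈ H, x ∈ 𝐂(I) → P2 x → x ∈ Y
  typ : (∀ x ∈ I, P2 x → x * x ∈ 𝐂(I)) ∨ IsL34 (I ⧸ center I) ∨ IsU34 (I ⧸ center I)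

/-- facts common to `L₃(4)` and `U₃(4)`, modulo the centre -/
structure LU (I : Subgroup G) : Prop where
  e4 : ∀ x ∈ I, P2 x → x ^ 4 ∈ 𝐂(I)
  card : ∀ P, IsSylowIn 2 P I → Nat.card P = 64 * Nat.card (P ⊓ 𝐂(I) : Subgroup G)
  sq4 : ∀ P ≤ I, IsPGroup 2 P → ∀ a ∈ P, ∀ b ∈ P, a * a ∉ 𝐂(I) → b * b ∉ 𝐂(I) →
    a * a * (b * b) ∉ 𝐂(I) → ∀ x ∈ P, x * x ∈ 𝐂(I) ∨ x * x * (a * a) ∈ 𝐂(I) ∨ x * x * (b * b) ∈ 𝐂(I) ∨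
      x * x * (a * a * (b * b)) ∈ 𝐂(I)
  sqc : ∀ P ≤ I, IsPGroup 2 P → ∀ x ∈ P, ∀ y ∈ P, x * x * y * (x * x)⁻¹ * y⁻¹ ∈ 𝐂(I)
  one : ∀ x ∈ I, ∀ y ∈ I, x ∉ 𝐂(I) → y ∉ 𝐂(I) → x * x ∈ 𝐂(I) → y * y ∈ 𝐂(I) →
    ∃ g ∈ I, g * x * g⁻¹ * y ∈ 𝐂(I)
  simple : ∀ N : Subgroup G, N ≤ I → I ≤ 𝐍(N) → N ≤ 𝐂(I) ∨ I ≤ N

/-- `U₃(4)`: the involutions of a Sylow subgroup are the squares -/
def UF (I : Subgroup G) : Prop :=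
  ∀ P ≤ I, IsPGroup 2 P → ∀ a ∈ P, ∀ b ∈ P, a * a ∉ 𝐂(I) → b * b ∉ 𝐂(I) →
    a * a * (b * b) ∉ 𝐂(I) → ∀ x ∈ P, x * x ∈ 𝐂(I) → x ∈ 𝐂(I) ∨ x * (a * a) ∈ 𝐂(I) ∨ x * (b * b) ∈ 𝐂(I) ∨
      x * (a * a * (b * b)) ∈ 𝐂(I)

/-- `L₃(4)`: elements of odd order -/
structure LF (I : Subgroup G) : Prop where
  cen2 : ∀ x ∈ I, x ∉ 𝐂(I) → x * x ∈ 𝐂(I) → ∀ o ∈ I, Odd (orderOf o) → o * x * o⁻¹ * x⁻¹ ∈ 𝐂(I) →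
    o ∈ 𝐂(I)
  aut : ∀ o ∈ 𝐍(I), Odd (orderOf o) → ∀ P, IsSylowIn 2 P I → o ∈ 𝐂(P) → o ∈ 𝐂(I)

namespace Fr

variable (X : Fr G F)

/-- the case `A ≠ V`, `V` not strongly closed; `⟨f⟩ = C_A(r)` -/
structure ON (A : Subgroup G) (e : ℕ) (S : Subgroup G) (f : G) : Prop extends X.NS A e S where
  ne : A ≠ X.V
  zS : ∀ s ∈ S, cj s (X.v 1) = X.v 1
  ex : ∃ j ∈ S, j * j = 1 ∧ j ∉ A
  fA : f ∈ A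
  fr : cj X.r f = f
  fe : f ^ e = X.v 1
  gen : ∀ a ∈ A, cj X.r a = a → a ∈ zpowers f

/-- `g` acts on `V` trivially or as a transvection with centre `v 1` -/
def Tz (g : G) : Prop := ∀ u ∈ X.V, u * cj g u = 1 ∨ u * cj g u = X.v 1

/-- the local facts -/
structure O1 (A : Subgroup G) (e : ℕ) (S : Subgroup G) (f : G) : Prop extends X.ON A e S f where
  fX : ∀ x ∈ X.X5, cj x f = f
  weak : ∀ P : Subgroup G, IsPGroup 2 P → adj A X.t ≤ P → P ≤ 𝐍(adj A X.t)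
  cO : ∀ g ∈ 𝐍(adj A X.t), P2 g → ∀ o ∈ X.O0, cj g o = o
  tvj : ∀ g ∈ 𝐍(adj A X.t), (∀ u ∈ X.V, cj (g * g) u = u) → (¬ ∀ u ∈ X.V, cj g u = u) →
    ∃ j ∈ 𝐍(adj A X.t), j ∈ X.L ∧ j * j = 1 ∧ ∀ u ∈ X.V, cj j u = cj g u
  nocen : ∀ g ∈ 𝐍(adj A X.t), g ∈ X.L → (∀ u ∈ X.V, cj (g * g) u = u) → cj g f = f → X.Tz g
  TzS : ∀ g ∈ 𝐍(adj A X.t), g ∈ X.L → P2 g → X.Tz g → g ∈ S

/-- `C_L(f)⟨t⟩` -/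
def Hf (f : G) : Subgroup G := adj (X.L ⊓ centralizer {f}) X.t

/-- `I = 4.L₃(4)` -/
structure O2 (A : Subgroup G) (e : ℕ) (S : Subgroup G) (f : G) (I : Subgroup G) : Prop
    extends X.O1 A e S f where
  pu : PU (X.Hf f) (zpowers f) X.X5 I
  lu : LU I
  lf : LF I
  l34 : IsL34 (I ⧸ center I)
  a4 : ∀ a ∈ A, a ^ 4 = 1
  sqe : ∀ a ∈ A, a ^ e = a * a
  cardA : Nat.card A = 64
  IL : I ≤ X.L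
  fI : f ∈ I
  RI : ∀ s ∈ S, cj s f = f → s ∈ I
  RT : ∀ s ∈ S, cj s f = f ↔ X.Tz s
  cardR : Nat.card (S ⊓ centralizer {f} : Subgroup G) = 256
  sylR : IsSylowIn 2 (S ⊓ centralizer {f}) (X.L ⊓ centralizer {f})
  Mz : ∀ g ∈ 𝐍(adj A X.t), cj g (X.v 1) = X.v 1 → cj g f = f ∨ cj g f = f⁻¹

/-- weak closure -/
structure O3 (A : Subgroup G) (e : ℕ) (S : Subgroup G) (f : G) (I : Subgroup G) : Prop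
    extends X.O2 A e S f I where
  wcA : ∀ g, (∀ a ∈ A, cj g a ∈ S) → ∀ a ∈ A, cj g a ∈ A
  actA : ∀ g ∈ X.L, (∀ a ∈ A, cj g a ∈ A) → ∃ m ∈ 𝐍(adj A X.t), m ∈ X.L ∧ ∀ a ∈ A, cj g a = cj m a
  invS : ∀ i ∈ S, i * i = 1 → ∃ m ∈ 𝐍(adj A X.t), m ∈ X.L ∧ ∃ g ∈ I, cj (g * m) i ∈ X.V
  iso : ∀ g ∈ X.L, cj g (X.v 1) = X.v 1 → cj g f ∈ S → cj g f = f ∨ cj g f = f⁻¹

/-- the structure of `C_L(v 1)` -/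
structure O4 (A : Subgroup G) (e : ℕ) (S : Subgroup G) (f : G) (I Θ : Subgroup G) : Prop
    extends X.O3 A e S f I where
  mem : ∀ o, o ∈ Θ ↔ o ∈ X.L ∧ o ∈ 𝐂(I) ∧ Odd (orderOf o)
  cf : ∀ c ∈ X.L, cj c f = f → ∃ i ∈ I, ∃ o ∈ Θ, c = i * o
  cz : ∀ c ∈ X.L, cj c (X.v 1) = X.v 1 → (cj c f = f ∨ cj c f = f⁻¹) ∧ c ∈ 𝐍(I)

end Fr

theorem defs2_auto : True := by
  have := @IsL34.eq_1.{0}; have := @IsU34.eq_1.{0}; have := @UF.eq_1.{0}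
  have := @Fr.Tz.eq_1.{0,0}; have := @Fr.Hf.eq_1.{0,0}
  trivial

end H79.JO
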