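import Cfsg.Agent.Lib.JO.Good
import Cfsg.Agent.Lib.LocStruct.SylowIn
import Cfsg.Agent.Lib.Thompson.Basic

set_option autoImplicit false

namespace H79.JO

open Subgroup H4.YM H4.TL Matrix MatrixGroups
open H25.L2B (fix_sq fix_trace aut_comm aut_inv_uniq syl_iff WrD Lie2 Eight)

variable {G : Type*} [Group G] [Finite G] {F : Type*} [Field F] [Finite F]

namespace GA

omit [Finite G] in
theorem cj_of_odd {o y : G} (ho : Odd (orderOf o)) (h : cj (o * o) y = y) : cj o y = y := by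
  obtain ⟨k, hk⟩ := ho
  have e : o = (o * o) ^ (k + 1) := by
    rw [← pow_two, ← pow_mul, show 2 * (k + 1) = orderOf o + 1 by omega, pow_succ,
      pow_orderOf_eq_one, one_mul]
  exact mem_cen.1 (e ▸ pow_mem (mem_cen.2 h) _)

omit [Finite F] in
theorem card_hom {H K : Subgroup G} {β : G → F} (l : K ≤ H)
    (h1 : ∀ x ∈ H, ∀ y ∈ H, β (x * y) = β x + β y) (h2 : ∀ y ∈ H, β y = 0 ↔ y ∈ K) {s : Set F}
    (h3 : ∀ a, a ∈ s ↔ ∃ y ∈ H, β y = a) : Nat.card H = s.ncard * Nat.card K := by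
  let φ : H →* Multiplicative F :=
    MonoidHom.mk' (fun y => Multiplicative.ofAdd (β y)) fun x y => congrArg _ (h1 x x.2 y y.2)
  have k : φ.ker = K.subgroupOf H := by
    ext y; exact h2 y y.2
  have r : Nat.card φ.range = s.ncard := by
    rw [← Nat.card_coe_set_eq]
    exact Nat.card_congr (Multiplicative.toAdd.subtypeEquiv fun a => by
      rw [h3]; exact ⟨fun ⟨y, e⟩ => ⟨y, y.2, e⟩, fun ⟨y, hy, e⟩ => ⟨⟨y, hy⟩, e⟩⟩)
  rw [← r, ← index_ker, k, ← Nat.card_congr (subgroupOfEquivOfLe l).toEquiv, index_mul_card]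

/-- one layer of a free module -/
structure Lay (x : G) (τ : F ≃+* F) (B B' : Subgroup G) (β : G → F) : Prop where
  le : B ≤ B'
  mul : ∀ x ∈ B', ∀ y ∈ B', β (x * y) = β x + β y
  ker : ∀ y ∈ B', β y = 0 ↔ y ∈ B
  surj : ∀ a, ∃ y ∈ B', β y = a
  nx : ∀ y ∈ B', cj x y ∈ B'
  cjx : ∀ y ∈ B', β (cj x y) = τ (β y)

/-- every involution of the coset is conjugate to `x` -/
def Fre (x : G) (B : Subgroup G) : Prop := ∀ y ∈ B, x * y * (x * y) = 1 → ∃ w ∈ B, cj w x = x * y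

namespace Lay

variable {x : G} {τ : F ≃+* F} {B B' : Subgroup G} {β : G → F} (L : Lay x τ B B' β)
  (h : (2 : F) = 0) (xx : x * x = 1) (fr : Fre x B)
include L h

omit [Finite G] [Finite F] in
theorem inv {y : G} (hy : y ∈ B') : β y⁻¹ = β y := by
  have := L.mul _ (inv_mem hy) _ hy
  rw [inv_mul_cancel, (L.ker 1 (one_mem _)).2 (one_mem _)] at this
  linear_combination -this - β y * h

include xx fr

omit [Finite G] in
theorem free (τ1 : τ ≠ 1) (ττ : τ * τ = 1) : Fre x B' := fun y hy e => by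
  have xi : x⁻¹ = x := inv_eq_of_mul_eq_one_left xx
  have e1 := L.mul _ (L.nx y hy) _ hy
  rw [show cj x y * y = 1 by rw [← e, cj, xi]; group, (L.ker 1 (one_mem _)).2 (one_mem _),
    L.cjx y hy] at e1
  obtain ⟨c, hc⟩ := fix_trace h τ1 ττ (a := β y) (by linear_combination -e1 - β y * h)
  obtain ⟨w, hw, rfl⟩ := L.surj c
  have e2 : cj w (x * y) = x * (cj x w * y * w⁻¹) := by
    simp only [cj, xi, ← mul_assoc, xx, one_mul]
  obtain ⟨u, hu, e3⟩ := fr _ ((L.ker _ (mul_mem (mul_mem (L.nx w hw) hy) (inv_mem hw))).1 (by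
    rw [L.mul _ (mul_mem (L.nx w hw) hy) _ (inv_mem hw), L.mul _ (L.nx w hw) _ hy, L.cjx w hw,
      L.inv h hw, hc]
    linear_combination (β w + τ (β w)) * h)) (e2 ▸ cj_sq e)
  exact ⟨w⁻¹ * u, mul_mem (inv_mem hw) (L.le hu), by rw [mul_cj, e3, ← e2, inv_cj_cj]⟩

omit [Finite G] [Finite F] in
theorem fix {c : F} (hc : τ c = c) : ∃ y ∈ B', cj x y = y ∧ β y = c := by
  have xi : x⁻¹ = x := inv_eq_of_mul_eq_one_left xx
  obtain ⟨w, hw, rfl⟩ := L.surj c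
  have e2 : cj w x = x * (cj x w * w⁻¹) := by
    simp only [cj, xi, ← mul_assoc, xx, one_mul]
  obtain ⟨u, hu, e3⟩ := fr _ ((L.ker _ (mul_mem (L.nx w hw) (inv_mem hw))).1 (by
    rw [L.mul _ (L.nx w hw) _ (inv_mem hw), L.cjx w hw, L.inv h hw, hc]
    linear_combination β w * h)) (e2 ▸ cj_sq xx)
  refine ⟨u⁻¹ * w, mul_mem (inv_mem (L.le hu)) hw, cj_comm.1 (by
    rw [mul_cj, e2, ← e3, inv_cj_cj]), ?_⟩
  rw [L.mul _ (inv_mem (L.le hu)) _ hw, (L.ker _ (inv_mem (L.le hu))).2 (inv_mem hu), zero_add]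

omit [Finite F] in
theorem card : Nat.card (B' ⊓ centralizer {x} : Subgroup G) =
    {a | τ a = a}.ncard * Nat.card (B ⊓ centralizer {x} : Subgroup G) :=
  card_hom (inf_le_inf_right _ L.le) (fun a ha b hb => L.mul a ha.1 b hb.1)
    (fun y hy => (L.ker y hy.1).trans ⟨fun e => ⟨e, hy.2⟩, fun e => e.1⟩) fun a =>
    ⟨fun e => let ⟨y, a, b, c⟩ := L.fix h xx fr e; ⟨y, ⟨a, mem_cen.2 (cj_comm.1 b)⟩, c⟩,
      fun ⟨y, hy, e⟩ => by
        have := L.cjx y hy.1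
        rw [cj_comm.1 (mem_cen.1 hy.2), e] at this
        exact this.symm⟩

end Lay

/-- layers given by a power map -/
theorem lay_pow {X : Fr G F} {A B B' : Subgroup G} (D : X.Good A) {x : G} {τ : F ≃+* F}
    (hx : x ∈ X.N1) (hτ : ∀ a, cj x (X.v a) = X.v (τ a)) (e : ℕ) (l : B' ≤ A)
    (n : ∀ n ∈ X.N1, ∀ a ∈ B', cj n a ∈ B') (h1 : ∀ w ∈ B', w ^ e ∈ X.V)
    (h2 : ∀ w, w ∈ B ↔ w ∈ B' ∧ w ^ e = 1) (h3 : B' ≠ B) : ∃ β, Lay x τ B B' β := by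
  let β : G → F := fun w => Function.invFun X.v (w ^ e)
  have k : ∀ w ∈ B', X.v (β w) = w ^ e := fun w hw =>
    Function.invFun_eq (let ⟨a, ha⟩ := X.mem_V.1 (h1 w hw); ⟨a, ha.symm⟩)
  have le : B ≤ B' := fun w hw => ((h2 w).1 hw).1
  have ker : ∀ y ∈ B', β y = 0 ↔ y ∈ B := fun y hy => by
    rw [← X.v_eq_one, k y hy, h2, and_iff_right hy]
  refine ⟨β, le, fun a ha b hb => X.v_inj ?_, ker, fun a => ?_, n x hx, fun y hy => X.v_inj ?_⟩
  · rw [X.v_add, k a ha, k b hb, k _ (mul_mem ha hb), Commute.mul_pow (D.comm (l ha) (l hb))]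
  · by_cases a0 : a = 0
    · exact ⟨1, one_mem _, a0 ▸ (ker 1 (one_mem _)).2 (one_mem _)⟩
    obtain ⟨w, hw, w1⟩ := SetLike.not_le_iff_exists.1 fun e => h3 (le_antisymm e le)
    have w0 := mt (ker w hw).1 w1
    have hk := X.h_N1 (Units.mk0 _ (div_ne_zero a0 w0))
    refine ⟨_, n _ hk w hw, X.v_inj ?_⟩
    rw [k _ (n _ hk w hw), ← cj_pow, ← k w hw, X.h_v, Units.val_mk0, div_mul_cancel₀ _ w0]
  · rw [k _ (n x hx y hy), ← cj_pow, ← k y hy, hτ]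

theorem freA {X : Fr G F} {A : Subgroup G} (D : X.Good A) {x : G} {τ : F ≃+* F}
    (hx : x ∈ X.N1) (xx : x * x = 1) (hτ : ∀ a, cj x (X.v a) = X.v (τ a)) (τ1 : τ ≠ 1)
    (ττ : τ * τ = 1) : Fre x A ∧
      (A = X.V → Nat.card (A ⊓ centralizer {x} : Subgroup G) = {a | τ a = a}.ncard) ∧
      (A ≠ X.V → {a | τ a = a}.ncard ^ 2 ≤ Nat.card (A ⊓ centralizer {x} : Subgroup G)) := by
  have f0 : Fre x ⊥ := fun y hy _ => ⟨1, one_mem _, by rw [one_cj, mem_bot.1 hy, mul_one]⟩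
  obtain ⟨β, L⟩ := lay_pow (B := ⊥) D hx hτ 1 D.VA
    (fun n hn a ha => by obtain ⟨a, rfl⟩ := X.mem_V.1 ha; exact (X.mem_N1.1 hn).2 a)
    (fun w hw => by rwa [pow_one]) (fun w => by
      rw [pow_one, mem_bot]; exact ⟨fun e => ⟨e ▸ one_mem _, e⟩, And.right⟩)
    fun e => one_ne_zero (X.v_eq_one.1 (e.le (X.v_mem_V 1)))
  have cV := L.card X.char xx f0
  rw [bot_inf_eq, card_bot, mul_one] at cV
  choose B hB gB using D.omega
  have k : ∀ i, Fre x (B i) ∧ (B i ≠ X.V →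
      {a | τ a = a}.ncard ^ 2 ≤ Nat.card (B i ⊓ centralizer {x} : Subgroup G)) := fun i => by
    induction i with
    | zero =>
      have : B 0 = X.V := le_antisymm (fun a ha => D.sqV ((hB 0 a).1 ha).1
        (by simpa [pow_two] using ((hB 0 a).1 ha).2)) (gB 0).VA
      exact ⟨this ▸ L.free X.char xx f0 τ1 ττ, fun e => absurd this e⟩
    | succ i ih =>
      by_cases e : B (i + 1) = B i
      · rwa [e]
      obtain ⟨β, L⟩ := lay_pow D hx hτ (2 ^ (i + 1)) (fun a ha => ((hB _ a).1 ha).1) (gB _).nA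
        (fun w hw => D.sqV (pow_mem ((hB _ w).1 hw).1 _) (by
          rw [← pow_two, ← pow_mul, ← pow_succ, ((hB _ w).1 hw).2]))
        (fun w => by
          rw [hB, hB]
          exact ⟨fun e => ⟨⟨e.1, by rw [pow_succ, pow_mul, e.2, one_pow]⟩, e.2⟩,
            fun e => ⟨e.1.1, e.2⟩⟩) e
      refine ⟨L.free X.char xx ih.1 τ1 ττ, fun _ => ?_⟩
      rw [L.card X.char xx ih.1, pow_two]
      exact Nat.mul_le_mul_left _ (cV ▸ card_le_of_le (inf_le_inf_right _ (gB i).VA))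
  obtain ⟨n, hn⟩ := pg_card D.pg
  have e : B n = A := le_antisymm (fun a ha => ((hB _ a).1 ha).1) fun a ha => (hB _ a).2 ⟨ha, by
    rw [pow_succ, pow_mul, ← hn, show a ^ Nat.card A = 1 from
      orderOf_dvd_iff_pow_eq_one.1 (orderOf_dvd_natCard A ha), one_pow]⟩
  exact ⟨e ▸ (k n).1, fun e => by rw [e, cV], e ▸ (k n).2⟩

theorem T1_le (X : Fr G F) : adj (zpowers X.f) X.t ≤ X.T :=
  adj_le (zpowers_le.2 X.f_mem_T) (X.E_le_T self_mem_adj)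

theorem T1_triv {X : Fr G F} (P : X.Pure) {u : G} (hu : u ∈ adj (zpowers X.f) X.t)
    (_h : ∀ a, cj u (X.v a) = X.v a) : u = 1 ∨ u = X.t := P.T1_two hu

end GA

open GA

namespace Fr.Tow

variable {X : Fr G F} {A Y : Subgroup G} {b : G → F} (D : X.Tow A Y b)
include D

theorem cardY : Nat.card Y = Nat.card F * Nat.card A := by
  rw [card_hom D.AY D.b_mul D.b_ker (s := Set.univ) fun a => iff_of_true trivial (D.b_surj a),
    Set.ncard_univ]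

theorem T_nY : X.T ≤ normalizer (Y : Set G) := fun n hn => mem_norm.2 (D.nY n (X.T_le_N1 hn))

/-- `S = Y T` -/
theorem mem_S {x : G} : x ∈ Y ⊔ X.T ↔ ∃ y ∈ Y, ∃ u ∈ adj (zpowers X.f) X.t, x = y * u := by
  refine ⟨fun hx => ?_, fun ⟨y, hy, u, hu, e⟩ => e ▸ mul_mem_sup hy (T1_le X hu)⟩
  obtain ⟨y, hy, u, hu, rfl⟩ := (H69.mem_sup_of_le_normalizer_left D.T_nY).1 hx
  obtain ⟨a, w, hw, rfl⟩ := D.toPure.mem_T.1 hu
  exact ⟨_, mul_mem hy (D.AY (D.VA (X.v_mem_V a))), w, hw, (mul_assoc _ _ _).symm⟩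

theorem sylS : Syl (Y ⊔ X.T) (normalizer (adj A X.t : Set G)) := by
  refine syl_iff.2 ⟨sup_le (fun y hy => mem_norm.2 (adj_le_comap
    (fun a ha => le_adj (D.YA y hy a ha)) ?_)) (X.T_le_N1.trans D.N1_le),
    H69.isPGroup_sup_of_le_normalizer_left D.pgY X.pgT D.T_nY, fun P h1 h2 h3 =>
    le_antisymm (fun g hg => ?_) h1⟩
  · rw [← X.ttu (cj y X.t)]
    exact mul_mem self_mem_adj (le_adj (D.tY y hy))
  · obtain ⟨y, hy, n, hn, rfl⟩ := D.NQ g (h2 hg)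
    exact mul_mem_sup hy (X.infT h3 (le_sup_right.trans h1)
      ((mul_mem_cancel_left (h1 (mem_sup_left hy))).1 hg) (X.mem_N1.1 hn).1)

theorem Y_T1 {u : G} (hu : u ∈ adj (zpowers X.f) X.t) (h : u ∈ Y) : u = 1 :=
  (T1_triv D.toPure hu (D.YV u h)).resolve_right fun e => D.nΩ u h (e ▸ X.Ω_t)

theorem card_S : Nat.card (Y ⊔ X.T : Subgroup G) = Nat.card Y * (2 * orderOf X.σ) := by
  have := H24.card_sup_mul_card_inf' ((T1_le X).trans D.T_nY)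
  rw [show Y ⊓ adj (zpowers X.f) X.t = ⊥ from le_bot_iff.1 fun u hu => D.Y_T1 hu.2 hu.1, card_bot,
    mul_one, D.toPure.card_T1] at this
  rw [← this, le_antisymm (fun x hx => ?_) (sup_le_sup_left (T1_le X) Y)]
  obtain ⟨y, hy, u, hu, rfl⟩ := D.mem_S.1 hx
  exact mul_mem_sup hy hu

theorem S_comm {x y : G} (hx : x ∈ Y ⊔ X.T) (hy : y ∈ Y ⊔ X.T) : x * y * x⁻¹ * y⁻¹ ∈ Y := by
  obtain ⟨y1, h1, u, hu, rfl⟩ := D.mem_S.1 hx
  obtain ⟨y2, h2, w, hw, rfl⟩ := D.mem_S.1 hy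
  have e : y1 * u * (y2 * w) * (y1 * u)⁻¹ * (y2 * w)⁻¹ =
      y1 * cj u y2 * (u * w * u⁻¹ * y1⁻¹ * w⁻¹) * y2⁻¹ := by simp only [cj]; group
  rw [e, D.toPure.T1_comm hu hw, mul_inv_cancel_right]
  exact mul_mem (mul_mem (mul_mem h1 (mem_norm.1 (D.T_nY (T1_le X hu)) _ h2))
    (mem_norm.1 (D.T_nY (T1_le X hw)) _ (inv_mem h1))) (inv_mem h2)

theorem O0_Y {o : G} (ho : o ∈ X.O0) {y : G} (hy : y ∈ Y) : cj o y = y := by
  have hK := X.mem_K.1 (X.O0_le_K ho)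
  have e : cj (cj o y) X.t = cj y X.t := by
    rw [← hK.1, cj_cj, hK.1, ← X.ttu (cj y X.t), cj_mul, hK.1, D.O0_A ho (D.tY y hy)]
  obtain ⟨a, ha⟩ := X.mem_V.1 (D.cenY _ (mul_mem (inv_mem hy)
    (D.nY o (X.K_le_N1 (X.O0_le_K ho)) y hy)) (by rw [mul_cj, e, inv_cj_cj]))
  rw [inv_mul_eq_iff_eq_mul] at ha
  refine cj_of_odd (D.toPure.mem_O0.1 ho).2 ?_
  rw [mul_cj, ha, cj_mul, ha, hK.2 _ (X.jf.vA a), mul_assoc, X.v_sq, mul_one]

/-- `N(A⟨t⟩) ∩ C(V) = Y⟨t⟩ × O0` -/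
theorem NQ_two {g : G} (hg : g ∈ normalizer (adj A X.t : Set G)) (h : ∀ a, cj g (X.v a) = X.v a)
    {j : ℕ} (h2 : g ^ 2 ^ j = 1) : g ∈ Y ∨ X.t * g ∈ Y := by
  obtain ⟨y, hy, n, hn, rfl⟩ := D.NQ g hg
  obtain ⟨e, he, o, ho, rfl⟩ := D.toPure.cenE (X.mem_N1.1 hn).1 fun a => cj_inj y (by
    rw [← mul_cj, h, D.YV y hy])
  have hK := X.mem_K.1 (X.O0_le_K ho)
  obtain ⟨k, hk⟩ := pg_pow D.sylS.pg (mul_mem_sup hy (X.E_le_T he))
  obtain ⟨a, ha⟩ := X.mem_E.1 he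
  have c : Commute o (y * e) := cj_eq_iff.1 (by
    rw [cj_mul, D.O0_Y ho hy]
    rcases ha with rfl | rfl
    · rw [hK.2 _ (X.jf.vA a)]
    · rw [cj_mul, hK.1, hK.2 _ (X.jf.vA a)])
  have o1 : o = 1 := by
    have : (y * e * o) ^ 2 ^ (j + k) = 1 := by rw [pow_add, pow_mul, mul_assoc, h2, one_pow]
    rw [c.symm.mul_pow, add_comm, pow_add, pow_mul, hk, one_pow, one_mul, ← pow_add] at this
    exact orderOf_eq_one_iff.1 (((D.toPure.mem_O0.1 ho).2.coprime_two_right.pow_right _).eq_one_of_dvd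
      (orderOf_dvd_of_pow_eq_one this))
  have va := D.AY (D.VA (X.v_mem_V a))
  rw [o1, mul_one]
  refine ha.imp (fun e => by rw [e]; exact mul_mem hy va) fun e => ?_
  rw [e, show X.t * (y * (X.t * X.v a)) = cj X.t y * X.v a by rw [cj, X.tinv]; group]
  exact mul_mem (D.nY _ (X.E_le_N1 self_mem_adj) y hy) va

variable {x : G} {τ : F ≃+* F} (hx : x ∈ X.N1) (xx : x * x = 1)
  (hτ : ∀ a, cj x (X.v a) = X.v (τ a)) (τ1 : τ ≠ 1)
include hx xx hτ τ1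

omit D hx τ1 [Finite G] [Finite F] in
theorem sq_τ : τ * τ = 1 := RingEquiv.ext fun a => X.v_inj (by
  rw [RingAut.mul_apply, ← hτ, ← hτ, ← mul_cj, xx, one_cj, RingAut.one_apply])

omit xx τ1 [Finite G] [Finite F] in
theorem lay : Lay x τ A Y b := ⟨D.AY, D.b_mul, D.b_ker, D.b_surj, D.nY x hx, fun y hy => X.v_inj (by
  rw [D.b_cj x hx y hy, hτ])⟩

theorem free {y : G} (hy : y ∈ Y) (h : x * y * (x * y) = 1) : ∃ w ∈ Y, cj w x = x * y :=
  (D.lay hx hτ).free X.char xx (freA D.toGood hx xx hτ τ1 (sq_τ xx hτ)).1 τ1 (sq_τ xx hτ) y hy h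

theorem free_b {c : F} (hc : τ c = c) : ∃ y ∈ Y, cj x y = y ∧ b y = c :=
  (D.lay hx hτ).fix X.char xx (freA D.toGood hx xx hτ τ1 (sq_τ xx hτ)).1 hc

theorem free_card (h : A ≠ X.V) :
    Nat.card F ^ 3 ≤ Nat.card (Y ⊓ centralizer {x} : Subgroup G) ^ 2 := by
  obtain ⟨h1, -, h2⟩ := freA D.toGood hx xx hτ τ1 (sq_τ xx hτ)
  rw [(D.lay hx hτ).card X.char xx h1, ← fix_sq τ1 (sq_τ xx hτ), ← pow_mul, mul_comm 2, pow_mul,
    pow_succ' _ 2]
  exact Nat.pow_le_pow_left (Nat.mul_le_mul_left _ (h2 h)) 2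

theorem free_card' (h : A = X.V) : Nat.card (Y ⊓ centralizer {x} : Subgroup G) = Nat.card F := by
  obtain ⟨h1, h2, -⟩ := freA D.toGood hx xx hτ τ1 (sq_τ xx hτ)
  rw [(D.lay hx hτ).card X.char xx h1, ← fix_sq τ1 (sq_τ xx hτ), h2 h, pow_two]

end Fr.Tow

end H79.JO
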