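import Cfsg.Agent.Lib.JO.Bas

/-!
The pure case: `C(E) = E × O0`, and the subgroups inverted by `t` (good subgroups).
-/

set_option autoImplicit false
set_option linter.unusedSectionVars false

namespace H79.JO

open Subgroup H4.YM H4.TL Matrix MatrixGroups
open H25.L2B (fix_sq fix_trace aut_comm aut_inv_uniq syl_iff WrD Lie2 Eight)

namespace GoodAux

theorem cyc_aut (F : Type*) [Field F] [Finite F] (h : (2 : F) = 0) : IsCyclic (F ≃+* F) := by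
  haveI : Fact (Nat.Prime 2) := ⟨Nat.prime_two⟩
  haveI : CharP F 2 := (CharP.charP_iff_prime_eq_zero Nat.prime_two).2 (by exact_mod_cast h)
  letI := ZMod.algebra F 2
  let A : (F ≃+* F) →* (F ≃ₐ[ZMod 2] F) :=
    { toFun := fun σ => AlgEquiv.ofRingEquiv (f := σ) fun x => DFunLike.congr_fun
        (RingHom.ext_zmod ((σ : F →+* F).comp (algebraMap _ _)) (algebraMap _ _)) x
      map_one' := rfl
      map_mul' := fun _ _ => rfl }
  exact isCyclic_of_injective A fun σ τ e => RingEquiv.ext fun a => DFunLike.congr_fun e a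

variable {G : Type*} [Group G]

theorem eq_one_of {x : G} (h : Odd (orderOf x)) {j : ℕ} (h2 : x ^ 2 ^ j = 1) : x = 1 :=
  orderOf_eq_one_iff.1 (Nat.eq_one_of_dvd_coprimes ((Nat.coprime_two_right.2 h).pow_right j)
    dvd_rfl (orderOf_dvd_of_pow_eq_one h2))

theorem mem_of_pow [Finite G] {x : G} (h : Odd (orderOf x)) {j : ℕ} {H : Subgroup G}
    (h2 : x ^ 2 ^ j ∈ H) : x ∈ H :=
  zpowers_le.2 h2 (mem_zpowers_pow_iff.2 ((Nat.coprime_two_left.2 h).pow_left j))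

theorem pow_odd {e : G} (h : e * e = 1) {n : ℕ} (hn : Odd n) : e ^ n = e := by
  obtain ⟨k, rfl⟩ := hn
  rw [pow_succ, pow_mul, pow_two, h, one_pow, one_mul]

theorem orderOf_cj (g x : G) : orderOf (cj g x) = orderOf x :=
  (MulAut.conj g).orderOf_eq x

/-- the odd part of a commuting product of `2`-power order is trivial -/
theorem odd_part {y o : G} (hc : y * o = o * y) (ho : Odd (orderOf o)) {i j : ℕ}
    (hy : y ^ 2 ^ i = 1) (h : (y * o) ^ 2 ^ j = 1) : o = 1 := by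
  refine eq_one_of ho (j := i + j) ?_
  have h1 : (y * o) ^ 2 ^ (i + j) = 1 := by rw [add_comm, pow_add, pow_mul, h, one_pow]
  rwa [Commute.mul_pow hc, pow_add 2, pow_mul y, hy, one_pow, one_mul, ← pow_add] at h1

/-- a power map is multiplicative on a group with a central subgroup of that index -/
theorem pow_mul_of_central [Finite G] {R K : Subgroup G} (hR : R ≤ K)
    (hc : ∀ r ∈ R, ∀ k ∈ K, k * r = r * k) {m : ℕ} (hm : Nat.card K = Nat.card R * m) {x y : G}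
    (hx : x ∈ K) (hy : y ∈ K) : (x * y) ^ m = x ^ m * y ^ m := by
  have hle : R.subgroupOf K ≤ center K := fun r hr => mem_center_iff.2 fun k =>
    Subtype.ext (hc r hr k k.2)
  have hi : (R.subgroupOf K).index = m := by
    have := (R.subgroupOf K).card_mul_index
    rw [Nat.card_congr (subgroupOfEquivOfLe hR).toEquiv, hm] at this
    exact Nat.eq_of_mul_eq_mul_left Nat.card_pos this
  obtain ⟨c, hc⟩ := index_dvd_of_le hle
  have h1 := congrArg Subtype.val (map_mul (MonoidHom.transferCenterPow K) ⟨x, hx⟩ ⟨y, hy⟩)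
  simp only [MonoidHom.transferCenterPow_apply, coe_mul] at h1
  have h2 : Commute ((⟨x, hx⟩ : K) ^ (center K).index) (⟨y, hy⟩ ^ (center K).index) :=
    (mem_center_iff.1 ((center K).pow_index_mem _) _)
  have h3 := congrArg (fun z : K => ((z ^ c : K) : G)) h1
  simp only [h2.mul_pow, ← pow_mul, ← hc, hi] at h3
  simpa using h3

theorem exists_W {A O : Subgroup G} (h : ∀ a ∈ A, ∀ o ∈ O, o * a = a * o) :
    ∃ W : Subgroup G, ∀ x, x ∈ W ↔ ∃ a ∈ A, ∃ o ∈ O, x = a * o :=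
  ⟨{ carrier := {x | ∃ a ∈ A, ∃ o ∈ O, x = a * o}
     mul_mem' := by
       rintro _ _ ⟨a, ha, o, ho, rfl⟩ ⟨a', ha', o', ho', rfl⟩
       exact ⟨_, A.mul_mem ha ha', _, O.mul_mem ho ho', by
         rw [mul_assoc, ← mul_assoc o, h a' ha' o ho]; simp only [mul_assoc]⟩
     one_mem' := ⟨1, A.one_mem, 1, O.one_mem, (mul_one 1).symm⟩
     inv_mem' := by
       rintro _ ⟨a, ha, o, ho, rfl⟩
       exact ⟨_, A.inv_mem ha, _, O.inv_mem ho, by rw [← h a ha o ho, _root_.mul_inv_rev]⟩ },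
    fun _ => Iff.rfl⟩

/-- the group generated by two commuting elements, one of them an involution -/
theorem mem_T1 [Finite G] {g t : G} (ht : t * t = 1) (h : cj g t = t) {x : G} :
    x ∈ adj (zpowers g) t ↔ ∃ i : ℕ, x = g ^ i ∨ x = t * g ^ i := by
  have h1 : ∀ k ∈ zpowers g, cj t k ∈ zpowers g := by
    rintro _ ⟨n, rfl⟩
    rw [cj_eq_iff.2 ((Commute.symm (cj_eq_iff.1 h)).zpow_right n)]
    exact ⟨n, rfl⟩
  rw [mem_adj h1 (ht ▸ one_mem _), ← mem_powers_iff_mem_zpowers, ← mem_powers_iff_mem_zpowers]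
  constructor
  · rintro (⟨i, e⟩ | ⟨i, e⟩)
    · exact ⟨i, Or.inl e.symm⟩
    · exact ⟨i, Or.inr (by rw [show g ^ i = t⁻¹ * x from e, mul_inv_cancel_left])⟩
  · rintro ⟨i, rfl | rfl⟩
    · exact Or.inl ⟨i, rfl⟩
    · exact Or.inr ⟨i, by simp⟩

theorem comm_T1 [Finite G] {g t : G} (ht : t * t = 1) (h : cj g t = t) {x y : G}
    (hx : x ∈ adj (zpowers g) t) (hy : y ∈ adj (zpowers g) t) : x * y = y * x := by
  have hc : Commute g t := cj_eq_iff.1 h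
  obtain ⟨i, hi⟩ := (mem_T1 ht h).1 hx
  obtain ⟨j, hj⟩ := (mem_T1 ht h).1 hy
  have h1 : ∀ z, Commute z g → Commute z t → Commute z y := fun z a b => by
    rcases hj with rfl | rfl
    exacts [a.pow_right j, b.mul_right (a.pow_right j)]
  have h2 := h1 g (Commute.refl g) hc
  have h3 := h1 t hc.symm (Commute.refl t)
  rcases hi with rfl | rfl
  exacts [h2.pow_left i, h3.mul_left (h2.pow_left i)]

end GoodAux

open GoodAux

variable {G : Type*} [Group G] [Finite G] {F : Type*} [Field F] [Finite F] {X : Fr G F}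

namespace GoodAux

theorem K_v {κ : G} (h : κ ∈ X.K) (a : F) : cj κ (X.v a) = X.v a := (X.mem_K.1 h).2 _ (X.jf.vA a)

theorem K_E {κ e : G} (h : κ ∈ X.K) (he : e ∈ X.E) : cj κ e = e := by
  obtain ⟨a, rfl | rfl⟩ := X.mem_E.1 he
  · exact K_v h a
  · rw [cj_mul, K_v h, (X.mem_K.1 h).1]

/-- an injective self-map of `V` is onto -/
theorem V_surj {g : G} (h : ∀ a, cj g (X.v a) ∈ X.V) (a : F) : ∃ b, cj g (X.v b) = X.v a := by
  have h1 : g ∈ normalizer (X.V : Set G) := mem_norm.2 fun x hx => by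
    obtain ⟨b, rfl⟩ := X.mem_V.1 hx
    exact h b
  obtain ⟨b, e⟩ := X.mem_V.1 (mem_norm.1 (inv_mem h1) _ (X.v_mem_V a))
  exact ⟨b, inv_cj_eq.1 e⟩

end GoodAux

namespace Fr

namespace Pure

variable (P : X.Pure)
include P

theorem R_eq : X.R = zpowers X.t :=
  le_antisymm (fun ρ hρ => by
    rcases P.R2 ρ hρ with rfl | rfl
    exacts [one_mem _, mem_zpowers _]) (zpowers_le.2 X.tR)

theorem card_R : Nat.card X.R = 2 := by
  rw [P.R_eq, Nat.card_zpowers]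
  exact orderOf_eq_prime (by rw [pow_two, X.tt]) X.t1

theorem K_pow : ∃ m, Odd m ∧ (∀ x ∈ X.K, x ^ m = 1 ∨ x ^ m = X.t) ∧
    ∀ x ∈ X.K, ∀ y ∈ X.K, (x * y) ^ m = x ^ m * y ^ m := by
  obtain ⟨m, hm, hK⟩ := X.Rsyl.odd
  have hc : ∀ r ∈ X.R, ∀ k ∈ X.K, cj k r = r := fun r hr k hk => by
    rcases P.R2 r hr with rfl | rfl
    exacts [cj_one k, (X.mem_K.1 hk).1]
  refine ⟨m, hm, fun x hx => P.R2 _ ?_, fun x hx y hy =>
    pow_mul_of_central X.R_le_K (fun r hr k hk => cj_eq_iff.1 (hc r hr k hk)) hK hx hy⟩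
  have h1 : (x ^ m) ^ 2 ^ 1 = 1 := by
    have := congrArg Subtype.val (pow_card_eq_one' (x := (⟨x, hx⟩ : X.K)))
    rw [hK, P.card_R] at this
    rw [← pow_mul, pow_one, mul_comm]
    simpa using this
  obtain ⟨h, hh, e⟩ := X.Rsyl.conj (pg_zpowers h1) (zpowers_le.2 (pow_mem hx m))
  have h2 := mem_cm.1 (e (mem_zpowers _))
  have h3 := hc _ h2 h hh
  rw [cj_inv_cj] at h3
  rwa [h3]

theorem O0_pow : ∃ m, Odd m ∧ (∀ x ∈ X.K, x ^ m = 1 ∨ x ^ m = X.t) ∧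
    (∀ x ∈ X.K, x ^ m = 1 ↔ Odd (orderOf x)) ∧ ∀ x, x ∈ X.O0 ↔ x ∈ X.K ∧ x ^ m = 1 := by
  obtain ⟨m, hm, h1, h2⟩ := P.K_pow
  have h3 : ∀ x ∈ X.K, x ^ m = 1 ↔ Odd (orderOf x) := fun x hx =>
    ⟨fun h => hm.of_dvd_nat (orderOf_dvd_of_pow_eq_one h), fun h => (h1 x hx).resolve_right
      fun e => X.t1 (eq_one_of (j := 1) (h.of_dvd_nat (e ▸ orderOf_pow_dvd m))
        (by rw [pow_one, pow_two, X.tt]))⟩
  refine ⟨m, hm, h1, h3, fun x => ⟨fun hx => ?_, fun hx => subset_closure ⟨hx.1, (h3 x hx.1).1 hx.2⟩⟩⟩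
  refine closure_induction (p := fun x _ => x ∈ X.K ∧ x ^ m = 1)
    (fun x hx => ⟨hx.1, (h3 x hx.1).2 hx.2⟩) ⟨one_mem _, one_pow m⟩
    (fun x y _ _ hx hy => ⟨mul_mem hx.1 hy.1, by rw [h2 x hx.1 y hy.1, hx.2, hy.2, mul_one]⟩)
    (fun x _ hx => ⟨inv_mem hx.1, by rw [inv_pow, hx.2, inv_one]⟩) hx

theorem mem_O0 {x : G} : x ∈ X.O0 ↔ x ∈ X.K ∧ Odd (orderOf x) := by
  obtain ⟨m, -, -, h2, h3⟩ := P.O0_pow
  rw [h3]
  exact and_congr_right (h2 x)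

theorem K_split {κ : G} (h : κ ∈ X.K) : κ ∈ X.O0 ∨ X.t * κ ∈ X.O0 := by
  obtain ⟨m, hm, h1, -, h3⟩ := P.O0_pow
  refine (h1 κ h).imp (fun e => (h3 _).2 ⟨h, e⟩) fun e => (h3 _).2 ⟨mul_mem X.t_K h, ?_⟩
  rw [Commute.mul_pow (cj_eq_iff.1 (X.mem_K.1 h).1).symm, e, pow_odd X.tt hm, X.tt]

theorem VR : X.V ⊔ X.R = X.E := by rw [P.R_eq]; rfl

theorem mem_T {x : G} : x ∈ X.T ↔ ∃ a, ∃ y ∈ adj (zpowers X.f) X.t, x = X.v a * y := by
  constructor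
  · intro hx
    obtain ⟨ρ, hρ, a, i, rfl⟩ := X.mem_T.1 hx
    rcases P.R2 ρ hρ with rfl | rfl
    · exact ⟨a, _, (mem_T1 X.tt X.ft).2 ⟨i, Or.inl rfl⟩, by rw [one_mul]⟩
    · exact ⟨a, _, (mem_T1 X.tt X.ft).2 ⟨i, Or.inr rfl⟩, by
        rw [cj_eq_iff.1 (X.t_v a), mul_assoc]⟩
  · rintro ⟨a, y, hy, rfl⟩
    exact mul_mem (X.E_le_T (X.iE.le (X.v_mem_V a)))
      (adj_le (zpowers_le.2 X.f_mem_T) (X.R_le_T X.tR) hy)

theorem T1_comm {x y : G} (hx : x ∈ adj (zpowers X.f) X.t) (hy : y ∈ adj (zpowers X.f) X.t) :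
    x * y = y * x := comm_T1 X.tt X.ft hx hy

theorem T1_two {x : G} (hx : x ∈ adj (zpowers X.f) X.t) : x = 1 ∨ x = X.t := by
  obtain ⟨i, rfl | rfl⟩ := (mem_T1 X.tt X.ft).1 hx
  · exact P.R2 _ (X.fpow i (one_pow i))
  · exact P.R2 _ (mul_mem X.tR (X.fpow i (one_pow i)))

theorem V_T1 {a : F} (h : X.v a ∈ adj (zpowers X.f) X.t) : a = 0 :=
  X.v_eq_one.1 ((P.T1_two h).resolve_right fun e => X.t_A0 (e ▸ X.V_le_A0 (X.v_mem_V a)))

theorem card_T1 : Nat.card (adj (zpowers X.f) X.t) = 2 * orderOf X.σ := by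
  have h1 := X.card_T
  have h2 : Nat.card (F × adj (zpowers X.f) X.t) = Nat.card X.T :=
    Nat.card_congr (Equiv.ofBijective
      (fun p => ⟨X.v p.1 * p.2, P.mem_T.2 ⟨p.1, p.2, p.2.2, rfl⟩⟩) ⟨?_, ?_⟩)
  · rw [Nat.card_prod, h1, P.card_R, mul_assoc] at h2
    exact Nat.eq_of_mul_eq_mul_left Nat.card_pos h2
  · rintro ⟨a, y⟩ ⟨b, z⟩ e
    have e1 : X.v a * y = X.v b * z := congrArg Subtype.val e
    have e2 : X.v (b + a) = z * (y : G)⁻¹ := by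
      rw [X.v_add, eq_mul_inv_iff_mul_eq, mul_assoc, e1, ← mul_assoc, X.v_sq, one_mul]
    have e3 := P.V_T1 (e2 ▸ mul_mem z.2 (inv_mem y.2))
    have e4 : a = b := X.v_inj (by
      rw [← X.v_inv a, eq_comm, eq_inv_iff_mul_eq_one, ← X.v_add, e3, X.v_zero])
    subst e4
    rw [Subtype.ext (mul_left_cancel e1 : (y : G) = z)]
  · rintro ⟨x, hx⟩
    obtain ⟨a, y, hy, rfl⟩ := P.mem_T.1 hx
    exact ⟨⟨a, y, hy⟩, rfl⟩

/-- `C(E) = E × O0` -/
theorem cenE {c : G} (hc : cj c X.t = X.t) (h : ∀ a, cj c (X.v a) = X.v a) :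
    ∃ e ∈ X.E, ∃ o ∈ X.O0, c = e * o := by
  obtain ⟨a, κ, hκ, rfl⟩ := X.cenV hc h
  rcases P.K_split hκ with h1 | h1
  · exact ⟨_, X.iE.le (X.v_mem_V a), _, h1, rfl⟩
  · exact ⟨_, mul_mem (X.iE.le (X.v_mem_V a)) X.iE.mem, _, h1, by rw [mul_assoc, X.ttu]⟩

theorem cenE_two {c : G} (hc : cj c X.t = X.t) (h : ∀ a, cj c (X.v a) = X.v a) {j : ℕ}
    (h2 : c ^ 2 ^ j = 1) : c ∈ X.E := by
  obtain ⟨e, he, o, ho, rfl⟩ := P.cenE hc h
  rwa [odd_part (cj_eq_iff.1 (K_E (X.O0_le_K ho) he)).symm (P.mem_O0.1 ho).2 (i := 1)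
    (by rw [pow_one, pow_two, X.E_sq he]) h2, mul_one]

theorem nΩV {x : G} (hx : x ∈ X.V) : ¬ X.Ω x := by
  obtain ⟨a, rfl⟩ := X.mem_V.1 hx
  exact P.nV a

theorem mvV {s : G} (hs : X.Ω s) (h : ∀ a, cj s (X.v a) = X.v a) :
    ∃ g, cj g s = X.t ∧ ∀ a, cj g (X.v a) ∈ X.V := by
  obtain ⟨c, hc, e⟩ := X.sylΩ hs X.sylV.pg fun x hx => by
    obtain ⟨a, rfl⟩ := X.mem_V.1 hx
    exact cj_comm.1 (h a)
  exact ⟨c⁻¹, inv_cj_eq.2 hc, P.wc _ fun a => mem_cm.1 (e (X.v_mem_V a))⟩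

theorem pstar {s x : G} (hs : X.Ω s) (h : ∀ a, cj s (X.v a) = X.v a) (h1 : cj x s = s)
    (h2 : ∀ a, cj x (X.v a) = X.v a) {j : ℕ} (hj : x ^ 2 ^ j = 1) : x ∈ X.V ∨ s * x ∈ X.V := by
  obtain ⟨g, g1, g2⟩ := P.mvV hs h
  have h3 : cj g x ∈ X.E := P.cenE_two (j := j) (by rw [← g1, cj_cj, h1])
    (fun a => by obtain ⟨b, e⟩ := V_surj g2 a; rw [← e, cj_cj, h2])
    (by rw [← cj_pow, hj, cj_one])
  obtain ⟨a, e | e⟩ := X.mem_E.1 h3 <;> obtain ⟨b, e'⟩ := V_surj g2 a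
  · exact Or.inl (cj_inj g (e.trans e'.symm) ▸ X.v_mem_V b)
  · refine Or.inr (cj_inj g (?_ : cj g (s * x) = cj g (X.v b)) ▸ X.v_mem_V b)
    rw [cj_mul, g1, e, X.ttu, e']

theorem prod {s s' : G} (hs : X.Ω s) (hs' : X.Ω s') (h : ∀ a, cj s (X.v a) = X.v a)
    (h' : ∀ a, cj s' (X.v a) = X.v a) : ¬ X.Ω (s * s') := fun h2 => by
  have hc := comm_of_sq (X.sqΩ hs) (X.sqΩ hs') (X.sqΩ h2)
  rcases P.pstar hs h (cj_eq_iff.2 hc.symm) h' (j := 1) (by rw [pow_one, pow_two, X.sqΩ hs'])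
    with e | e
  exacts [P.nΩV e hs', P.nΩV e h2]

theorem nsq {r : G} (h : ∀ a, cj r (X.v a) = X.v a) {j : ℕ} (hj : r ^ 2 ^ j = 1) :
    ¬ X.Ω (r * r) := fun h2 => by
  have h3 := X.sqΩ h2
  rcases P.pstar h2 (fun a => by rw [mul_cj, h, h]) (cj_eq_iff.2 (mul_assoc _ _ _).symm) h hj
    with e | e
  · exact X.nΩ1 (X.E_sq (X.iE.le e) ▸ h2)
  · have h4 := X.E_sq (X.iE.le e)
    rw [show r * r * r * (r * r * r) = r * r * (r * r) * (r * r) by simp only [mul_assoc], h3,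
      one_mul] at h4
    exact X.nΩ1 (h4 ▸ h2)

theorem good : X.Good X.V :=
  ⟨P, X.sylV.pg, le_rfl, fun x hx => by obtain ⟨a, rfl⟩ := X.mem_V.1 hx; exact P.tV a,
    fun n hn x hx => by obtain ⟨a, rfl⟩ := X.mem_V.1 hx; exact (X.mem_N1.1 hn).2 a⟩

end Pure

namespace Good

variable {A : Subgroup G} (D : X.Good A)
include D

theorem inv {a : G} (ha : a ∈ A) : cj X.t a = a⁻¹ := cj_eq_inv_of_sq X.tt (X.sqΩ (D.Ω a ha))

theorem comm {a b : G} (ha : a ∈ A) (hb : b ∈ A) : a * b = b * a := by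
  have := D.inv (A.mul_mem ha hb)
  rw [cj_mul, D.inv ha, D.inv hb, ← _root_.mul_inv_rev, _root_.inv_inj] at this
  exact this.symm

theorem cjA {a b : G} (ha : a ∈ A) (hb : b ∈ A) : cj a b = b := cj_eq_iff.2 (D.comm ha hb)

theorem AV {a : G} (ha : a ∈ A) (b : F) : cj a (X.v b) = X.v b := D.cjA ha (D.VA (X.v_mem_V b))

theorem tAV {a : G} (ha : a ∈ A) (b : F) : cj (X.t * a) (X.v b) = X.v b := by
  rw [mul_cj, D.AV ha, X.t_v]

theorem nΩA {a : G} (ha : a ∈ A) : ¬ X.Ω a := by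
  have := D.toPure.prod X.Ω_t (D.Ω a ha) X.t_v (D.tAV ha)
  rwa [X.ttu] at this

theorem tA : X.t ∉ A := fun h => D.nΩA h X.Ω_t

theorem iQ : Idx A (adj A X.t) X.t :=
  idx_adj D.tA (fun a ha => by rw [D.inv ha]; exact A.inv_mem ha) (X.tt ▸ A.one_mem)

theorem pgQ : IsPGroup 2 (adj A X.t) := pg_idx D.iQ D.pg

theorem EQ : X.E ≤ adj A X.t := adj_le (D.VA.trans le_adj) self_mem_adj

theorem QV {x : G} (hx : x ∈ adj A X.t) (a : F) : cj x (X.v a) = X.v a := by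
  rcases D.iQ.cases hx with h | ⟨b, hb, rfl⟩
  exacts [D.AV h a, D.tAV hb a]

theorem memA {x : G} (hx : x ∈ adj A X.t) (h : ¬ X.Ω x) : x ∈ A :=
  (D.iQ.cases hx).resolve_right fun ⟨a, ha, e⟩ => h (e ▸ D.Ω a ha)

theorem memtA {x : G} (hx : x ∈ adj A X.t) (h : X.Ω x) : ∃ a ∈ A, x = X.t * a :=
  (D.iQ.cases hx).resolve_left fun ha => D.nΩA ha h

theorem sqV {a : G} (ha : a ∈ A) (h : a * a = 1) : a ∈ X.V := by
  have := D.toPure.cenE_two (cj_comm.1 (by rw [D.inv ha, inv_eq_of_mul_eq_one_right h]))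
    (D.AV ha) (j := 1) (by rw [pow_one, pow_two, h])
  obtain ⟨b, e | e⟩ := X.mem_E.1 this
  · exact e ▸ X.v_mem_V b
  · exact absurd (e ▸ D.tV b) (D.nΩA ha)

theorem NA {g : G} (hg : g ∈ normalizer (adj A X.t : Set G)) {a : G} (ha : a ∈ A) :
    cj g a ∈ A :=
  D.memA (mem_norm.1 hg a (le_adj ha)) fun h => D.nΩA ha ((X.Ω_cj g).1 h)

theorem NV {g : G} (hg : g ∈ normalizer (adj A X.t : Set G)) (a : F) : cj g (X.v a) ∈ X.V :=
  D.sqV (D.NA hg (D.VA (X.v_mem_V a))) (cj_sq (X.v_sq a))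

theorem N1_le : X.N1 ≤ normalizer (adj A X.t : Set G) := fun g hg =>
  mem_norm.2 (adj_le_comap (fun a ha => le_adj (D.nA g hg a ha))
    (by rw [(X.mem_N1.1 hg).1]; exact self_mem_adj))

theorem N1_of {g : G} (hg : g ∈ normalizer (adj A X.t : Set G)) (h : cj g X.t = X.t) :
    g ∈ X.N1 := X.mem_N1.2 ⟨h, D.NV hg⟩

theorem Nt {g : G} (hg : g ∈ normalizer (adj A X.t : Set G)) : X.t * cj g X.t ∈ A := by
  obtain ⟨a, ha, e⟩ := D.memtA (mem_norm.1 hg X.t self_mem_adj) ((X.Ω_cj g).2 X.Ω_t)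
  rwa [e, X.ttu]

theorem cjt {a : G} (ha : a ∈ A) : cj a X.t = X.t * (a⁻¹ * a⁻¹) := by
  have := D.inv ha
  rw [cj, X.tinv] at this
  rw [← mul_assoc, cj, mul_left_inj, ← this, mul_assoc X.t a, X.ttu]

theorem exists_exp : ∃ e : ℕ, (∀ a ∈ A, a ^ e ∈ X.V) ∧ (∀ u ∈ X.V, ∃ a ∈ A, a ^ e = u) ∧
    ∀ a ∈ A, a ^ e = 1 → ∃ α ∈ A, α * α = a := by
  classical
  have h0 : ∃ k, ∀ a ∈ A, a ^ 2 ^ k = 1 := by
    obtain ⟨n, hn⟩ := pg_card D.pg
    exact ⟨n, fun a ha => by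
      simpa [hn] using congrArg Subtype.val (pow_card_eq_one' (x := (⟨a, ha⟩ : A)))⟩
  obtain ⟨k, hk⟩ : ∃ k, Nat.find h0 = k + 1 := Nat.exists_eq_succ_of_ne_zero fun e => by
    have := Nat.find_spec h0 _ (D.VA (X.v_mem_V 1))
    rw [e, pow_zero, pow_one] at this
    exact one_ne_zero (X.v_eq_one.1 this)
  have h1 : ∀ a ∈ A, a ^ 2 ^ k * a ^ 2 ^ k = 1 := fun a ha => by
    rw [← pow_add, ← mul_two, ← pow_succ, ← hk, Nat.find_spec h0 a ha]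
  have h2 : ∀ a ∈ A, a ^ 2 ^ k ∈ X.V := fun a ha => D.sqV (A.pow_mem ha _) (h1 a ha)
  have h3 : ∀ u ∈ X.V, ∃ a ∈ A, a ^ 2 ^ k = u := fun u hu => by
    by_cases u1 : u = 1
    · exact ⟨1, A.one_mem, by rw [u1, one_pow]⟩
    have := Nat.find_min h0 (m := k) (by omega)
    push Not at this
    obtain ⟨a, ha, a1⟩ := this
    obtain ⟨b, hb⟩ := X.mem_V.1 (h2 a ha)
    obtain ⟨c, rfl⟩ := X.mem_V.1 hu
    have b0 : b ≠ 0 := fun e => a1 (hb.trans (X.v_eq_one.2 e))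
    have c0 : c ≠ 0 := fun e => u1 (X.v_eq_one.2 e)
    refine ⟨_, D.nA _ (X.h_N1 (Units.mk0 (c / b) (div_ne_zero c0 b0))) a ha, ?_⟩
    rw [← cj_pow, hb, X.h_v, Units.val_mk0, div_mul_cancel₀ _ b0]
  refine ⟨2 ^ k, h2, h3, fun a ha h => ?_⟩
  letI : CommGroup A := { (inferInstance : Group A) with
    mul_comm := fun a b => Subtype.ext (D.comm a.2 b.2) }
  have e1 : (powMonoidHom 2 : A →* A).ker = (powMonoidHom (2 ^ k) : A →* A).range := by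
    ext x
    constructor
    · intro hx
      obtain ⟨a, ha, e⟩ := h3 x (D.sqV x.2 (by rw [← pow_two]; exact congrArg Subtype.val hx))
      exact ⟨⟨a, ha⟩, Subtype.ext e⟩
    · rintro ⟨y, rfl⟩
      exact Subtype.ext ((pow_two _).trans (h1 y y.2))
  have e2 : (powMonoidHom 2 : A →* A).range ≤ (powMonoidHom (2 ^ k) : A →* A).ker := by
    rintro _ ⟨y, rfl⟩
    exact Subtype.ext ((pow_right_comm (y : G) 2 (2 ^ k)).trans ((pow_two _).trans (h1 y y.2)))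
  have e3 := (powMonoidHom 2 : A →* A).ker.index_mul_card
  have e4 := (powMonoidHom (2 ^ k) : A →* A).ker.index_mul_card
  rw [index_ker] at e3 e4
  rw [e1, ← e4, mul_comm] at e3
  obtain ⟨y, hy⟩ := (eq_of_le_of_card_ge e2 (Nat.eq_of_mul_eq_mul_left Nat.card_pos e3).ge).ge
    (show (⟨a, ha⟩ : A) ∈ (powMonoidHom (2 ^ k) : A →* A).ker from Subtype.ext h)
  exact ⟨y, y.2, by rw [← pow_two]; exact congrArg Subtype.val hy⟩

theorem sq_pow {a : G} {k : ℕ} (h : a ^ 2 ^ (k + 1) = 1) : (a * a) ^ 2 ^ k = 1 := by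
  rwa [← pow_two, ← pow_mul, ← pow_succ']

/-- an element of odd order normalising `A` and centralising `V` centralises `A` -/
theorem odd_cen {o : G} (ho : Odd (orderOf o)) (h1 : ∀ a ∈ A, cj o a ∈ A)
    (h2 : ∀ a, cj o (X.v a) = X.v a) {a : G} (ha : a ∈ A) : cj o a = a := by
  obtain ⟨k, hk⟩ := pg_pow D.pg ha
  induction k generalizing a with
  | zero => rw [pow_zero, pow_one] at hk; rw [hk, cj_one]
  | succ k ih =>
    have h3 := ih (A.mul_mem ha ha) (D.sq_pow hk)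
    have h4 : cj o a * a⁻¹ ∈ A := A.mul_mem (h1 a ha) (A.inv_mem ha)
    obtain ⟨b, hb⟩ := X.mem_V.1 (D.sqV h4 (by
      rw [mul_assoc, ← mul_assoc a⁻¹, D.comm (A.inv_mem ha) (h1 a ha), mul_assoc, ← mul_assoc,
        ← cj_mul, h3]; group))
    have h5 : cj o a = X.v b * a := by rw [← hb, inv_mul_cancel_right]
    refine mem_cen.1 (mem_of_pow ho (j := 1) (mem_cen.2 ?_))
    rw [pow_one, pow_two, mul_cj, h5, cj_mul, h2, h5, ← mul_assoc, X.v_sq, one_mul]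

theorem O0_A {o : G} (ho : o ∈ X.O0) {a : G} (ha : a ∈ A) : cj o a = a :=
  D.odd_cen (D.toPure.mem_O0.1 ho).2 (D.nA o (X.K_le_N1 (X.O0_le_K ho))) (K_v (X.O0_le_K ho)) ha

theorem O0_Q {o : G} (ho : o ∈ X.O0) {x : G} (hx : x ∈ adj A X.t) : cj o x = x := by
  rcases D.iQ.cases hx with h | ⟨a, ha, rfl⟩
  · exact D.O0_A ho h
  · rw [cj_mul, D.O0_A ho ha, (X.mem_K.1 (X.O0_le_K ho)).1]

theorem O0_norm {g : G} (hg : g ∈ normalizer (adj A X.t : Set G)) {o : G} (ho : o ∈ X.O0) :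
    cj g o ∈ X.O0 := by
  have h1 : ∀ x ∈ adj A X.t, cj (cj g o) x = x := fun x hx => by
    rw [← cj_inv_cj g x, cj_cj, D.O0_Q ho (mem_norm.1 (inv_mem hg) x hx)]
  obtain ⟨e, he, o', ho', h2⟩ := D.toPure.cenE (h1 _ self_mem_adj)
    fun a => h1 _ (D.EQ (X.iE.le (X.v_mem_V a)))
  have h3 : (cj g o) ^ (orderOf o * orderOf o') = 1 := by
    rw [pow_mul, ← orderOf_cj g o, pow_orderOf_eq_one, one_pow]
  rw [h2, Commute.mul_pow (cj_eq_iff.1 (K_E (X.O0_le_K ho') he)).symm, mul_comm, pow_mul o',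
    pow_orderOf_eq_one, one_pow, mul_one,
    pow_odd (X.E_sq he) ((D.toPure.mem_O0.1 ho').2.mul (D.toPure.mem_O0.1 ho).2)] at h3
  rwa [h2, h3, one_mul]

theorem A_le_L : A ≤ X.L := fun a ha => by
  by_cases h : X.t ∈ X.L
  · rw [X.L_top h]; exact mem_top a
  · rw [← X.ttu a, X.mul_mem_L h, X.Ω_L (D.Ω a ha)]

/-- the subgroups `Ω_i(A)` are good -/
theorem omega (i : ℕ) : ∃ B : Subgroup G, (∀ x, x ∈ B ↔ x ∈ A ∧ x ^ 2 ^ (i + 1) = 1) ∧ X.Good B := by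
  let B : Subgroup G :=
    { carrier := {x | x ∈ A ∧ x ^ 2 ^ (i + 1) = 1}
      mul_mem' := fun ha hb => ⟨A.mul_mem ha.1 hb.1, by
        rw [Commute.mul_pow (D.comm ha.1 hb.1), ha.2, hb.2, mul_one]⟩
      one_mem' := ⟨A.one_mem, one_pow _⟩
      inv_mem' := fun ha => ⟨A.inv_mem ha.1, by rw [inv_pow, ha.2, inv_one]⟩ }
  exact ⟨B, fun _ => Iff.rfl, D.toPure, pg_le D.pg fun _ h => h.1,
    fun x hx => ⟨D.VA hx, by rw [pow_succ', pow_mul, pow_two, X.E_sq (X.iE.le hx), one_pow]⟩,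
    fun a ha => D.Ω a ha.1,
    fun n hn a ha => ⟨D.nA n hn a ha.1, by rw [← cj_pow, ha.2, cj_one]⟩⟩

/-- `N(A⟨t⟩)` is transitive on `t A` -/
theorem trans {a : G} (ha : a ∈ A) :
    ∃ g ∈ normalizer (adj A X.t : Set G), cj g X.t = X.t * a := by
  obtain ⟨g, g1, g2⟩ := D.toPure.mvV (D.Ω a ha) (D.tAV ha)
  obtain ⟨e, e1, -, e3⟩ := D.exists_exp
  have key : ∀ x ∈ A, cj g x ∈ A := fun x hx => by
    obtain ⟨k, hk⟩ := pg_pow D.pg hx
    induction k generalizing x with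
    | zero => rw [pow_zero, pow_one] at hk; rw [hk, cj_one]; exact A.one_mem
    | succ k ih =>
      obtain ⟨α, hα, h1⟩ := e3 _ (ih _ (A.mul_mem hx hx) (D.sq_pow hk)) (by
        rw [← cj_pow, (Commute.refl x).mul_pow, X.E_sq (X.iE.le (e1 x hx)), cj_one])
      have h2 : cj (cj g x) X.t = cj α X.t := by
        have h3 : cj x (X.t * a) = X.t * a * (x * x)⁻¹ := by
          rw [cj_mul, D.cjt hx, D.cjA hx ha, _root_.mul_inv_rev, mul_assoc, mul_assoc X.t,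
            D.comm (A.mul_mem (A.inv_mem hx) (A.inv_mem hx)) ha]
        rw [D.cjt hα, ← _root_.mul_inv_rev, h1]
        conv_lhs => rw [← g1, cj_cj, h3, cj_mul, g1, cj_inv]
      obtain ⟨e0, he0, o, ho, h4⟩ := D.toPure.cenE (c := α⁻¹ * cj g x)
        (by rw [mul_cj, h2, inv_cj_cj]) fun b => by
          obtain ⟨c, hc⟩ := V_surj g2 b
          rw [mul_cj, inv_cj_eq, D.AV hα, ← hc, cj_cj, D.AV hx]
      have h5 : α * e0 ∈ adj A X.t := mul_mem (le_adj hα) (D.EQ he0)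
      have h6 : cj g x = α * e0 * o := by rw [mul_assoc, ← h4, mul_inv_cancel_left]
      obtain ⟨i, hi⟩ := pg_pow D.pgQ h5
      have h7 := odd_part (cj_eq_iff.1 (D.O0_Q ho h5)).symm (D.toPure.mem_O0.1 ho).2 hi
        (j := k + 1) (by rw [← h6, ← cj_pow, hk, cj_one])
      rw [h7, mul_one] at h6
      exact D.memA (h6 ▸ h5) fun h => D.nΩA hx ((X.Ω_cj g).1 h)
  refine ⟨g⁻¹, inv_mem (mem_norm.2 (adj_le_comap (fun x hx => le_adj (key x hx)) ?_)),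
    inv_cj_eq.2 g1⟩
  have h := mul_mem (self_mem_adj (K := A) (g := X.t)) (le_adj (key _ (A.inv_mem ha)))
  nth_rw 2 [← g1] at h
  rwa [← cj_mul, mul_inv_cancel_right] at h

end Good

end Fr

end H79.JO
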