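import Cfsg.Agent.Lib.JO.Defs2
import Cfsg.Agent.Lib.Ben.Sy3
import Cfsg.Agent.Lib.GL.Simple
import Cfsg.Agent.Lib.StdW.Cov

set_option autoImplicit false
set_option linter.unusedSectionVars false

namespace H79.JO

open Subgroup H69 H36.SW H4.YM H4.TL
open H25.L2B (syl_iff Lie2)

namespace L34

open H55.Ben.Sy3

variable {K : Type} [Field K] [Fintype K] {E : Type*} [Group E] [Finite E]

/-- a presentation of `L₃(4)` as a quotient of `SL₃(4)` -/
structure Pr (u : K → K → K → Matrix.SpecialLinearGroup (Fin 3) K)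
    (φ : Matrix.SpecialLinearGroup (Fin 3) K →* E) : Prop where
  hK : Fintype.card K = 4
  hu : ∀ a b c, (u a b c).1 = !![1, a, c; 0, 1, b; 0, 0, 1]
  surj : Function.Surjective φ
  ker : ∀ M, φ M = 1 ↔ M ∈ center (Matrix.SpecialLinearGroup (Fin 3) K)
  dvd : Nat.card E ∣ 64 * 945

theorem two (hK : Fintype.card K = 4) : (2 : K) = 0 := by
  have := FiniteField.cast_card_eq_zero K
  rw [hK, show (4 : ℕ) = 2 ^ 2 from rfl, Nat.cast_pow] at this
  exact_mod_cast (pow_eq_zero_iff (by omega)).1 this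

theorem four (hK : Fintype.card K = 4) {a b : K} (ha : a ≠ 0) (hb : b ≠ 0) (hab : a + b ≠ 0)
    (c : K) : c = 0 ∨ c + a = 0 ∨ c + b = 0 ∨ c + (a + b) = 0 := by
  have h2 := two hK
  have a3 : a ^ 3 = 1 := by
    have := FiniteField.pow_card_sub_one_eq_one a ha
    rwa [hK] at this
  have b3 : b ^ 3 = 1 := by
    have := FiniteField.pow_card_sub_one_eq_one b hb
    rwa [hK] at this
  have c4 : c ^ 4 = c := by
    have := FiniteField.pow_card c
    rwa [hK] at this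
  have e1 : a ^ 2 + a * b + b ^ 2 = 0 := by
    have : (a + b) * (a ^ 2 + a * b + b ^ 2) = 0 := by
      linear_combination a3 - b3 + (a ^ 2 * b + a * b ^ 2 + b ^ 3) * h2
    exact (mul_eq_zero.1 this).resolve_left hab
  have e2 : c * ((c + a) * ((c + b) * (c + (a + b)))) = 0 := by
    linear_combination c4 + (c ^ 2 + a * c) * e1 - c * a3 +
      (c ^ 3 * (a + b) + c ^ 2 * a * b) * h2
  simpa only [mul_eq_zero] using e2

variable {u : K → K → K → Matrix.SpecialLinearGroup (Fin 3) K}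
  {φ : Matrix.SpecialLinearGroup (Fin 3) K →* E}

theorem Pr.cj (h : Pr u φ) (g : E) : Pr u ((MulAut.conj g).toMonoidHom.comp φ) :=
  ⟨h.hK, h.hu, (MulAut.conj g).surjective.comp h.surj, fun M => by
    rw [← h.ker]; simp, h.dvd⟩

theorem Pr.mul (h : Pr u φ) (a b c a' b' c' : K) :
    φ (u a b c) * φ (u a' b' c') = φ (u (a + a') (b + b') (c + c' + a * b')) := by
  rw [← map_mul, u_mul h.hu]

theorem Pr.zero (h : Pr u φ) : φ (u 0 0 0) = 1 := f_one (f := fun a b c => φ (u a b c)) h.mul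

theorem Pr.inj (h : Pr u φ) {a b c : K} (e : φ (u a b c) = 1) : a = 0 ∧ b = 0 ∧ c = 0 :=
  u_cen h.hu ((h.ker _).1 e)

theorem Pr.sq (h : Pr u φ) (a b c : K) : φ (u a b c) * φ (u a b c) = φ (u 0 0 (a * b)) := by
  have h2 := two h.hK
  rw [h.mul]
  congr 2
  · linear_combination a * h2
  · linear_combination b * h2
  · linear_combination c * h2

theorem Pr.zz (h : Pr u φ) (c d : K) : φ (u 0 0 c) * φ (u 0 0 d) = φ (u 0 0 (c + d)) := by
  rw [h.mul]; simp

theorem Pr.zc (h : Pr u φ) (d a b c : K) :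
    φ (u 0 0 d) * φ (u a b c) = φ (u a b c) * φ (u 0 0 d) := by
  rw [h.mul, h.mul]; simp [add_comm]

theorem Pr.p2 (h : Pr u φ) (a b c : K) : φ (u a b c) ^ 4 = 1 := by
  rw [show φ (u a b c) ^ 4 = (φ (u a b c) * φ (u a b c)) * (φ (u a b c) * φ (u a b c)) by
      simp only [pow_succ, pow_zero, one_mul, mul_assoc],
    h.sq, h.sq, mul_zero, h.zero]

theorem Pr.syl (h : Pr u φ) : ∃ U : Subgroup E, (∀ x, x ∈ U ↔ ∃ a b c, φ (u a b c) = x) ∧
    Nat.card U = 64 ∧ IsSylowIn 2 U ⊤ := by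
  obtain ⟨U, hU, cU, -⟩ := core (L := ⊤) (two h.hK) h.hu φ (fun g _ => h.surj g)
    fun M e => (h.ker M).1 e
  rw [Nat.card_eq_fintype_card (α := K), h.hK] at cU
  refine ⟨U, hU, cU, isSylowIn_of_not_dvd_relIndex (IsPGroup.of_card (n := 6) cU) le_top ?_⟩
  rw [relIndex_top_right]
  intro d
  have e := U.card_mul_index
  have hd := h.dvd
  rw [← e, cU] at hd
  have : U.index ∣ 945 := Nat.dvd_of_mul_dvd_mul_left (by norm_num : 0 < 4 ^ 3) hd
  have := d.trans this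
  omega

theorem Pr.frame (h : Pr u φ) {T : Subgroup E} (hT : IsPGroup 2 T) :
    ∃ ψ : Matrix.SpecialLinearGroup (Fin 3) K →* E, Pr u ψ ∧ ∀ t ∈ T, ∃ a b c, ψ (u a b c) = t := by
  obtain ⟨U, hU, -, sU⟩ := h.syl
  obtain ⟨g, -, hg⟩ := sU.exists_le_cj hT le_top
  refine ⟨_, h.cj g, fun t ht => ?_⟩
  obtain ⟨y, hy, rfl⟩ := mem_cj'.1 (hg ht)
  obtain ⟨a, b, c, rfl⟩ := (hU y).1 hy
  exact ⟨a, b, c, rfl⟩

theorem Pr.frameS (h : Pr u φ) {T : Subgroup E} (hT : IsSylowIn 2 T ⊤) : Nat.card T = 64 ∧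
    ∃ ψ : Matrix.SpecialLinearGroup (Fin 3) K →* E, Pr u ψ ∧ ∀ a b c, ψ (u a b c) ∈ T := by
  obtain ⟨ψ, hψ, e⟩ := h.frame hT.isP
  obtain ⟨U, hU, cU, sU⟩ := hψ.syl
  have : U = T := hT.max U (fun t ht => (hU t).2 (e t ht)) le_top sU.isP
  subst this
  exact ⟨cU, ψ, hψ, fun a b c => (hU _).2 ⟨a, b, c, rfl⟩⟩

theorem bez {a c : K} (h : ¬ (a = 0 ∧ c = 0)) : ∃ x y : K, x * c - y * a = 1 := by
  by_cases hc : c = 0
  · have ha : a ≠ 0 := fun e => h ⟨e, hc⟩
    exact ⟨0, -a⁻¹, by simp [ha]⟩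
  · exact ⟨c⁻¹, 0, by simp [hc]⟩

theorem Pr.conj_z (h : Pr u φ) {x : E} (x1 : x ≠ 1) (x2 : x * x = 1) :
    ∃ g, g * x * g⁻¹ = φ (u 0 0 1) := by
  obtain ⟨U, hU, -, sU⟩ := h.syl
  obtain ⟨g, -, hg⟩ := sU.exists_cj_le (P2.of_sq x2).zpowers le_top
  obtain ⟨a, b, c, e⟩ := (hU _).1 (hg (mem_cj'.2 ⟨x, mem_zpowers x, rfl⟩))
  have s : φ (u a b c) * φ (u a b c) = 1 := by
    rw [e]
    calc g * x * g⁻¹ * (g * x * g⁻¹) = g * (x * x) * g⁻¹ := by group
      _ = 1 := by rw [x2]; group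
  rw [h.sq] at s
  have hab := (h.inj s).2.2
  have n0 : ¬ (a = 0 ∧ b = 0 ∧ c = 0) := by
    rintro ⟨rfl, rfl, rfl⟩
    rw [h.zero] at e
    exact x1 (by simpa using e.symm)
  suffices ∃ M, M * u a b c = u 0 0 1 * M by
    obtain ⟨M, hM⟩ := this
    refine ⟨φ M * g, ?_⟩
    calc φ M * g * x * (φ M * g)⁻¹ = φ M * (g * x * g⁻¹) * (φ M)⁻¹ := by group
      _ = φ (u 0 0 1) := by rw [← e, ← map_mul, hM, map_mul, mul_inv_cancel_right]
  rcases mul_eq_zero.1 hab with rfl | rfl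
  · obtain ⟨p, q, hp⟩ := bez (a := b) (c := c) fun e => n0 ⟨rfl, e⟩
    obtain ⟨M, hM⟩ : ∃ M : Matrix.SpecialLinearGroup (Fin 3) K,
        M.1 = !![p, -q, 0; -b, c, 0; 0, 0, 1] :=
      ⟨⟨_, by simp [Matrix.det_fin_three]; linear_combination hp⟩, rfl⟩
    refine ⟨M, Subtype.ext ?_⟩
    rw [Matrix.SpecialLinearGroup.coe_mul, Matrix.SpecialLinearGroup.coe_mul, h.hu, h.hu, hM]
    ext i j
    fin_cases i <;> fin_cases j <;> simp [Matrix.mul_apply, Fin.sum_univ_three]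
    · linear_combination hp
    · ring
  · obtain ⟨p, q, hp⟩ := bez (a := a) (c := c) fun e => n0 ⟨e.1, rfl, e.2⟩
    obtain ⟨M, hM⟩ : ∃ M : Matrix.SpecialLinearGroup (Fin 3) K,
        M.1 = !![1, 0, 0; 0, p, q; 0, a, c] :=
      ⟨⟨_, by simp [Matrix.det_fin_three]; linear_combination hp⟩, rfl⟩
    refine ⟨M, Subtype.ext ?_⟩
    rw [Matrix.SpecialLinearGroup.coe_mul, Matrix.SpecialLinearGroup.coe_mul, h.hu, h.hu, hM]
    ext i j
    fin_cases i <;> fin_cases j <;> simp [Matrix.mul_apply, Fin.sum_univ_three]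

theorem Pr.cz (h : Pr u φ) {g : E} (c : g * φ (u 0 0 1) = φ (u 0 0 1) * g) :
    ∃ a b c, φ (u a b c) = g := by
  obtain ⟨M, rfl⟩ := h.surj g
  have zz : u 0 0 1 * u 0 0 1 = 1 := by
    apply Subtype.ext
    rw [u_mul h.hu, h.hu, show (1 + 1 + 0 * 0 : K) = 0 by linear_combination two h.hK]
    ext i j
    fin_cases i <;> fin_cases j <;> simp
  set z := u 0 0 1 with hz
  have hw : M * z * M⁻¹ * z⁻¹ ∈ center (Matrix.SpecialLinearGroup (Fin 3) K) := by
    rw [← h.ker, map_mul, map_mul, map_mul, c, map_inv, map_inv]; group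
  set w := M * z * M⁻¹ * z⁻¹ with hw'
  have w3 := cen_cube hw
  have wz : z * w = w * z := mem_center_iff.1 hw z
  have e1 : M * z * M⁻¹ = w * z := by rw [hw']; group
  have w2 : w * w = 1 := by
    calc w * w = w * w * (z * z) := by rw [zz, mul_one]
      _ = w * (w * z) * z := by group
      _ = w * (z * w) * z := by rw [wz]
      _ = (w * z) * (w * z) := by group
      _ = M * (z * z) * M⁻¹ := by rw [← e1]; group
      _ = 1 := by rw [zz]; group
  have w1 : w = 1 := by rwa [w2, one_mul] at w3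
  have e2 : M * z = z * M := by
    rw [w1, one_mul] at e1
    rw [← mul_inv_eq_iff_eq_mul.1 e1]
  have h0 := congrArg Subtype.val e2
  rw [Matrix.SpecialLinearGroup.coe_mul, Matrix.SpecialLinearGroup.coe_mul, hz, h.hu] at h0
  have h1 := congrFun (congrFun h0 1) 2
  have h2 := congrFun (congrFun h0 2) 2
  have h3 := congrFun (congrFun h0 0) 1
  have h4 := congrFun (congrFun h0 0) 2
  simp [Matrix.mul_apply, Fin.sum_univ_three] at h1 h2 h3 h4
  have h5 : M.1 2 2 = M.1 0 0 := by linear_combination -h4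
  have hd := M.2
  rw [Matrix.det_fin_three, h1, h2, h3, h5] at hd
  have d0 : M.1 0 0 ≠ 0 := fun e => by
    rw [e] at hd; simp at hd
  have d3 : M.1 0 0 ^ 3 = 1 := by
    have := FiniteField.pow_card_sub_one_eq_one _ d0
    rwa [h.hK] at this
  have h6 : M.1 1 1 = M.1 0 0 := by
    linear_combination M.1 0 0 * hd - M.1 1 1 * d3
  let D : Matrix.SpecialLinearGroup (Fin 3) K :=
    ⟨Matrix.scalar (Fin 3) (M.1 0 0), by simp [d3]⟩
  have hD : φ D = 1 := (h.ker D).2 (Matrix.SpecialLinearGroup.mem_center_iff.2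
    ⟨M.1 0 0, by simpa using d3, rfl⟩)
  refine ⟨M.1 0 0 ^ 2 * M.1 0 1, M.1 0 0 ^ 2 * M.1 1 2, M.1 0 0 ^ 2 * M.1 0 2, ?_⟩
  rw [← one_mul (φ (u _ _ _)), ← hD, ← map_mul]
  congr 1
  apply Subtype.ext
  rw [Matrix.SpecialLinearGroup.coe_mul, h.hu]
  ext i j
  fin_cases i <;> fin_cases j <;>
    simp [D, Matrix.mul_apply, Fin.sum_univ_three, Matrix.diagonal, h1, h2, h3, h5, h6]
  · linear_combination M.1 0 1 * d3
  · linear_combination M.1 0 2 * d3
  · linear_combination M.1 1 2 * d3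

theorem Pr.cen2 (h : Pr u φ) {x o : E} (x1 : x ≠ 1) (x2 : x * x = 1) (ho : Odd (orderOf o))
    (c : o * x = x * o) : o = 1 := by
  obtain ⟨g, hg⟩ := h.conj_z x1 x2
  obtain ⟨a, b, d, e⟩ := h.cz (g := g * o * g⁻¹) (by
    rw [← hg]
    calc g * o * g⁻¹ * (g * x * g⁻¹) = g * (o * x) * g⁻¹ := by group
      _ = g * x * g⁻¹ * (g * o * g⁻¹) := by rw [c]; group)
  have p : P2 o := by
    have := (P2.of_four (h.p2 a b d)).conj g⁻¹
    rw [e] at this
    simpa [mul_assoc] using this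
  exact p.eq_one ho

theorem Pr.aut (h : Pr u φ) (α : E →* E) {m : ℕ} (hm : Odd m) (hα : ∀ x, α^[m] x = x)
    (hU : ∀ a b c, α (φ (u a b c)) = φ (u a b c)) (x : E) : α x = x := by
  have key : ∀ M a b c, M * u 0 0 1 = u a b c * M → α (φ M) = φ M := by
    intro M a b c e
    have e1 : φ M * φ (u 0 0 1) = φ (u a b c) * φ M := by rw [← map_mul, e, map_mul]
    have e2 : α (φ M) * φ (u 0 0 1) = φ (u a b c) * α (φ M) := by
      have := congrArg α e1
      rwa [map_mul, map_mul, hU, hU] at this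
    obtain ⟨a', b', c', e3⟩ := h.cz (g := (φ M)⁻¹ * α (φ M)) (by
      have e4 : φ (u 0 0 1) * (φ M)⁻¹ = (φ M)⁻¹ * φ (u a b c) := by
        rw [mul_inv_eq_iff_eq_mul, mul_assoc, ← e1]; group
      rw [mul_assoc, e2, ← mul_assoc, ← e4, mul_assoc])
    set y := φ (u a' b' c') with hy
    have e5 : α (φ M) = φ M * y := by rw [e3]; group
    have e6 : ∀ k, α^[k] (φ M) = φ M * y ^ k := by
      intro k
      induction k with
      | zero => simp
      | succ k ih =>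
        rw [Function.iterate_succ_apply', ih, map_mul, map_pow, e5, hy, hU, ← hy, pow_succ',
          mul_assoc]
    have e7 : y ^ m = 1 := by
      have := e6 m
      rw [hα] at this
      exact mul_eq_left.1 this.symm
    have e8 : y = 1 := (P2.of_four (h.p2 a' b' c')).eq_one
      (hm.of_dvd_nat (orderOf_dvd_of_pow_eq_one e7))
    rw [e5, e8, mul_one]
  have t1 : ∀ (i j : Fin 3) (e : i ≠ j) (c : K), ¬ (i = 2 ∧ j = 0) →
      α (φ (Matrix.SpecialLinearGroup.transvection e c)) =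
        φ (Matrix.SpecialLinearGroup.transvection e c) := by
    intro i j e c n
    refine key _ (if i = 2 ∧ j = 1 then -c else 0) (if i = 1 ∧ j = 0 then c else 0) 1
      (Subtype.ext ?_)
    rw [Matrix.SpecialLinearGroup.coe_mul, Matrix.SpecialLinearGroup.coe_mul, h.hu, h.hu,
      Matrix.SpecialLinearGroup.transvection_coe]
    ext k l
    simp only [Matrix.mul_apply, Fin.sum_univ_three, Matrix.add_apply, Matrix.single_apply,
      Matrix.one_apply]
    fin_cases i <;> fin_cases j <;>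
      first
      | exact absurd rfl e
      | exact absurd ⟨rfl, rfl⟩ n
      | (fin_cases k <;> fin_cases l <;> simp [add_comm])
  obtain ⟨M, rfl⟩ := h.surj x
  refine H10.SL_transvection_induction (fun M => α (φ M) = φ M) (by simp) ?_ ?_ M
  · intro i j e c
    by_cases n : i = 2 ∧ j = 0
    · obtain ⟨rfl, rfl⟩ := n
      have := H10.commutator_transvection (R := K) (i := (2 : Fin 3)) (j := 1) (k := 0)
        (by decide) (by decide) e c 1
      rw [mul_one] at this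
      rw [← this, map_commutatorElement, map_commutatorElement, t1 _ _ _ _ (by decide),
        t1 _ _ _ _ (by decide)]
    · exact t1 i j e c n
  · intro A B hA hB
    rw [map_mul, map_mul, hA, hB]

theorem exists_pr (h : IsL34 E) : IsSimpleGroup E ∧ ∃ (K : Type) (_ : Field K) (_ : Fintype K)
    (u : K → K → K → Matrix.SpecialLinearGroup (Fin 3) K)
    (φ : Matrix.SpecialLinearGroup (Fin 3) K →* E), Pr u φ := by
  obtain ⟨K, _, _, hK, ⟨e⟩⟩ := h
  haveI := H10.isSimpleGroup_PSL_of_three_le (ι := Fin 3) (F := K) (by simp)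
  refine ⟨e.isSimpleGroup, K, inferInstance, inferInstance, ?_⟩
  obtain ⟨u, hu⟩ := exists_u K
  refine ⟨u, e.symm.toMonoidHom.comp (QuotientGroup.mk' _), hK, hu,
    e.symm.surjective.comp QuotientGroup.mk_surjective, fun M => ?_, ?_⟩
  · rw [MonoidHom.comp_apply, MulEquiv.coe_toMonoidHom, EmbeddingLike.map_eq_one_iff]
    exact QuotientGroup.eq_one_iff M
  · have := card_dvd K
    rw [Nat.card_eq_fintype_card (α := K), hK, ← Nat.card_congr e.toEquiv] at this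
    exact this

variable {G : Type*} [Group G] [Finite G] {I : Subgroup G}

theorem ker_pi (x : I) : QuotientGroup.mk' (center I) x = 1 ↔ (x : G) ∈ 𝐂(I) := by
  rw [QuotientGroup.mk'_apply, QuotientGroup.eq_one_iff, mem_center_iff, mem_centralizer_iff]
  exact ⟨fun h g hg => congrArg Subtype.val (h ⟨g, hg⟩), fun h g => Subtype.ext (h g g.2)⟩

variable {π : I →* E}

theorem frame' (h : Pr u φ) {P : Subgroup G} (hP : IsPGroup 2 P) :
    ∃ ψ : Matrix.SpecialLinearGroup (Fin 3) K →* E, Pr u ψ ∧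
      ∀ x : I, (x : G) ∈ P → ∃ a b c, ψ (u a b c) = π x := by
  obtain ⟨ψ, hψ, e⟩ := h.frame (T := (P.subgroupOf I).map π) (hP.comap_subtype.map π)
  exact ⟨ψ, hψ, fun x hx => e _ ⟨x, hx, rfl⟩⟩

theorem syl_im (hs : Function.Surjective π) {P : Subgroup G} (hP : IsSylowIn 2 P I) :
    IsSylowIn 2 ((P.subgroupOf I).map π) ⊤ := by
  have := hP.subgroupOf_top.map π
  rwa [map_top_of_surjective π hs] at this

theorem lu (hs : Function.Surjective π) (hk : ∀ x, π x = 1 ↔ (x : G) ∈ 𝐂(I)) [IsSimpleGroup E]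
    (h : Pr u φ) (p : I ≤ ⁅I, I⁆) : LU I := by
  refine ⟨fun x hx h2 => ?_, fun P hP => ?_, fun P hI hP a ha b hb na nb nab x hx => ?_,
    fun P hI hP x hx y hy => ?_, fun x hx y hy nx ny x2 y2 => ?_, fun N hN hn => ?_⟩
  · obtain ⟨ψ, hψ, e⟩ := frame' (π := π) h h2.zpowers
    obtain ⟨a, b, c, e1⟩ := e ⟨x, hx⟩ (mem_zpowers x)
    exact (hk (⟨x, hx⟩ ^ 4)).1 (by rw [map_pow, ← e1, hψ.p2])
  · have c1 := (h.frameS (syl_im hs hP)).1
    let f : P →* E := π.comp (inclusion hP.le)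
    have c2 : f.range = (P.subgroupOf I).map π := by
      ext y
      constructor
      · rintro ⟨x, rfl⟩
        exact ⟨inclusion hP.le x, x.2, rfl⟩
      · rintro ⟨x, hx, rfl⟩
        exact ⟨⟨x, hx⟩, rfl⟩
    have c3 : f.ker = (P ⊓ 𝐂(I)).subgroupOf P := by
      ext x
      rw [MonoidHom.mem_ker, mem_subgroupOf, mem_inf]
      exact (hk _).trans ⟨fun h => ⟨x.2, h⟩, fun h => h.2⟩
    have c4 := f.ker.card_mul_index
    rw [index_ker, c2, c1, c3, Nat.card_congr (subgroupOfEquivOfLe inf_le_left).toEquiv] at c4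
    rw [← c4, mul_comm]
  · obtain ⟨ψ, hψ, e⟩ := frame' (π := π) h hP
    obtain ⟨a1, a2, a3, ea⟩ := e ⟨a, hI ha⟩ ha
    obtain ⟨b1, b2, b3, eb⟩ := e ⟨b, hI hb⟩ hb
    obtain ⟨x1, x2, x3, ex⟩ := e ⟨x, hI hx⟩ hx
    set a' : I := ⟨a, hI ha⟩
    set b' : I := ⟨b, hI hb⟩
    set x' : I := ⟨x, hI hx⟩
    have sa : π (a' * a') = ψ (u 0 0 (a1 * a2)) := by rw [map_mul, ← ea, hψ.sq]
    have sb : π (b' * b') = ψ (u 0 0 (b1 * b2)) := by rw [map_mul, ← eb, hψ.sq]
    have sx : π (x' * x') = ψ (u 0 0 (x1 * x2)) := by rw [map_mul, ← ex, hψ.sq]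
    have sab : π (a' * a' * (b' * b')) = ψ (u 0 0 (a1 * a2 + b1 * b2)) := by
      rw [map_mul, sa, sb, hψ.zz]
    rcases four hψ.hK (a := a1 * a2) (b := b1 * b2)
      (fun e0 => na ((hk (a' * a')).1 (by rw [sa, e0, hψ.zero])))
      (fun e0 => nb ((hk (b' * b')).1 (by rw [sb, e0, hψ.zero])))
      (fun e0 => nab ((hk (a' * a' * (b' * b'))).1 (by rw [sab, e0, hψ.zero]))) (x1 * x2)
      with e0 | e0 | e0 | e0
    · exact Or.inl ((hk (x' * x')).1 (by rw [sx, e0, hψ.zero]))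
    · exact Or.inr (Or.inl ((hk (x' * x' * (a' * a'))).1
        (by rw [map_mul, sx, sa, hψ.zz, e0, hψ.zero])))
    · exact Or.inr (Or.inr (Or.inl ((hk (x' * x' * (b' * b'))).1
        (by rw [map_mul, sx, sb, hψ.zz, e0, hψ.zero]))))
    · exact Or.inr (Or.inr (Or.inr ((hk (x' * x' * (a' * a' * (b' * b')))).1
        (by rw [map_mul, sx, sab, hψ.zz, e0, hψ.zero]))))
  · obtain ⟨ψ, hψ, e⟩ := frame' (π := π) h hP
    obtain ⟨x1, x2, x3, ex⟩ := e ⟨x, hI hx⟩ hx
    obtain ⟨y1, y2, y3, ey⟩ := e ⟨y, hI hy⟩ hy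
    set x' : I := ⟨x, hI hx⟩
    set y' : I := ⟨y, hI hy⟩
    have sx : π (x' * x') = ψ (u 0 0 (x1 * x2)) := by rw [map_mul, ← ex, hψ.sq]
    refine (hk (x' * x' * y' * (x' * x')⁻¹ * y'⁻¹)).1 ?_
    rw [map_mul, map_mul, map_mul _ (x' * x'), map_inv, map_inv, sx, ← ey, hψ.zc]
    group
  · set x' : I := ⟨x, hx⟩
    set y' : I := ⟨y, hy⟩
    have sy : π y' * π y' = 1 := by rw [← map_mul]; exact (hk _).2 y2
    obtain ⟨g, hg⟩ := h.conj_z (x := π x') (fun e => nx ((hk _).1 e))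
      (by rw [← map_mul]; exact (hk _).2 x2)
    obtain ⟨k, hk'⟩ := h.conj_z (x := π y') (fun e => ny ((hk _).1 e)) sy
    obtain ⟨m, hm⟩ := hs (k⁻¹ * g)
    refine ⟨m, m.2, (hk (m * x' * m⁻¹ * y')).1 ?_⟩
    rw [map_mul, map_mul, map_mul, map_inv, hm, ← sy]
    congr 1
    calc k⁻¹ * g * π x' * (k⁻¹ * g)⁻¹ = k⁻¹ * (g * π x' * g⁻¹) * k := by group
      _ = π y' := by rw [hg, ← hk']; group
  · haveI n1 : (N.subgroupOf I).Normal := (normal_subgroupOf_iff_le_normalizer hN).2 hn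
    rcases (n1.map π hs).eq_bot_or_eq_top with e | e
    · left
      intro x hx
      refine (hk ⟨x, hN hx⟩).1 ?_
      rw [← mem_bot, ← e]
      exact ⟨⟨x, hN hx⟩, hx, rfl⟩
    · right
      refine p.trans (commutator_le.2 fun x hx y hy => ?_)
      have dec : ∀ x ∈ I, ∃ n ∈ N, ∃ c ∈ 𝐂(I), x = n * c := fun x hx => by
        obtain ⟨n, hn, e1⟩ : π ⟨x, hx⟩ ∈ (N.subgroupOf I).map π := e ▸ mem_top _
        refine ⟨n, hn, (n : G)⁻¹ * x, (hk (n⁻¹ * ⟨x, hx⟩)).1 ?_, by group⟩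
        rw [map_mul, map_inv, e1, inv_mul_cancel]
      obtain ⟨n, hn1, c, hc, rfl⟩ := dec x hx
      obtain ⟨m, hm1, d, hd, rfl⟩ := dec y hy
      rw [comm_cen (hN hn1) hy hc hd, commutatorElement_def]
      exact N.mul_mem (N.mul_mem (N.mul_mem hn1 hm1) (N.inv_mem hn1)) (N.inv_mem hm1)

theorem lf (hs : Function.Surjective π) (hk : ∀ x, π x = 1 ↔ (x : G) ∈ 𝐂(I))
    (h : Pr u φ) (p : I ≤ ⁅I, I⁆) : LF I := by
  refine ⟨fun x hx nx x2 o ho oo c => ?_, fun o ho oo P hP c => ?_⟩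
  · set x' : I := ⟨x, hx⟩
    set o' : I := ⟨o, ho⟩
    refine (hk o').1 (h.cen2 (x := π x') (fun e => nx ((hk _).1 e))
      (by rw [← map_mul]; exact (hk _).2 x2) ?_ ?_)
    · refine oo.of_dvd_nat ((orderOf_map_dvd π o').trans ?_)
      rw [← Subgroup.orderOf_coe]
    · have := (hk (o' * x' * o'⁻¹ * x'⁻¹)).2 c
      rw [map_mul, map_mul, map_mul, map_inv, map_inv, mul_inv_eq_one, mul_inv_eq_iff_eq_mul]
        at this
      exact this
  · let β : MulAut I := I.normalizerMonoidHom ⟨o, ho⟩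
    have hβ : ∀ x : I, ((β x : I) : G) = o * x * o⁻¹ := fun x => rfl
    have hle : π.ker ≤ (π.comp β.toMonoidHom).ker := by
      intro x hx
      rw [MonoidHom.mem_ker] at hx ⊢
      refine (hk (β x)).2 ?_
      rw [mem_centralizer_iff]
      intro y hy
      obtain ⟨y', e⟩ := β.surjective ⟨y, hy⟩
      have e' : y = o * y' * o⁻¹ := by rw [← hβ, e]
      have c' := mem_centralizer_iff.1 ((hk x).1 hx) y' y'.2
      rw [e', hβ]
      calc o * y' * o⁻¹ * (o * x * o⁻¹) = o * (y' * x) * o⁻¹ := by group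
        _ = o * x * o⁻¹ * (o * y' * o⁻¹) := by rw [c']; group
    let α : E →* E := π.liftOfSurjective hs ⟨π.comp β.toMonoidHom, hle⟩
    have hα : ∀ x, α (π x) = π (β x) := fun x =>
      π.liftOfRightInverse_comp_apply _ _ ⟨π.comp β.toMonoidHom, hle⟩ x
    have it : ∀ (k : ℕ) (x : I), α^[k] (π x) = π ((β ^ k) x) := by
      intro k
      induction k with
      | zero => intro x; rfl
      | succ k ih =>
        intro x
        rw [Function.iterate_succ_apply', ih, hα, pow_succ', MulAut.mul_apply]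
    have bm : β ^ orderOf o = 1 := by
      rw [← map_pow, show (⟨o, ho⟩ : 𝐍(I)) ^ orderOf o = 1 from
        Subtype.ext (by simp [pow_orderOf_eq_one]), map_one]
    obtain ⟨-, ψ, hψ, e⟩ := h.frameS (syl_im hs hP)
    have fix := hψ.aut α oo (fun y => by
      obtain ⟨x, rfl⟩ := hs y
      rw [it, bm, MulAut.one_apply]) (fun a b d => by
      obtain ⟨x, hx, e1⟩ := e a b d
      rw [← e1, hα]
      congr 1
      apply Subtype.ext
      rw [hβ, ← mem_centralizer_iff.1 c x hx, mul_inv_cancel_right])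
    refine mem_cent_of_perf p ho fun a ha => (hk ((⟨a, ha⟩ : I)⁻¹ * β ⟨a, ha⟩)).1 ?_
    rw [map_mul, ← hα, fix, map_inv, inv_mul_cancel]

end L34

variable {G : Type*} [Group G] [Finite G] {F : Type*} [Field F] [Finite F]

theorem lu_l34 {I : Subgroup G} (p : I ≤ ⁅I, I⁆) (h : IsL34 (I ⧸ center I)) : LU I := by
  obtain ⟨hs, K, _, _, u, φ, hp⟩ := L34.exists_pr h
  exact L34.lu (QuotientGroup.mk'_surjective _) L34.ker_pi hp p

theorem lf_l34 {I : Subgroup G} (p : I ≤ ⁅I, I⁆) (h : IsL34 (I ⧸ center I)) : LF I := by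
  obtain ⟨hs, K, _, _, u, φ, hp⟩ := L34.exists_pr h
  exact L34.lf (QuotientGroup.mk'_surjective _) L34.ker_pi hp p

end H79.JO
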