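import Cfsg.Agent.Lib.JO.NrC

/-! The case `q = 8` without translations: a Sylow subgroup (helper84). -/

set_option autoImplicit false
set_option linter.unusedSectionVars false

namespace H79.JO

open Subgroup H4.YM H4.TL Matrix MatrixGroups
open H25.L2B (fix_sq fix_trace aut_comm aut_inv_uniq syl_iff WrD Lie2 Eight)

variable {G : Type*} [Group G] [Finite G] {F : Type*} [Field F] [Finite F]

namespace Nr0

theorem grow {K P : Subgroup G} (hP : IsPGroup 2 P) (h : K ≤ P) (hn : K ≠ P) :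
    ∃ g ∈ P, g ∉ K ∧ ∀ x ∈ K, cj g x ∈ K := by
  have := hP.isNilpotent
  obtain ⟨x, hx, hx'⟩ := SetLike.exists_of_lt (Group.normalizerCondition_of_isNilpotent (K.subgroupOf P)
    (lt_top_iff_ne_top.2 fun e => hn (le_antisymm h (subgroupOf_eq_top.1 e))))
  exact ⟨x, x.2, hx', fun y hy => (mem_normalizer_iff.1 hx ⟨y, h hy⟩).1 hy⟩

variable {X : Fr G F} {A S : Subgroup G} {e : ℕ} (D : X.NE A e)
include D

theorem card_S (hQ : adj A X.t ≤ S) (h : Syl S (normalizer (adj A X.t : Set G))) :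
    Nat.card S = 16 * Nat.card A := by
  obtain ⟨n, hn⟩ := pg_card D.pg
  have o : orb (normalizer (adj A X.t : Set G)) X.t = (fun x => X.t * x) '' (A : Set G) := by
    ext x
    exact ⟨fun ⟨g, hg, f⟩ => ⟨_, D.Nt hg, by simp only [X.ttu, f]⟩, fun ⟨a, ha, f⟩ => f ▸ D.tr a ha⟩
  have TS : X.T ≤ S := D.T_E.le.trans (D.EQ.trans hQ)
  rw [← card_orb S X.t, h.orb_pow (k := n) (by rw [o, ncard_coset, hn]), o, ncard_coset,
    X.syl.eq_of_le (pg_le h.pg inf_le_left) inf_le_right (le_inf TS X.syl.le), D.T_E,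
    X.card_E, D.eight, mul_comm]

theorem mem_V {x : G} (hx : x ∈ X.E) (hL : x ∈ X.L) : x ∈ X.V := by
  obtain ⟨a, rfl | rfl⟩ := X.mem_E.1 hx
  · exact X.v_mem_V a
  · exact absurd ((X.L.mul_mem_cancel_right (X.A0_le_L (X.V_le_A0 (X.v_mem_V a)))).1 hL) D.tL

theorem V_sq {u : G} (hu : u ∈ X.V) : u * u = 1 := X.E_sq (le_adj hu)

theorem NV {g u : G} (hg : g ∈ normalizer (adj A X.t : Set G)) (hu : u ∈ X.V) : cj g u ∈ X.V := by
  obtain ⟨a, rfl⟩ := X.mem_V.1 hu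
  exact D.NV hg a

theorem not_mv (hA : A = X.V) (hQ : adj A X.t ≤ S) (h : Syl S (normalizer (adj A X.t : Set G))) {s : G}
    (hs : s ∈ S) (hΩ : X.Ω s) : ∀ u ∈ X.V, cj s u = u := by
  by_contra mv
  have ss := X.sqΩ hΩ
  have si : s⁻¹ = s := inv_eq_of_mul_eq_one_right ss
  have sM := h.le hs
  have sL : s ∉ X.L := fun a => D.tL ((X.Ω_L hΩ).1 a)
  have QE : adj A X.t = X.E := by rw [hA]; rfl
  have s2 : ∀ u ∈ X.V, cj (s * s) u = u := fun u _ => by rw [ss, one_cj]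
  have pe : ∀ u ∈ X.V, u ^ e = u := fun u hu => by
    rcases Nat.even_or_odd e with ⟨k, hk⟩ | o
    · obtain ⟨a, ha, f⟩ := D.eS u hu
      rw [hk, ← two_mul, pow_mul, pow_two, V_sq D (hA.le ha), one_pow] at f
      rw [← f, one_pow]
    · exact GoodAux.pow_odd (V_sq D hu) o
  have cV : X.t * cj s X.t ∈ X.V := hA ▸ D.Nt sM
  have nf : ∀ u ∈ X.V, X.t * cj s X.t ≠ u * cj s u := fun u hu f =>
    mv (D.nofix sM s2 hu ((pe _ cV).trans f))
  have c1 : cj X.t s = s * (X.t * cj s X.t) := by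
    rw [← inv_eq_of_mul_eq_one_right (V_sq D cV)]
    simp only [cj, si, X.tinv, _root_.mul_inv_rev, mul_assoc]
    rw [← mul_assoc s s, ss, one_mul]
  have c2 : cj s (X.t * cj s X.t) = X.t * cj s X.t := by
    rw [cj_mul, ← mul_cj, ss, one_cj, ← inv_eq_of_mul_eq_one_right (V_sq D cV), _root_.mul_inv_rev, ← cj_inv,
      X.tinv]
  generalize X.t * cj s X.t = c at cV nf c1 c2
  obtain ⟨d, hd, -, -, ⟨u, hu, ud⟩, -, -, all⟩ := e8_fix D.card8 (fun u => V_sq D) (fun u => NV D sM) s2 mv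
  have cu : ∀ {u}, u ∈ X.V → cj u s = s * (u * cj s u) := fun {u} hu => by
    have : u * cj s u = cj s u * u := (cj_eq_iff.1 (X.E_comm (le_adj hu) (le_adj (NV D sM hu))))
    rw [this]
    simp only [cj, si, inv_eq_of_mul_eq_one_right (V_sq D hu), mul_assoc]
    rw [← mul_assoc s s, ss, one_mul]
  have inv : ∀ x ∈ X.E, s * x * (s * x) = 1 → x ∈ X.V := fun x hx f => by
    have g : cj s x = x := by
      rw [cj_eq_inv_of_sq ss f, inv_eq_of_mul_eq_one_right (X.E_sq hx)]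
    obtain ⟨a, rfl | rfl⟩ := X.mem_E.1 hx
    · exact X.v_mem_V a
    · refine absurd ?_ (fun k => mv (D.nofix sM s2 (X.v_mem_V a) ((pe _ (hA ▸ D.Nt sM)).trans k)))
      rw [cj_mul, ← eq_mul_inv_iff_mul_eq] at g
      rw [g, mul_assoc, X.ttu, inv_eq_of_mul_eq_one_right (V_sq D (NV D sM (X.v_mem_V a)))]
  have tr : ∀ x ∈ X.E, s * x * (s * x) = 1 → ∃ y ∈ X.E, cj y s = s * x := fun x hx f => by
    have tE : X.t ∈ X.E := self_mem_adj
    rcases all c cV c2 (fun k => nf 1 (one_mem _) (by rw [k, cj_one, mul_one])) (fun k => nf u hu (k.trans ud.symm))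
      x (inv x hx f) (by rw [cj_eq_inv_of_sq ss f, inv_eq_of_mul_eq_one_right (X.E_sq hx)]) with
      rfl | rfl | rfl | rfl
    · exact ⟨1, one_mem _, by rw [one_cj, mul_one]⟩
    · exact ⟨u, le_adj hu, by rw [cu hu, ud]⟩
    · exact ⟨_, tE, c1⟩
    · exact ⟨X.t * u, mul_mem tE (le_adj hu), by
        rw [mul_cj, cu hu, ud, cj_mul, c1, X.E_comm tE (le_adj hd), mul_assoc]⟩
  have nE : ∀ g ∈ S, ∀ x ∈ X.E, cj g x ∈ X.E := fun g hg => QE ▸ mem_norm.1 (h.le hg)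
  have sE : s ∉ X.E := fun k => mv fun u hu => X.E_comm k (le_adj hu)
  have I : Idx X.E (adj X.E s) s := idx_adj sE (nE s hs) (ss ▸ one_mem _)
  have ES : X.E ≤ S := QE ▸ hQ
  obtain ⟨g, hg, gK, gn⟩ := grow h.pg (adj_le ES hs) fun k => by
    have := card_S D hQ h
    rw [← k, I.card, X.card_E, hA, D.card8, D.eight] at this
    omega
  obtain ⟨x, hx, e1⟩ := (I.cases (gn s I.mem)).resolve_left fun k =>
    sE (inv_cj_cj g s ▸ nE _ (inv_mem hg) _ k)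
  obtain ⟨y, hy, e2⟩ := tr x hx (e1 ▸ cj_sq ss)
  obtain ⟨f, fS, fK, fL, fs⟩ : ∃ f ∈ S, f ∉ adj X.E s ∧ f ∈ X.L ∧ cj f s = s := by
    have a1 : y⁻¹ * g ∈ S := mul_mem (inv_mem (ES hy)) hg
    have a2 : y⁻¹ * g ∉ adj X.E s := fun k => gK ((mul_mem_cancel_left (inv_mem (I.le hy))).1 k)
    have a3 : cj (y⁻¹ * g) s = s := by rw [mul_cj, e1, ← e2, inv_cj_cj]
    by_cases k : y⁻¹ * g ∈ X.L
    · exact ⟨_, a1, a2, k, a3⟩
    · exact ⟨s * (y⁻¹ * g), mul_mem hs a1, fun l => a2 ((mul_mem_cancel_left I.mem).1 l),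
        (X.mul_mem_L D.tL).2 (iff_of_false sL k), by rw [mul_cj, a3, cj_eq_iff]⟩
  obtain ⟨j, hj⟩ := pg_pow h.pg fS
  obtain ⟨m, -, w, hw, e3⟩ := D.lift hA (h.le fS) (D.sq_of_cen hΩ fs hj)
    (fun k => fK (I.le (le_adj (hA ▸ D.cenM_two (h.le fS) fL k hj)))) sM (ss ▸ one_mem _) mv
  have := (X.L_cj m).2 fL
  rw [e3] at this
  exact sL ((X.L.mul_mem_cancel_right (X.A0_le_L (X.V_le_A0
    (inv w hw (e3 ▸ cj_sq (D.sq_of_cen hΩ fs hj)))))).1 this)

theorem mem_Q (hQ : adj A X.t ≤ S) (h : Syl S (normalizer (adj A X.t : Set G))) {s : G}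
    (hs : s ∈ S) (hΩ : X.Ω s) : s ∈ adj A X.t := by
  have ss := X.sqΩ hΩ
  have sM := h.le hs
  have tQ : X.t ∈ adj A X.t := self_mem_adj
  have c : ∀ u ∈ X.V, cj s u = u := by
    by_cases hA : A = X.V
    · exact not_mv D hA hQ h hs hΩ
    intro u hu
    obtain ⟨a, ha, rfl⟩ := D.eS u hu
    have b := D.NA sM ha
    obtain ⟨j, hj⟩ := pg_pow D.pg (mul_mem ha b)
    have f := D.sq_of_cen hΩ (cj_comm.1 (by rw [cj_mul, ← mul_cj, ss, one_cj, D.comm ha b])) hj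
    obtain ⟨k, hk⟩ := D.even_e hA
    have g : (a * cj s a) ^ e = 1 := by rw [hk, ← two_mul, pow_mul, pow_two, f, one_pow]
    rw [D.pow_e ha b, ← cj_pow] at g
    rw [eq_inv_of_mul_eq_one_right g, inv_eq_of_mul_eq_one_right (V_sq D hu)]
  obtain ⟨j, hj⟩ := pg_pow h.pg (mul_mem (hQ tQ) hs)
  have := D.cenM_two (mul_mem (le_normalizer tQ) sM)
    ((X.mul_mem_L D.tL).2 (iff_of_false D.tL fun a => D.tL ((X.Ω_L hΩ).1 a)))
    (fun u hu => by rw [mul_cj, c u hu, X.E_comm self_mem_adj (le_adj hu)]) hj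
  exact (mul_mem_cancel_left tQ).1 (le_adj this)

end Nr0

open Nr0 in
theorem Fr.NE.exists_ns {X : Fr G F} {A : Subgroup G} {e : ℕ} (D : X.NE A e) :
    ∃ S, X.NS A e S := by
  obtain ⟨S, hQ, h⟩ := exists_syl D.pgQ le_normalizer
  have tQ : X.t ∈ adj A X.t := self_mem_adj
  have top : Syl S ⊤ := (h.mono le_normalizer fun g hg => by
    have h1 : ∀ s ∈ S, X.Ω s → cj g s ∈ adj A X.t := fun s hs k =>
      mem_Q D hQ h (mem_norm.1 hg s hs) ((X.Ω_cj g).2 k)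
    have h2 := h1 _ (hQ tQ) X.Ω_t
    refine mem_norm.2 (adj_le_comap (fun a ha => ?_) h2)
    rw [← X.ttu a, cj_mul]
    exact mul_mem h2 (h1 _ (hQ (mul_mem tQ (le_adj ha))) (D.Ω a ha))).top_of_norm
  have I : Idx (S ⊓ X.L) S X.t := ⟨inf_le_left, hQ tQ, fun k => D.tL k.2, fun x hx =>
    (X.top x).imp (⟨hx, ·⟩) fun k => ⟨S.mul_mem (S.inv_mem (hQ tQ)) hx, X.tinv.symm ▸ k⟩⟩
  have eS : adj (S ⊓ X.L) X.t = S := le_antisymm (adj_le inf_le_left (hQ tQ)) fun x hx => by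
    rcases X.top x with k | k
    · exact le_adj ⟨hx, k⟩
    · rw [← X.ttu x]
      exact mul_mem self_mem_adj (le_adj ⟨mul_mem (hQ tQ) hx, k⟩)
  refine ⟨S ⊓ X.L, D, X.syl_L top, le_inf (le_adj.trans hQ) D.A_le_L, inf_le_left.trans h.le, ?_,
    fun s hs => ⟨cj_mem (hQ tQ) hs.1, (X.L_cj _).2 hs.2⟩, eS.symm ▸ top,
    fun s hs k => mem_Q D hQ h (eS ▸ hs) k⟩
  have := I.card
  rw [card_S D hQ h] at this
  omega

end H79.JO
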