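import Cfsg.Agent.Lib.JO.Nr0
import Cfsg.Agent.Lib.JO.Defs2
import Cfsg.Agent.Lib.Ben.IL2

set_option autoImplicit false
set_option linter.unusedSectionVars false

namespace H79.JO

open Subgroup H69 H36.SW H4.YM H4.TL
open H25.L2B (syl_iff Lie2)
open scoped commutatorElement

variable {G : Type*} [Group G] [Finite G] {F : Type*} [Field F] [Finite F]

namespace OA

theorem cyc {B : Type*} [CommGroup B] (ρ : B →* B) (h3 : ∀ a, ρ (ρ (ρ a)) = a) {n e : ℕ}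
    (hn : ∀ a : B, a ^ 2 ^ n = 1) {z : B} (hz : ρ z = z) (z2 : z * z = 1) (hS : ∃ a, a ^ e = z)
    (hV : ∀ a, ρ a = a → a ^ e = 1 ∨ a ^ e = z) (hK : ∀ a : B, a ^ e = 1 → ∃ α, α * α = a) :
    ∃ f, ρ f = f ∧ f ^ e = z ∧ ∀ a, ρ a = a → a ∈ zpowers f := by
  obtain ⟨a0, h0⟩ := hS
  have nf : ∀ a, ρ (a * ρ a * ρ (ρ a)) = a * ρ a * ρ (ρ a) := fun a => by
    rw [map_mul, map_mul, h3, mul_comm, mul_assoc]
  have fe : (a0 * ρ a0 * ρ (ρ a0)) ^ e = z := by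
    rw [mul_pow, mul_pow, ← map_pow, ← map_pow, ← map_pow, h0, hz, hz, z2, one_mul]
  refine ⟨_, nf a0, fe, ?_⟩
  have ff := nf a0
  generalize a0 * ρ a0 * ρ (ρ a0) = f at fe ff
  have s1 : ∀ a, ρ a = a → a ^ e = 1 → ∃ β, ρ β = β ∧ a = β ^ 2 := fun a ha h => by
    obtain ⟨α, rfl⟩ := hK a h
    refine ⟨α * ρ α * ρ (ρ α) * (α * α)⁻¹, by rw [map_mul, nf, map_inv, ha], ?_⟩
    have e1 : ρ α ^ 2 = α * α := by rw [← map_pow, sq, ha]
    have e2 : ρ (ρ α) ^ 2 = α * α := by rw [← map_pow, e1, ha]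
    rw [mul_pow, mul_pow, mul_pow, e1, e2, sq α, sq, ← mul_assoc, mul_inv_cancel_right, mul_inv_cancel_right]
  have s2 : ∀ k : ℕ, ∀ a, ρ a = a → ∃ φ ∈ zpowers f, ∃ β, ρ β = β ∧ a = φ * β ^ 2 ^ k := fun k => by
    induction k with
    | zero => exact fun a ha => ⟨1, one_mem _, a, ha, by simp⟩
    | succ k ih =>
      intro a ha
      obtain ⟨φ, hφ, β, hβ, rfl⟩ := ih a ha
      rcases hV β hβ with h | h
      · obtain ⟨γ, hγ, rfl⟩ := s1 β hβ h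
        exact ⟨φ, hφ, γ, hγ, by rw [← pow_mul, pow_succ']⟩
      · obtain ⟨γ, hγ, e1⟩ := s1 (f⁻¹ * β) (by rw [map_mul, map_inv, ff, hβ])
          (by rw [mul_pow, inv_pow, fe, h, inv_mul_cancel])
        rw [inv_mul_eq_iff_eq_mul] at e1
        exact ⟨φ * f ^ 2 ^ k, mul_mem hφ (pow_mem (mem_zpowers f) _), γ, hγ, by
          rw [e1, mul_pow, ← pow_mul, pow_succ', mul_assoc]⟩
  intro a ha
  obtain ⟨φ, hφ, β, -, rfl⟩ := s2 n a ha
  rwa [hn, mul_one]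

theorem s5 : ∀ ρ : Equiv.Perm (Fin 5), ρ * ρ * ρ = 1 → ∀ ω : Equiv.Perm (Fin 5), ω * ω = 1 → ρ * ω ≠ ω * ρ →
    ω * (ρ * ω * ρ⁻¹) = ρ * ω * ρ⁻¹ * ω → ∀ σ : Equiv.Perm (Fin 5), σ * ρ = ρ * σ → σ * ω = ω * σ → σ = 1 := by
  decide +kernel

variable (X : Hyp G F)

theorem r_N1 : X.r ∈ X.N1 := X.mem_N1.2 ⟨cj_comm.1 (X.tA _ (X.jf.XA X.jf.rX)), fun a => by
  rw [X.jf.rv]; exact X.v_mem_V _⟩

theorem exists_w : ∃ b : F, X.v b ∈ X.X5 ∧ b ^ 2 ≠ b := by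
  classical
  have := Fintype.ofFinite F
  have c8 : Fintype.card F = 8 := by rw [← Nat.card_eq_fintype_card, X.jf.card8]
  obtain ⟨a, -, ha⟩ := Finset.exists_mem_notMem_of_card_lt_card (s := {0, 1}) (t := (Finset.univ : Finset F))
    (lt_of_le_of_lt Finset.card_le_two (by rw [Finset.card_univ, c8]; norm_num))
  simp only [Finset.mem_insert, Finset.mem_singleton, not_or] at ha
  have h8 := FiniteField.pow_card a
  rw [c8] at h8
  have h2 := X.char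
  have tr : a + a ^ 2 + (a + a ^ 2) ^ 2 + (a + a ^ 2) ^ 4 = 0 := by
    linear_combination h8 + (a + a ^ 2 + a ^ 3 + a ^ 4 + 2 * a ^ 5 + 3 * a ^ 6 + 2 * a ^ 7) * h2
  refine ⟨a + a ^ 2, (X.jf.vX _).2 tr, fun h => ?_⟩
  have h4 : (a + a ^ 2) ^ 4 = a + a ^ 2 := by rw [show 4 = 2 * 2 from rfl, pow_mul, h, h]
  rw [h, h4] at tr
  have : a * (a - 1) = 0 := by linear_combination tr - (2 * a + a ^ 2) * h2
  exact (mul_eq_zero.1 this).elim ha.1 fun h => ha.2 (sub_eq_zero.1 h)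

theorem z_X {x : G} (hx : x ∈ X.X5) : cj x (X.v 1) = X.v 1 := (X.jf.cz x (X.jf.XA hx)).2 (.inl hx)

/-- a subgroup that contains the involutions of `X5` contains `X5` -/
theorem X_le {D : Subgroup G} (h : ∀ x ∈ X.X5, x * x = 1 → x ∈ D) : X.X5 ≤ D := by
  obtain ⟨ε⟩ := X.jf.isoX
  have := ε.isSimpleGroup
  obtain ⟨b, hb, b2⟩ := exists_w X
  rcases (normalClosure_normal (s := {(⟨_, hb⟩ : X.X5)})).eq_bot_or_eq_top with k | k
  · have := congrArg Subtype.val ((eq_bot_iff_forall _).1 k _ (subset_normalClosure rfl))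
    exact absurd (by rw [X.v_eq_one.1 this]; simp) b2
  · refine subgroupOf_eq_top.1 (top_le_iff.1 (k.ge.trans ((closure_le _).2 fun x hx => ?_)))
    obtain ⟨_, rfl, hc⟩ := Group.mem_conjugatesOfSet_iff.1 hx
    obtain ⟨c, rfl⟩ := isConj_iff.1 hc
    exact h (cj c (X.v b)) (cj_mem c.2 hb) (cj_sq (X.v_sq b))

theorem X_perf : X.X5 ≤ ⁅X.X5, X.X5⁆ := by
  obtain ⟨ε⟩ := X.jf.isoX
  have := ε.isSimpleGroup
  obtain ⟨b, hb, b2⟩ := exists_w X
  rcases (inferInstance : (commutator X.X5).Normal).eq_bot_or_eq_top with k | k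
  · have := congrArg Subtype.val ((eq_bot_iff_forall _).1 k _
      (commutator_mem_commutator (mem_top (⟨_, X.jf.rX⟩ : X.X5)) (mem_top ⟨_, hb⟩)))
    exact absurd (X.v_inj ((X.jf.rv b).symm.trans (cj_eq_iff.2
      (commutatorElement_eq_one_iff_mul_comm.1 this)))) b2
  · intro x hx
    have := mem_map_of_mem X.X5.subtype (k.ge (mem_top ⟨x, hx⟩))
    rwa [commutator_def, map_commutator, ← MonoidHom.range_eq_map, range_subtype] at this

theorem norm_X (tL : X.t ∉ X.L) {y : G} (hz : cj y (X.v 1) = X.v 1)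
    (h : ∀ x ∈ X.X5, cj x (cj y X.t) = cj y X.t) : y ∈ 𝐍(X.X5) := by
  have s1 : X.X5 ≤ cm y (X.A0 ⊓ centralizer {X.v 1}) := X_le X fun x hx x2 => mem_cm.2 <| by
    have c : cj (cj y⁻¹ x) X.t = X.t := by
      have := H4.YM.cj_cj y⁻¹ x (cj y X.t)
      rwa [h x hx, inv_cj_cj] at this
    have c2 := cj_sq (g := y⁻¹) x2
    have cL := (X.L_cj y⁻¹).2 (X.A0_le_L (X.jf.XA hx))
    refine ⟨?_, mem_cen.2 (by
      have := H4.YM.cj_cj y⁻¹ x (X.v 1)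
      rwa [z_X X hx, inv_cj_eq.2 hz] at this)⟩
    obtain ⟨a, ha, κ, hκ, e⟩ := X.aut c
    rw [e] at c2 cL ⊢
    have k1 := X.mem_K.1 hκ
    have k2 : a * a * (κ * κ) = 1 := by
      rw [← c2, mul_assoc, mul_assoc, ← mul_assoc κ a, cj_eq_iff.1 (k1.2 a ha), mul_assoc]
    have k3 : κ * κ = 1 := by
      have k4 : κ * κ ∈ X.A0 := eq_inv_of_mul_eq_one_right k2 ▸ inv_mem (mul_mem ha ha)
      exact X.cen_A0 k4 (X.mem_K.1 (mul_mem hκ hκ)).2
    rcases X.two (zpowers κ) (pg_zpowers (k := 1) (by rw [pow_one, sq, k3]))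
      (fun x hx => X.mem_K.1 (zpowers_le.2 hκ hx)) κ (mem_zpowers κ) with rfl | rfl
    · rwa [mul_one]
    · exact absurd ((X.L.mul_mem_cancel_left (X.A0_le_L ha)).1 cL) tL
  have s2 : ∀ c ∈ X.A0 ⊓ centralizer {X.v 1}, ∃ x ∈ X.X5, ∃ u, c = u * x ∧
      ∀ d ∈ X.A0 ⊓ centralizer {X.v 1}, d * u = u * d := fun c hc => by
    rcases (X.jf.cz c hc.1).1 (mem_cen.1 hc.2) with k | k
    · exact ⟨c, k, 1, (one_mul c).symm, fun d _ => by simp⟩
    · exact ⟨_, k, X.v 1, by rw [← mul_assoc, X.v_sq, one_mul], fun d hd => cj_eq_iff.1 (mem_cen.1 hd.2)⟩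
  have s3 : X.X5 ≤ cm y X.X5 := (X_perf X).trans ((commutator_mono s1 s1).trans (commutator_le.2
    fun c hc d hd => mem_cm.2 (by
      have e : cj y⁻¹ ⁅c, d⁆ = ⁅cj y⁻¹ c, cj y⁻¹ d⁆ := by
        simp only [commutatorElement_def, cj_mul, cj_inv]
      rw [mem_cm] at hc hd
      rw [e]
      generalize cj y⁻¹ c = c at hc
      generalize cj y⁻¹ d = d at hd
      obtain ⟨x, hx, u, e1, hu⟩ := s2 c hc
      obtain ⟨x', hx', u', e2, hu'⟩ := s2 d hd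
      have m : ∀ {x}, x ∈ X.X5 → x ∈ X.A0 ⊓ centralizer {X.v 1} := fun hx =>
        ⟨X.jf.XA hx, mem_cen.2 (z_X X hx)⟩
      have e3 : ⁅c, d⁆ = ⁅x, x'⁆ := by
        have a1 : ⁅c, d⁆ = u * ⁅x, d⁆ * (d * u⁻¹ * d⁻¹) := by
          rw [e1]; simp only [commutatorElement_def]; group
        have a2 : ⁅x, d⁆ = x * u' * x⁻¹ * ⁅x, x'⁆ * u'⁻¹ := by
          rw [e2]; simp only [commutatorElement_def]; group
        have m1 : ⁅x, x'⁆ ∈ X.X5 := mul_mem (mul_mem (mul_mem hx hx') (inv_mem hx)) (inv_mem hx')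
        rw [hu' x (m hx), mul_inv_cancel_right, ← hu' _ (m m1), mul_inv_cancel_right] at a2
        rw [a1, a2, ← hu _ (m m1), (show Commute d u from hu d hd).inv_right.eq, mul_inv_cancel_right,
          mul_inv_cancel_right]
      rw [e3, commutatorElement_def]
      exact mul_mem (mul_mem (mul_mem hx hx') (inv_mem hx)) (inv_mem hx'))))
  exact (inv_mem_iff (x := y)).1 (mem_norm.2 fun x hx => mem_cm.1 (s3 hx))

theorem cen_X {y : G} (hy : y ∈ 𝐍(X.X5)) (hr : cj y X.r = X.r) (hv : ∀ a, cj y (X.v a) = X.v a) :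
    ∀ x ∈ X.X5, cj x y = y := by
  obtain ⟨ε⟩ := X.jf.isoX
  obtain ⟨π, P⟩ := H55.Ben.exists_p5 ε
  obtain ⟨b, hb, b2⟩ := exists_w X
  let r : 𝐍(X.X5) := ⟨X.r, le_normalizer X.jf.rX⟩
  let w : 𝐍(X.X5) := ⟨X.v b, le_normalizer hb⟩
  have := s5 (π r) (by
    rw [← map_mul, ← map_mul, ← pow_three', show r ^ 3 = 1 from Subtype.ext X.jf.r3, map_one]) (π w) (by
    rw [← map_mul, show w * w = 1 from Subtype.ext (X.v_sq b), map_one]) (fun h => by
      have k : π (r * w * r⁻¹ * w⁻¹) = 1 := by simp [h]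
      have k1 := P.cen _ (mul_mem (cj_mem X.jf.rX hb) (inv_mem hb)) ((P.ker _).1 k)
      rw [mul_inv_eq_one, X.jf.rv] at k1
      exact b2 (X.v_inj k1)) (by
      rw [← map_inv, ← map_mul, ← map_mul, ← map_mul, ← map_mul]
      refine congrArg π (Subtype.ext ?_)
      show X.v b * cj X.r (X.v b) = cj X.r (X.v b) * X.v b
      rw [X.jf.rv, ← X.v_add, ← X.v_add, add_comm]) (π ⟨y, hy⟩) (by
      rw [← map_mul, ← map_mul]
      exact congrArg π (Subtype.ext (cj_eq_iff.1 hr))) (by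
      rw [← map_mul, ← map_mul]
      exact congrArg π (Subtype.ext (cj_eq_iff.1 (hv b))))
  exact fun x hx => cj_eq_iff.2 ((P.ker _).1 this x hx)

end OA

open OA

theorem Fr.NS.exists_on {X : Fr G F} {A S : Subgroup G} {e : ℕ} (D : X.NS A e S) (h : A ≠ X.V)
    (hc : ¬ ∀ g ∈ X.L, ∀ w ∈ X.V, cj g w ∈ S → cj g w ∈ X.V) : ∃ S' f, X.ON A e S' f := by
  push Not at hc
  obtain ⟨g, -, w, hw, jS, jV⟩ := hc
  have E := D.toGood
  have j2 := cj_sq (g := g) (NrA.V_sq hw)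
  obtain ⟨u, hu, u1, uS⟩ := NRC.fix_mod D.sylS.pg (pg_le D.pg D.VA) (fun g hg u hu => NrA.nv E (D.SM hg) hu)
    (z := 1) (fun g _ => H4.YM.cj_one g) (fun g _ => H4.YM.cj_one g) (X.v_mem_V 1)
    (by rw [zpowers_one_eq_bot, mem_bot, X.v_eq_one]; exact one_ne_zero)
  rw [zpowers_one_eq_bot] at u1 uS
  rw [mem_bot] at u1
  obtain ⟨k, hk⟩ := D.transV hu u1 (X.v_mem_V 1) (by rw [Ne, X.v_eq_one]; exact one_ne_zero)
  have m1 := X.h_N1 k
  have mt := X.h_t k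
  generalize X.h k = m at hk m1 mt
  have mM := E.N1_le m1
  have mt' := inv_cj_eq.2 mt
  have rN := r_N1 X.toHyp
  let _ : CommGroup A := { (inferInstance : Group A) with mul_comm := fun a b => Subtype.ext (E.comm a.2 b.2) }
  let ρ : A →* A := MonoidHom.mk' (fun a => ⟨cj X.r a, D.nA _ rN a a.2⟩) fun a b => Subtype.ext (cj_mul _ _ _)
  obtain ⟨n, hn⟩ := pg_card D.pg
  obtain ⟨f, f1, f2, f3⟩ := cyc ρ (fun a => Subtype.ext (by
      show cj X.r (cj X.r (cj X.r a)) = a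
      rw [← mul_cj, ← mul_cj, ← pow_three', X.jf.r3, one_cj])) (n := n) (e := e)
    (fun a => by rw [← hn, pow_card_eq_one']) (z := ⟨X.v 1, D.VA (X.v_mem_V 1)⟩)
    (Subtype.ext ((X.jf.rv 1).trans (by rw [one_pow]))) (Subtype.ext (X.v_sq 1))
    (let ⟨a, ha, e⟩ := D.eS _ (X.v_mem_V 1); ⟨⟨a, ha⟩, Subtype.ext e⟩)
    (fun a ha => by
      obtain ⟨x, hx⟩ := X.mem_V.1 (D.eV a a.2)
      have : cj X.r (a ^ e) = a ^ e := by rw [cj_pow, show cj X.r a = a from congrArg Subtype.val ha]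
      rw [hx, X.jf.rv] at this
      have : x * (x - 1) = 0 := by linear_combination X.v_inj this
      rcases mul_eq_zero.1 this with k | k
      · exact .inl (Subtype.ext (hx.trans (X.v_eq_one.2 k)))
      · exact .inr (Subtype.ext (hx.trans (by rw [sub_eq_zero.1 k]))))
    fun a ha => let ⟨α, hα, e⟩ := D.eK a a.2 (congrArg Subtype.val ha); ⟨⟨α, hα⟩, Subtype.ext e⟩
  have eL : cm m X.L = X.L := Subgroup.ext fun x => mem_cm.trans (X.L_cj _)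
  have eT : cm m (⊤ : Subgroup G) = ⊤ := Subgroup.ext fun x => mem_cm.trans (by simp)
  have eQ : cm m (adj S X.t) = adj (cm m S) X.t := by rw [cm_adj, mt]
  refine ⟨cm m S, f, ⟨D.toNE, eL ▸ D.sylS.cm m, fun a ha => mem_cm.2 (D.AS (D.nA _ (inv_mem m1) a ha)),
    fun s hs => ?_, by rw [card_cm, D.card], fun s hs => ?_, eQ ▸ eT ▸ D.syl0.cm m, fun s hs k => ?_⟩, h,
    fun s hs => ?_, ⟨cj m (cj g w), cj_mem_cm.2 jS, cj_sq j2, fun k => jV (E.sqV ?_ j2)⟩, f.2,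
    congrArg Subtype.val f1, congrArg Subtype.val f2, fun a ha k => ?_⟩
  · rw [← cj_inv_cj m s]
    exact cj_mem mM (D.SM (mem_cm.1 hs))
  · rw [mem_cm, ← H4.YM.cj_cj m⁻¹ X.t s, mt']
    exact D.tS _ (mem_cm.1 hs)
  · rw [← eQ, mem_cm] at hs
    exact (cj_mem_iff (inv_mem mM)).1 (D.ΩQ _ hs ((X.Ω_cj _).2 k))
  · have := (uS _ (mem_cm.1 hs)).resolve_right u1
    rw [mem_bot, inv_mul_eq_one] at this
    have e := H4.YM.cj_cj m (cj m⁻¹ s) u
    rwa [H4.YM.cj_inv_cj, ← this, hk] at e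
  · rw [← inv_cj_cj m (cj g w)]
    exact D.nA _ (inv_mem m1) _ k
  · obtain ⟨i, hi⟩ := f3 ⟨a, ha⟩ (Subtype.ext k)
    exact ⟨i, congrArg Subtype.val hi⟩

theorem Fr.ON.fX {X : Fr G F} {A S : Subgroup G} {e : ℕ} {f : G} (D : X.ON A e S f) :
    ∀ x ∈ X.X5, cj x f = f := by
  have E := D.toGood
  have key : ∀ k : ℕ, ∀ y ∈ A, cj X.r y = y → y ^ 2 ^ k = 1 → ∀ x ∈ X.X5, cj x y = y := fun k => by
    induction k with
    | zero =>
      intro y _ _ h x _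
      rw [pow_zero, pow_one] at h
      rw [h, H4.YM.cj_one]
    | succ k ih =>
      intro y hy hr h
      have h2 := ih (y * y) (mul_mem hy hy) (by rw [cj_mul, hr]) (by rw [← sq, ← pow_mul, ← pow_succ', h])
      refine cen_X X.toHyp (norm_X X.toHyp D.tL (E.AV hy 1) fun x hx => ?_) (cj_comm.1 hr) (E.AV hy)
      rw [E.cjt hy, cj_mul, ← mul_inv_rev, cj_inv, h2 x hx, cj_comm.1 (X.tA x (X.jf.XA hx))]
  obtain ⟨k, hk⟩ := pg_pow D.pg D.fA
  exact key k f D.fA D.fr hk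

end H79.JO
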