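import Cfsg.Agent.Lib.JO.OA

/-! The local facts of the case leading to `O'N` (package OA2, helper67). -/

set_option autoImplicit false
set_option linter.unusedSectionVars false

namespace H79.JO

section

open Subgroup H4.YM H4.TL

variable {G : Type*} [Group G] [Finite G] {F : Type*} [Field F] [Finite F]

namespace OA2

variable {X : Fr G F} {A S : Subgroup G} {e : ℕ} {f : G}

theorem S0_M (D : X.NS A e S) : adj S X.t ≤ normalizer (adj A X.t : Set G) :=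
  adj_le D.SM (le_normalizer self_mem_adj)

theorem weak (D : X.NS A e S) (P : Subgroup G) (hP : IsPGroup 2 P) (h : adj A X.t ≤ P) :
    P ≤ normalizer (adj A X.t : Set G) := by
  obtain ⟨g, -, hg⟩ := D.syl0.conj hP le_top
  have tQ : X.t ∈ adj A X.t := self_mem_adj
  have h1 : ∀ s ∈ adj A X.t, X.Ω s → cj g⁻¹ s ∈ adj A X.t := fun s hs k =>
    D.ΩQ _ (mem_cm.1 (hg (h hs))) ((X.Ω_cj _).2 k)
  have h2 := h1 _ tQ X.Ω_t
  have gM : g⁻¹ ∈ normalizer (adj A X.t : Set G) := mem_norm.2 (adj_le_comap (fun a ha => by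
    rw [← X.ttu a, cj_mul]
    exact mul_mem h2 (h1 _ (mul_mem tQ (le_adj ha)) (D.Ω a ha))) h2)
  intro p hp
  rw [← cj_inv_cj g p]
  exact cj_mem (inv_mem_iff.1 gM) (S0_M D (mem_cm.1 (hg hp)))

theorem Q_C (D : X.Good A) : adj A X.t ≤ centralizer (X.O0 : Set G) := fun _ hx =>
  mem_centralizer_iff.2 fun _ ho => cj_eq_iff.1 (D.O0_Q ho hx)

theorem C_norm (D : X.Good A) {m c : G} (hm : m ∈ normalizer (adj A X.t : Set G))
    (hc : c ∈ centralizer (X.O0 : Set G)) : cj m c ∈ centralizer (X.O0 : Set G) :=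
  mem_centralizer_iff.2 fun o ho => by
    have h1 := cj_eq_iff.2 (mem_centralizer_iff.1 hc _ (D.O0_norm (inv_mem hm) ho)).symm
    refine (cj_eq_iff.1 ?_).symm
    calc cj (cj m c) o = cj (cj m c) (cj m (cj m⁻¹ o)) := by rw [cj_inv_cj]
      _ = o := by rw [cj_cj, h1, cj_inv_cj]

theorem two_C (D : X.NE A e) {g c : G} (hg : g ∈ normalizer (adj A X.t : Set G))
    (g2 : ∃ k, g ^ 2 ^ k = 1) (hc : c ∈ normalizer (adj A X.t : Set G))
    (cO : c ∈ centralizer (X.O0 : Set G)) (h : ∀ u ∈ X.V, cj c u = cj g u) :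
    g ∈ centralizer (X.O0 : Set G) := by
  have QC := Q_C D.toGood
  obtain ⟨c, hc, cO, h, hL⟩ : ∃ c ∈ normalizer (adj A X.t : Set G), c ∈ centralizer (X.O0 : Set G) ∧
      (∀ u ∈ X.V, cj c u = cj g u) ∧ c⁻¹ * g ∈ X.L := by
    rcases X.top (c⁻¹ * g) with hL | hL
    · exact ⟨c, hc, cO, h, hL⟩
    · exact ⟨c * X.t, mul_mem hc (le_normalizer self_mem_adj), mul_mem cO (QC self_mem_adj),
        fun u hu => by rw [mul_cj, NRC.t_V _ hu, h u hu],
        by rwa [_root_.mul_inv_rev, X.tinv, mul_assoc]⟩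
  obtain ⟨α, hα, o, ho, e1⟩ := D.cenM (mul_mem (inv_mem hc) hg) hL
    fun u hu => by rw [mul_cj, ← h u hu, inv_cj_cj]
  have y : c * α ∈ centralizer (X.O0 : Set G) := mul_mem cO (QC (le_adj hα))
  have e2 : g = c * α * o := by rw [mul_assoc, ← e1, mul_inv_cancel_left]
  obtain ⟨k, hk⟩ := g2
  have cm : Commute (c * α) o := (mem_centralizer_iff.1 y o ho).symm
  rw [e2, cm.mul_pow] at hk
  rw [e2]
  refine mul_mem y (GoodAux.mem_of_pow (D.toPure.mem_O0.1 ho).2 (j := k) ?_)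
  rw [eq_inv_of_mul_eq_one_right hk]
  exact inv_mem (pow_mem y _)

theorem j_act (D : X.ON A e S f) : ∃ j ∈ S, j * j = 1 ∧ ¬ ∀ u ∈ X.V, cj j u = u := by
  obtain ⟨j, hj, jj, jA⟩ := D.ex
  exact ⟨j, hj, jj, fun k => jA (D.toNE.cenM_two (D.SM hj) (D.sylS.le hj) k (j := 1)
    (by rw [pow_one, pow_two, jj]))⟩

/-- `C(O0)` induces a transvection on `V` -/
theorem exists_tv (D : X.ON A e S f) : ∃ c ∈ normalizer (adj A X.t : Set G),
    c ∈ centralizer (X.O0 : Set G) ∧ (∀ u ∈ X.V, cj (c * c) u = u) ∧ ¬ ∀ u ∈ X.V, cj c u = u := by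
  obtain ⟨j, hj, jj, nj⟩ := j_act D
  have jM := D.SM hj
  have sq : ∀ u ∈ X.V, u * u = 1 := fun u hu => NRC.V_sq _ hu
  obtain ⟨d, hd, d1, jd, ⟨u, hu, ud⟩, all, ⟨b, hb, jb, b1, bd⟩, -⟩ :=
    e8_fix D.toNE.card8 sq (D.toNE.nrcV jM) (fun u _ => by rw [jj, one_cj]) nj
  obtain ⟨k, hk⟩ := D.toNE.transV hd d1 hb b1
  have hM : X.h k ∈ normalizer (adj A X.t : Set G) := D.toGood.N1_le (X.h_N1 k)
  have hC : X.h k ∈ centralizer (X.O0 : Set G) := mem_centralizer_iff.2 fun o ho =>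
    cj_eq_iff.1 ((X.mem_K.1 (X.O0_le_K ho)).2 _ (X.h_mem k))
  have key : ∀ y ∈ X.V, y * cj j y = d → cj j y = y * d := fun y hy e => by
    rw [← e, ← mul_assoc, sq y hy, one_mul]
  have a1 : ∀ y ∈ X.V, cj j y = y ∨ cj j y = y * d := fun y hy =>
    (all y hy).imp (fun e => mul_left_cancel (e.trans (sq y hy).symm)) (key y hy)
  have a2 : ∀ y ∈ X.V, cj (cj (X.h k) j) y = y ∨ cj (cj (X.h k) j) y = y * b := fun y hy => by
    have e0 : cj (cj (X.h k) j) y = cj (X.h k) (cj j (cj (X.h k)⁻¹ y)) := by rw [← cj_cj, cj_inv_cj]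
    rcases a1 _ (D.toNE.nrcV (inv_mem hM) y hy) with e1 | e1
    · left; rw [e0, e1, cj_inv_cj]
    · right; rw [e0, e1, cj_mul, cj_inv_cj, hk]
  have a3 : cj (cj (X.h k) j) b = b := by rw [← hk, cj_cj, jd]
  have xM : j * cj (X.h k) j ∈ normalizer (adj A X.t : Set G) := mul_mem jM (cj_mem hM jM)
  have xC : j * cj (X.h k) j ∈ centralizer (X.O0 : Set G) := by
    rw [show j * cj (X.h k) j = cj j (X.h k) * (X.h k)⁻¹ by
      simp only [cj, inv_eq_of_mul_eq_one_right jj, mul_assoc]]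
    exact mul_mem (C_norm D.toGood jM hC) (inv_mem hC)
  generalize cj (X.h k) j = j' at a2 a3 xM xC
  have x1 : ∀ y ∈ X.V, cj (j * j') y = cj j y ∨ cj (j * j') y = cj j y * b := fun y hy =>
    (a2 y hy).imp (fun e => by rw [mul_cj, e]) fun e => by rw [mul_cj, e, cj_mul, jb]
  have xb : cj (j * j') b = b := by rw [mul_cj, a3, jb]
  have xd := x1 d hd
  have xu := x1 u hu
  rw [jd] at xd
  rw [key u hu ud] at xu
  have x1' : ∀ y ∈ X.V, cj (j * j') y = y ∨ cj (j * j') y = y * d ∨ cj (j * j') y = y * b ∨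
      cj (j * j') y = y * (d * b) := fun y hy => by
    rcases x1 y hy with e | e <;> rcases a1 y hy with e' | e' <;> rw [e, e'] <;> simp [mul_assoc]
  generalize j * j' = x at xM xC xb xd xu x1'
  have dd := sq d hd
  have bb := sq b hb
  have db := sq _ (mul_mem hd hb)
  have x2 : ∀ y ∈ X.V, cj (x * x) y = y ∨ cj (x * x) y = y * b := fun y hy => by
    rw [mul_cj]
    rcases x1' y hy with e | e | e | e
    · left; rw [e, e]
    · rcases xd with e' | e'
      · left; rw [e, cj_mul, e, e', mul_assoc, dd, mul_one]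
      · right; rw [e, cj_mul, e, e', mul_assoc, ← mul_assoc d, dd, one_mul]
    · left; rw [e, cj_mul, e, xb, mul_assoc, bb, mul_one]
    · rcases xd with e' | e'
      · left; rw [e, cj_mul, e, cj_mul, e', xb, mul_assoc, db, mul_one]
      · right; rw [e, cj_mul, e, cj_mul, e', xb, mul_assoc, ← mul_assoc (d * b), db, one_mul]
  by_cases h : ∀ y ∈ X.V, cj (x * x) y = y
  · refine ⟨x, xM, xC, h, fun k => ?_⟩
    rw [k u hu] at xu
    rcases xu with e | e
    · exact d1 (left_eq_mul.1 e)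
    · rw [mul_assoc] at e
      exact bd (mul_left_cancel ((left_eq_mul.1 e).trans dd.symm))
  · refine ⟨x * x, mul_mem xM xM, mul_mem xC xC, fun y hy => ?_, h⟩
    rw [mul_cj (x * x)]
    rcases x2 y hy with e | e
    · rw [e, e]
    · rw [e, cj_mul, e, mul_cj, xb, xb, mul_assoc, bb, mul_one]

theorem inv_C (D : X.ON A e S f) {g : G} (hg : g ∈ normalizer (adj A X.t : Set G))
    (g2 : ∃ k, g ^ 2 ^ k = 1) (gg : ∀ u ∈ X.V, cj (g * g) u = u) : g ∈ centralizer (X.O0 : Set G) := by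
  by_cases h : ∀ u ∈ X.V, cj g u = u
  · exact two_C D.toNE hg g2 (one_mem _) (one_mem _) fun u hu => by rw [one_cj, h u hu]
  obtain ⟨c, cM, cC, cc, nc⟩ := exists_tv D
  obtain ⟨m, hm, e1⟩ := D.toNE.conj_inv cM cc nc hg gg h
  exact two_C D.toNE hg g2 (cj_mem hm cM) (C_norm D.toGood hm cC) e1

theorem cenS (D : X.NS A e S) : S ⊓ centralizer (X.V : Set G) = A := by
  refine le_antisymm (fun s hs => ?_) (le_inf D.AS fun a ha => mem_centralizer_iff.2 fun u hu =>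
    D.toGood.comm (D.VA hu) ha)
  obtain ⟨k, hk⟩ := pg_pow D.sylS.pg hs.1
  exact D.toNE.cenM_two (D.SM hs.1) (D.sylS.le hs.1)
    (fun u hu => cj_eq_iff.2 (mem_centralizer_iff.1 hs.2 u hu).symm) hk

theorem flagS (D : X.NS A e S) :
    ∃ z w u : G, closure {z, w, u} = X.V ∧ (∀ g ∈ S, cj g z = z ∧ (cj g w = w ∨ cj g w = w * z) ∧
      (cj g u = u ∨ cj g u = u * z ∨ cj g u = u * w ∨ cj g u = u * (w * z))) ∧
      ∀ w' u', (w' = w ∨ w' = w * z) → (u' = u ∨ u' = u * z ∨ u' = u * w ∨ u' = u * (w * z)) →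
        ∃ g ∈ S, cj g w = w' ∧ cj g u = u' :=
  D.toNE.flag D.sylS.pg (fun _ hg => D.toNE.nrcV (D.SM hg)) (by rw [cenS D, D.card])

theorem S_C (D : X.ON A e S f) : S ≤ centralizer (X.O0 : Set G) := fun s hs => by
  obtain ⟨z, w, u, cl, h1, h2⟩ := flagS D.toNS
  have sq : ∀ u ∈ X.V, u * u = 1 := fun u hu => NRC.V_sq _ hu
  have hz : z ∈ X.V := cl ▸ subset_closure (by simp)
  have hw : w ∈ X.V := cl ▸ subset_closure (by simp)
  obtain ⟨s1, hs1, e1, e2⟩ := h2 _ u (h1 s hs).2.1 (Or.inl rfl)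
  have hs2 := mul_mem (inv_mem hs1) hs
  have tr : ∀ g ∈ S, cj g (cj g w) = w → cj g (cj g u) = u → g ∈ centralizer (X.O0 : Set G) :=
    fun g hg k1 k2 => inv_C D (D.SM hg) (pg_pow D.sylS.pg hg) fun y hy => by
      refine (NRC.cj_ext (g' := 1) (s := {z, w, u}) ?_ (cl ▸ hy)).trans (one_cj y)
      rintro _ (rfl | rfl | rfl) <;> rw [mul_cj, one_cj]
      · rw [(h1 g hg).1, (h1 g hg).1]
      · exact k1
      · exact k2
  have c1 := tr s1 hs1 (by
    rcases (h1 s1 hs1).2.1 with k | k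
    · rw [k, k]
    · rw [k, cj_mul, k, (h1 s1 hs1).1, mul_assoc, sq z hz, mul_one]) (by rw [e2, e2])
  have w2 : cj (s1⁻¹ * s) w = w := by rw [mul_cj, ← e1, inv_cj_cj]
  have z2 := (h1 _ hs2).1
  have c2 := tr _ hs2 (by rw [w2, w2]) (by
    rcases (h1 _ hs2).2.2 with k | k | k | k
    · rw [k, k]
    · rw [k, cj_mul, k, z2, mul_assoc, sq z hz, mul_one]
    · rw [k, cj_mul, k, w2, mul_assoc, sq w hw, mul_one]
    · rw [k, cj_mul, k, cj_mul, w2, z2, mul_assoc, sq _ (mul_mem hw hz), mul_one])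
  rw [← mul_inv_cancel_left s1 s]
  exact mul_mem c1 c2

theorem cO (D : X.ON A e S f) {g : G} (hg : g ∈ normalizer (adj A X.t : Set G))
    (g2 : ∃ k, g ^ 2 ^ k = 1) : g ∈ centralizer (X.O0 : Set G) := by
  obtain ⟨k, hk⟩ := g2
  have pg : IsPGroup 2 (zpowers g) := fun ⟨x, hx⟩ => by
    obtain ⟨i, rfl⟩ := mem_zpowers_iff.1 hx
    refine ⟨k, Subtype.ext ?_⟩
    change (g ^ i) ^ 2 ^ k = 1
    rw [← zpow_natCast, ← zpow_mul, mul_comm, zpow_mul, zpow_natCast, hk, one_zpow]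
  obtain ⟨m, hm, h⟩ := (D.syl0.mono (S0_M D.toNS) le_top).conj pg (zpowers_le.2 hg)
  rw [← cj_inv_cj m g]
  exact C_norm D.toGood hm (adj_le (S_C D) (Q_C D.toGood self_mem_adj) (mem_cm.1 (h (mem_zpowers g))))

theorem tvj (D : X.ON A e S f) {g : G} (hg : g ∈ normalizer (adj A X.t : Set G))
    (gg : ∀ u ∈ X.V, cj (g * g) u = u) (ng : ¬ ∀ u ∈ X.V, cj g u = u) :
    ∃ j ∈ normalizer (adj A X.t : Set G), j ∈ X.L ∧ j * j = 1 ∧ ∀ u ∈ X.V, cj j u = cj g u := by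
  obtain ⟨j, hj, jj, nj⟩ := j_act D
  obtain ⟨m, hm, e1⟩ := D.toNE.conj_inv (D.SM hj) (fun u _ => by rw [jj, one_cj]) nj hg gg ng
  exact ⟨cj m j, cj_mem hm (D.SM hj), (X.L_cj m).2 (D.sylS.le hj), cj_sq jj, e1⟩

theorem nocen (D : X.ON A e S f) {g : G} (hg : g ∈ normalizer (adj A X.t : Set G)) (hL : g ∈ X.L)
    (gg : ∀ u ∈ X.V, cj (g * g) u = u) (gf : cj g f = f) : X.Tz g := by
  have sq : ∀ u ∈ X.V, u * u = 1 := fun u hu => NRC.V_sq _ hu
  by_cases ng : ∀ u ∈ X.V, cj g u = u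
  · exact fun u hu => Or.inl (by rw [ng u hu, sq u hu])
  obtain ⟨j, jM, jL, jj, e1⟩ := tvj D hg gg ng
  obtain ⟨α, hα, o, ho, e2⟩ := D.toNE.cenM (mul_mem (inv_mem jM) hg) (mul_mem (inv_mem jL) hL)
    fun u hu => by rw [mul_cj, ← e1 u hu, inv_cj_cj]
  have jf : cj j f = f := by
    have h1 : cj (j⁻¹ * g) f = f := by rw [e2, mul_cj, D.toGood.O0_A ho D.fA, D.toGood.cjA hα D.fA]
    rw [mul_cj, gf] at h1
    rw [← h1, cj_inv_cj, h1]
  obtain ⟨u, hu, e3⟩ := D.toNE.dfix D.ne jM (by rw [jj]; exact one_mem _)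
    (fun k => ng fun u hu => by rw [← e1 u hu, k u hu]) D.fA jf
  rw [D.fe, e1 u hu] at e3
  obtain ⟨d, -, -, -, -, all, -⟩ := e8_fix D.toNE.card8 sq (D.toNE.nrcV hg) gg ng
  have : d = X.v 1 := by
    rcases all u hu with k | k
    · exact absurd (X.v_eq_one.1 (e3.trans k)) one_ne_zero
    · exact k.symm.trans e3.symm
  exact fun y hy => this ▸ all y hy

theorem basis_ne (D : X.NE A e) {a b c : G} (h : closure {a, b, c} = X.V) : a ≠ 1 := by
  rintro rfl
  obtain ⟨m, -, -, e1, -⟩ := D.basis h (a' := b) (b' := 1) (c' := c) (by rw [Set.insert_comm, h])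
  rw [cj_one] at e1
  subst e1
  obtain ⟨m, -, -, e1, -⟩ := D.basis h (a' := c) (b' := 1) (c' := 1)
    (by rw [Set.insert_comm, Set.pair_comm, h])
  rw [cj_one] at e1
  subst e1
  have : X.V ≤ ⊥ := h ▸ (closure_le _).2 (by rintro _ (rfl | rfl | rfl) <;> exact one_mem _)
  exact one_ne_zero (X.v_eq_one.1 (mem_bot.1 (this (X.v_mem_V 1))))

theorem TzS (D : X.ON A e S f) {g : G} (hg : g ∈ normalizer (adj A X.t : Set G)) (hL : g ∈ X.L)
    (g2 : ∃ k, g ^ 2 ^ k = 1) (tz : X.Tz g) : g ∈ S := by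
  obtain ⟨z, w, u, cl, h1, h2⟩ := flagS D.toNS
  have sq : ∀ u ∈ X.V, u * u = 1 := fun u hu => NRC.V_sq _ hu
  have hz : z ∈ X.V := cl ▸ subset_closure (by simp)
  have hw : w ∈ X.V := cl ▸ subset_closure (by simp)
  have hu : u ∈ X.V := cl ▸ subset_closure (by simp)
  have z1 := basis_ne D.toNE cl
  have v1 : X.v 1 ≠ 1 := fun k => one_ne_zero (X.v_eq_one.1 k)
  have ez : X.v 1 = z := by
    have zV : zpowers z ≤ X.V := zpowers_le.2 hz
    have WV : adj (zpowers z) w ≤ X.V := adj_le zV hw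
    have m1 := fun {x : G} => mem_adj (K := zpowers z) (g := w) (x := x)
      (fun k hk => by rw [cj_eq_iff.2 (NRC.V_comm _ hw (zV hk))]; exact hk) (by rw [sq w hw]; exact one_mem _)
    have m2 := fun {x : G} => mem_adj (K := adj (zpowers z) w) (g := u) (x := x)
      (fun k hk => by rw [cj_eq_iff.2 (NRC.V_comm _ hu (WV hk))]; exact hk) (by rw [sq u hu]; exact one_mem _)
    have le : X.V ≤ adj (adj (zpowers z) w) u := cl ▸ (closure_le _).2 (by
      rintro _ (rfl | rfl | rfl)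
      exacts [le_adj (le_adj (mem_zpowers _)), le_adj self_mem_adj, self_mem_adj])
    obtain ⟨s1, hs1, e1, -⟩ := h2 (w * z) u (Or.inr rfl) (Or.inl rfl)
    obtain ⟨s2, hs2, e2, e3⟩ := h2 w (u * z) (Or.inl rfl) (Or.inr (Or.inl rfl))
    have fz : ∀ s ∈ S, ∀ y ∈ zpowers z, cj s y = y := fun s hs y hy => by
      rcases (NRC.mem_zp (sq z hz)).1 hy with rfl | rfl
      exacts [cj_one _, (h1 s hs).1]
    have mv : ∀ s ∈ S, ∀ x, cj s x = x * z → cj s (x⁻¹ * X.v 1) ≠ x⁻¹ * X.v 1 := fun s hs x k1 k2 => by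
      rw [cj_mul, D.zS s hs, cj_inv, k1] at k2
      exact z1 (mul_eq_left.1 (inv_injective (mul_right_cancel k2)))
    rcases m2.1 (le (X.v_mem_V 1)) with k | k
    · rcases m1.1 k with k | k
      · exact ((NRC.mem_zp (sq z hz)).1 k).resolve_left v1
      · exact absurd (fz s1 hs1 _ k) (mv s1 hs1 w e1)
    · refine absurd ?_ (mv s2 hs2 u e3)
      rcases m1.1 k with k | k
      · exact fz s2 hs2 _ k
      · have := fz s2 hs2 _ k
        rw [cj_mul, cj_inv, e2] at this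
        exact mul_left_cancel this
  have act : ∀ y ∈ X.V, cj g y = y ∨ cj g y = y * z := fun y hy =>
    (tz y hy).imp (fun k => mul_left_cancel (k.trans (sq y hy).symm)) fun k => by
      rw [← ez, ← k, ← mul_assoc, sq y hy, one_mul]
  have gz : cj g z = z := (act z hz).resolve_right fun k => z1 (by
    rw [sq z hz] at k
    rw [← inv_cj_cj g z, k, cj_one])
  obtain ⟨s, hs, e1, e2⟩ := h2 _ _ (act w hw) ((act u hu).imp_right Or.inl)
  obtain ⟨α, hα, o, ho, e3⟩ := D.toNE.cenM (mul_mem (inv_mem (D.SM hs)) hg)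
    (mul_mem (inv_mem (D.sylS.le hs)) hL) fun y hy => by
      rw [mul_cj, ← NRC.cj_ext (g := s) (g' := g) (s := {z, w, u}) ?_ (cl ▸ hy), inv_cj_cj]
      rintro _ (rfl | rfl | rfl)
      exacts [(h1 s hs).1.trans gz.symm, e1, e2]
  have y : s * α ∈ S := mul_mem hs (D.AS hα)
  have e4 : g = s * α * o := by rw [mul_assoc, ← e3, mul_inv_cancel_left]
  obtain ⟨i, hi⟩ := pg_pow D.sylS.pg y
  obtain ⟨k, hk⟩ := g2
  have o1 := GoodAux.odd_part (mem_centralizer_iff.1 (S_C D y) o ho).symm (D.toPure.mem_O0.1 ho).2 hi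
    (e4 ▸ hk)
  rw [e4, o1, mul_one]
  exact y

end OA2

end

open Subgroup H69 H36.SW H4.YM H4.TL
open H25.L2B (syl_iff Lie2)

variable {G : Type*} [Group G] [Finite G] {F : Type*} [Field F] [Finite F]

theorem Fr.ON.o1 {X : Fr G F} {A S : Subgroup G} {e : ℕ} {f : G} (D : X.ON A e S f) :
    X.O1 A e S f :=
  { D with
    fX := D.fX
    weak := OA2.weak D.toNS
    cO := fun _ hg g2 o ho => H4.YM.cj_eq_iff.2 (mem_centralizer_iff.1 (OA2.cO D hg g2) o ho).symm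
    tvj := fun _ => OA2.tvj D
    nocen := fun _ => OA2.nocen D
    TzS := fun _ => OA2.TzS D }

end H79.JO
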