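import Cfsg.Agent.Lib.JO.Defs2
import Cfsg.Agent.Lib.Ben.SyA
import Cfsg.Agent.Lib.Unitary.Simple
import Cfsg.Agent.Lib.Invol.Dihedral

set_option autoImplicit false
set_option linter.unusedSectionVars false

namespace H79.JO

open Subgroup H69 H36.SW H4.YM H4.TL
open H25.L2B (syl_iff Lie2)

variable {G : Type*} [Group G] [Finite G] {F : Type*} [Field F] [Finite F]

namespace U34

open H55.Ben (SP UZ)
open scoped commutatorElement

variable {X : Type*} [Group X] [Finite X]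

/-- the facts about the simple group -/
structure UX (X : Type*) [Group X] : Prop where
  simple : IsSimpleGroup X
  syl : ∀ U : Subgroup X, IsSylowIn 2 U ⊤ → ∃ Z, SP U Z ∧ UZ ⊤ U Z ∧ Nat.card Z = 4 ∧ Nat.card U = 64

theorem ux (h : IsU34 X) : UX X := by
  obtain ⟨K, _, _, hK, ⟨e⟩⟩ := h
  have : H11.U.IsSq K 4 := ⟨hK⟩
  have : IsSimpleGroup (Cfsg.PSU 3 K 4) := H11.U.isSimpleGroup_PSU le_rfl (by decide)
  refine ⟨e.isSimpleGroup, fun U hU => ?_⟩
  obtain ⟨Z, h1, h2, h3, h4, -⟩ := H55.Ben.syl_psu (n := 2) hU le_rfl hK (topEquiv.trans e)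
  exact ⟨Z, h1, h2, h3, h4⟩

theorem four {Z : Subgroup X} (hc : Nat.card Z = 4) (sq : ∀ x ∈ Z, x * x = 1) {a b z : X} (ha : a ∈ Z)
    (hb : b ∈ Z) (hz : z ∈ Z) (a1 : a ≠ 1) (b1 : b ≠ 1) (ab : a * b ≠ 1) :
    z = 1 ∨ z * a = 1 ∨ z * b = 1 ∨ z * (a * b) = 1 := by
  classical
  by_contra hn
  simp only [not_or] at hn
  obtain ⟨z1, za, zb, zab⟩ := hn
  have k : ∀ {u v : X}, v ∈ Z → u * v ≠ 1 → u ≠ v := fun hv h e => h (by rw [e]; exact sq _ hv)
  have hs : (({1, a, b, a * b, z} : Finset X) : Set X) ⊆ Z := by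
    intro x hx
    simp only [Finset.coe_insert, Finset.coe_singleton, Set.mem_insert_iff, Set.mem_singleton_iff] at hx
    rcases hx with rfl | rfl | rfl | rfl | rfl
    exacts [one_mem Z, ha, hb, mul_mem ha hb, hz]
  have h1 := Set.ncard_le_ncard hs (Set.toFinite _)
  rw [Set.ncard_coe_finset, ← Nat.card_coe_set_eq, SetLike.coe_sort_coe, hc,
    Finset.card_insert_of_notMem (by simp [a1.symm, b1.symm, ab.symm, Ne.symm z1]),
    Finset.card_insert_of_notMem (by simp [k hb ab, b1, (k ha za).symm]),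
    Finset.card_insert_of_notMem (by simp [a1, (k hb zb).symm]),
    Finset.card_insert_of_notMem (by simp [(k (mul_mem ha hb) zab).symm]), Finset.card_singleton] at h1
  omega

theorem UX.ex (h : UX X) {P : Subgroup X} (hP : IsPGroup 2 P) :
    ∃ U Z, P ≤ U ∧ SP U Z ∧ Nat.card Z = 4 := by
  obtain ⟨U, hU, le⟩ := exists_isSylowIn_le hP (le_top : P ≤ ⊤)
  obtain ⟨Z, h1, -, h3, -⟩ := h.syl U hU
  exact ⟨U, Z, le, h1, h3⟩

theorem UX.one (h : UX X) {x y : X} (x1 : x ≠ 1) (y1 : y ≠ 1) (x2 : x * x = 1) (y2 : y * y = 1) :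
    IsConj x y := by
  have : Fact (Nat.Prime 2) := ⟨Nat.prime_two⟩
  have := h.simple
  obtain ⟨P⟩ : Nonempty (Sylow 2 X) := inferInstance
  have hU := isSylowIn_top P
  obtain ⟨Z, s, uz, cZ, cU⟩ := h.syl _ hU
  obtain ⟨g, hg⟩ : ∃ g, g ∉ 𝐍((P : Subgroup X)) := by
    by_contra hn
    simp only [not_exists, not_not] at hn
    rcases (normalizer_eq_top_iff.1 (eq_top_iff.2 fun g _ => hn g)).eq_bot_or_eq_top with e | e
    · rw [e, card_bot] at cU
      omega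
    · have nZ : Z.Normal := ⟨fun z hz u => by
        rwa [(s.cen z (s.le hz)).1 hz u (e ▸ mem_top u), mul_inv_cancel_right]⟩
      rcases nZ.eq_bot_or_eq_top with e' | e'
      · rw [e', card_bot] at cZ
        omega
      · rw [e', ← e, cU] at cZ
        omega
  have cz : ∀ a ∈ Z, a ≠ 1 → ∀ z : X, z * z = 1 → z * a = a * z → z ∈ Z := fun a ha a1 z z2 e =>
    s.inv z (hU.le_of_le_normalizer' (H9.isPGroup_zpowers_of_mul_self z2) le_top (zpowers_le.2
      (uz a ha a1 z trivial (by rwa [e, mul_inv_cancel_right]))) (mem_zpowers z)) z2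
  have key : ∀ a ∈ Z, a ≠ 1 → ∀ b ∈ Z, b ≠ 1 → IsConj a b := by
    intro a ha a1 b hb b1
    refine IsConj.trans (b := g * b * g⁻¹) ?_ (isConj_iff.2 ⟨g, rfl⟩).symm
    by_contra hn
    obtain ⟨z, oz, c1, c2⟩ := H9.exists_involution_commute_of_not_isConj (s.sq a ha)
      (by rw [conj_mul, s.sq b hb]; simp) hn
    have z2 := H9.mul_self_of_orderOf_two oz
    have m1 := cz a ha a1 z z2 c1.eq
    have m2 : g⁻¹ * z * g⁻¹⁻¹ ∈ Z := cz b hb b1 _ (by rw [conj_mul, z2]; simp) (by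
      calc g⁻¹ * z * g⁻¹⁻¹ * b = g⁻¹ * (z * (g * b * g⁻¹)) * g := by group
        _ = b * (g⁻¹ * z * g⁻¹⁻¹) := by rw [c2.eq]; group)
    exact hg (inv_mem_iff.1 (uz z m1 (H9.ne_one_of_orderOf_two oz) g⁻¹ trivial m2))
  have into : ∀ a : X, a ≠ 1 → a * a = 1 → ∃ b ∈ Z, b ≠ 1 ∧ IsConj a b := fun a a1 a2 => by
    obtain ⟨k, hk⟩ := H9.exists_conj_involution_mem_sylow P a2
    exact ⟨_, s.inv _ hk (by rw [conj_mul, a2]; simp), by rwa [Ne, conj_eq_one_iff], isConj_iff.2 ⟨k, rfl⟩⟩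
  obtain ⟨a, ha, a1, e⟩ := into x x1 x2
  obtain ⟨b, hb, b1, e'⟩ := into y y1 y2
  exact (e.trans (key a ha a1 b hb b1)).trans e'.symm

theorem main {I : Subgroup G} (p : I ≤ ⁅I, I⁆) (h : UX X) (π : I →* X) (su : Function.Surjective π)
    (k : ∀ x : I, (x : G) ∈ 𝐂(I) ↔ π x = 1) : LU I ∧ UF I := by
  have : Fact (Nat.Prime 2) := ⟨Nat.prime_two⟩
  have ex : ∀ P ≤ I, IsPGroup 2 P → ∃ U Z, (∀ x : I, (x : G) ∈ P → π x ∈ U) ∧ SP U Z ∧ Nat.card Z = 4 :=
    fun P _ hP => by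
      obtain ⟨U, Z, le, s, c⟩ := h.ex ((hP.comap_subtype (K := I)).map π)
      exact ⟨U, Z, fun x hx => le ⟨x, hx, rfl⟩, s, c⟩
  refine ⟨⟨fun x hx ⟨n, hn⟩ => ?_, fun P hP => ?_, fun P le hP a ha b hb a2 b2 ab x hx => ?_,
    fun P le hP x hx y hy => ?_, fun x hx y hy x1 y1 x2 y2 => ?_, fun N le hN => ?_⟩,
    fun P le hP a ha b hb a2 b2 ab x hx x2 => ?_⟩
  · obtain ⟨U, Z, m, s, -⟩ := ex _ (zpowers_le.2 hx) (H9.isPGroup_zpowers_of_pow hn)
    lift x to I using hx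
    refine (k (x ^ 4)).2 ?_
    rw [map_pow, ← s.sq _ (s.sqZ _ (m x (mem_zpowers _)))]
    simp only [pow_succ, pow_zero, one_mul, mul_assoc]
  · have h1 := hP.subgroupOf_top.map π
    rw [map_top_of_surjective _ su] at h1
    obtain ⟨Z, -, -, -, c⟩ := h.syl _ h1
    let f : P →* X := π.comp (inclusion hP.le)
    have e1 : f.range = (P.subgroupOf I).map π := by
      ext y
      exact ⟨fun ⟨x, e⟩ => ⟨inclusion hP.le x, x.2, e⟩, fun ⟨x, hx, e⟩ => ⟨⟨x, hx⟩, e⟩⟩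
    have e2 : f.ker = (𝐂(I)).subgroupOf P := by
      ext x
      exact (k (inclusion hP.le x)).symm
    rw [← card_mul_index f.ker, index_ker, e1, c, e2, mul_comm, inf_comm, ← subgroupOf_map_subtype,
      card_map_of_injective P.subtype_injective]
  · obtain ⟨U, Z, m, s, c⟩ := ex P le hP
    lift a to I using le ha
    lift b to I using le hb
    lift x to I using le hx
    simp only [← Subgroup.coe_mul, k, map_mul] at a2 b2 ab ⊢
    exact four c s.sq (s.sqZ _ (m a ha)) (s.sqZ _ (m b hb)) (s.sqZ _ (m x hx)) a2 b2 ab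
  · obtain ⟨U, Z, m, s, c⟩ := ex P le hP
    lift x to I using le hx
    lift y to I using le hy
    simp only [← Subgroup.coe_mul, ← Subgroup.coe_inv, k, map_mul, map_inv]
    have h1 := s.sqZ _ (m x hx)
    rw [← (s.cen _ (s.le h1)).1 h1 _ (m y hy)]
    group
  · lift x to I using hx
    lift y to I using hy
    simp only [← Subgroup.coe_mul, k, map_mul] at x1 y1 x2 y2
    obtain ⟨c, hc⟩ := isConj_iff.1 (h.one x1 y1 x2 y2)
    obtain ⟨g, rfl⟩ := su c
    refine ⟨g, g.2, ?_⟩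
    simp only [← Subgroup.coe_mul, ← Subgroup.coe_inv, k, map_mul, map_inv]
    rw [hc, y2]
  · have := h.simple
    have n1 : (N.subgroupOf I).Normal := normal_subgroupOf_of_le_normalizer hN
    rcases (n1.map π su).eq_bot_or_eq_top with e | e
    · refine Or.inl fun x hx => (k ⟨x, le hx⟩).2 ?_
      rw [← mem_bot, ← e]
      exact ⟨⟨x, le hx⟩, hx, rfl⟩
    · have d : ∀ x ∈ I, ∃ n ∈ N, ∃ c ∈ 𝐂(I), c ∈ I ∧ x = n * c := fun x hx => by
        obtain ⟨n, hn, e'⟩ : π ⟨x, hx⟩ ∈ (N.subgroupOf I).map π := e ▸ mem_top _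
        exact ⟨n, hn, (n⁻¹ * ⟨x, hx⟩ : I), (k _).2 (by rw [map_mul, map_inv, e', inv_mul_cancel]),
          SetLike.coe_mem _, by simp⟩
      refine Or.inr (p.trans (commutator_le.2 fun x hx y hy => ?_))
      obtain ⟨n, hn, c, hc, cI, rfl⟩ := d x hx
      obtain ⟨n', hn', c', hc', -, e'⟩ := d y hy
      have e1 : ⁅n * c, y⁆ = ⁅n, y⁆ := by
        rw [commutatorElement_def, commutatorElement_def]
        calc n * c * y * (n * c)⁻¹ * y⁻¹ = n * (c * y) * c⁻¹ * n⁻¹ * y⁻¹ := by group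
          _ = n * y * n⁻¹ * y⁻¹ := by rw [← mem_centralizer_iff.1 hc y hy]; group
      have e2 : ⁅n, y⁆ = ⁅n, n'⁆ := by
        rw [commutatorElement_def, commutatorElement_def, e']
        calc n * (n' * c') * n⁻¹ * (n' * c')⁻¹ = n * n' * (c' * n⁻¹) * c'⁻¹ * n'⁻¹ := by group
          _ = n * n' * n⁻¹ * n'⁻¹ := by rw [← mem_centralizer_iff.1 hc' n⁻¹ (le (inv_mem hn))]; group
      rw [e1, e2, commutatorElement_def]
      exact mul_mem (mul_mem (mul_mem hn hn') (inv_mem hn)) (inv_mem hn')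
  · obtain ⟨U, Z, m, s, c⟩ := ex P le hP
    lift a to I using le ha
    lift b to I using le hb
    lift x to I using le hx
    simp only [← Subgroup.coe_mul, k, map_mul] at a2 b2 ab x2 ⊢
    exact four c s.sq (s.sqZ _ (m a ha)) (s.sqZ _ (m b hb)) (s.inv _ (m x hx) x2) a2 b2 ab

end U34

theorem lu_u34 {I : Subgroup G} (p : I ≤ ⁅I, I⁆) (h : IsU34 (I ⧸ center I)) : LU I ∧ UF I :=
  U34.main p (U34.ux h) (QuotientGroup.mk' (center I)) (QuotientGroup.mk'_surjective _) fun x => by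
    rw [QuotientGroup.mk'_apply, QuotientGroup.eq_one_iff, mem_center_iff, mem_centralizer_iff]
    exact ⟨fun h g => Subtype.ext (h g g.2), fun h g hg => congrArg Subtype.val (h ⟨g, hg⟩)⟩

end H79.JO
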