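import Cfsg.Agent.Lib.JO.Nr0
import Cfsg.Agent.Lib.JO.L34
import Cfsg.Agent.Lib.JO.U34

set_option autoImplicit false
set_option linter.unusedSectionVars false

namespace H79.JO

open Subgroup H69 H36.SW H4.YM H4.TL
open H25.L2B (syl_iff Lie2)

variable {G : Type*} [Group G] [Finite G] {F : Type*} [Field F] [Finite F]

namespace OB

theorem exists_inv {x : G} {n : ℕ} (h : x ^ 2 ^ n = 1) (h1 : x ≠ 1) :
    ∃ m : ℕ, x ^ m ≠ 1 ∧ x ^ m * x ^ m = 1 := by
  induction n generalizing x with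
  | zero => exact absurd (by simpa using h) h1
  | succ n ih =>
    by_cases h2 : x ^ 2 = 1
    · exact ⟨1, by simpa using h1, by rw [pow_one, ← pow_two, h2]⟩
    · obtain ⟨m, e⟩ := ih (x := x ^ 2) (by rw [← pow_mul, ← pow_succ', h]) h2
      exact ⟨2 * m, by rwa [pow_mul]⟩

theorem p8 (X : Fr G F) (y : F) : y ^ 8 = y := by
  have := Fintype.ofFinite F
  rw [← X.jf.card8, Nat.card_eq_fintype_card]
  exact FiniteField.pow_card y

theorem rfix (X : Fr G F) {y : F} (h : cj X.r (X.v y) = X.v y) : y = 0 ∨ y = 1 := by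
  rw [X.jf.rv] at h
  have h1 : y * (y - 1) = 0 := by linear_combination X.v_inj h
  exact (mul_eq_zero.1 h1).imp id sub_eq_zero.1

theorem exists_c (X : Fr G F) : ∃ c : F, c ≠ 0 ∧ c + c ^ 2 + c ^ 4 = 0 := by
  classical
  have := Fintype.ofFinite F
  obtain ⟨a, h⟩ : ∃ a : F, a ∉ ({0, 1} : Finset F) := by
    by_contra k
    push Not at k
    have h1 := (Finset.card_le_card (fun a _ => k a : Finset.univ ⊆ ({0, 1} : Finset F))).trans
      Finset.card_le_two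
    have h2 := X.jf.card8
    rw [Nat.card_eq_fintype_card, Fintype.card] at h2
    omega
  simp only [Finset.mem_insert, Finset.mem_singleton, not_or] at h
  have c2 := X.jf.char
  refine ⟨a * (a - 1), mul_ne_zero h.1 (sub_ne_zero.2 h.2), ?_⟩
  have := p8 X a
  grind

theorem rN (X : Fr G F) : X.r ∈ X.N1 :=
  X.mem_N1.2 ⟨cj_comm.1 (X.tA _ (X.jf.XA X.jf.rX)), fun a => X.jf.rv a ▸ X.v_mem_V _⟩

theorem rz (X : Fr G F) : cj X.r (X.v 1) = X.v 1 := by rw [X.jf.rv, one_pow]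

theorem r3 (X : Fr G F) (x : G) : cj X.r (cj X.r (cj X.r x)) = x := by
  rw [← mul_cj, ← mul_cj, ← pow_three', X.jf.r3, one_cj]

theorem z1 (X : Fr G F) : X.v 1 ≠ 1 := fun h => one_ne_zero (X.v_eq_one.1 h)

theorem tz_iff (X : Fr G F) {g : G} : X.Tz g ↔ ∀ u ∈ X.V, cj g u = u ∨ cj g u = u * X.v 1 := by
  refine forall₂_congr fun u hu => ?_
  have h := inv_eq_of_mul_eq_one_left (NrA.V_sq hu)
  rw [mul_eq_one_iff_inv_eq, h, eq_comm, ← eq_inv_mul_iff_mul_eq, h]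

theorem tz_mul (X : Fr G F) {g k : G} (hg : X.Tz g) (hk : X.Tz k) (h : cj g (X.v 1) = X.v 1) :
    X.Tz (g * k) := by
  rw [tz_iff] at *
  intro u hu
  rcases hk u hu with e | e <;> rw [mul_cj, e]
  · exact hg u hu
  · rw [cj_mul, h]
    rcases hg u hu with e | e <;> rw [e]
    · exact Or.inr rfl
    · exact Or.inl (by rw [mul_assoc, X.v_sq, mul_one])

theorem tz_cj (X : Fr G F) {g s : G} (hs : X.Tz s) (hg : ∀ u ∈ X.V, cj g⁻¹ u ∈ X.V)
    (h : cj g (X.v 1) = X.v 1) : X.Tz (cj g s) := by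
  rw [tz_iff] at *
  intro u hu
  have e := H4.YM.cj_cj g s (cj g⁻¹ u)
  rw [H4.YM.cj_inv_cj] at e
  rcases hs _ (hg u hu) with e1 | e1 <;> rw [e, e1]
  · exact Or.inl (H4.YM.cj_inv_cj g u)
  · exact Or.inr (by rw [cj_mul, H4.YM.cj_inv_cj, h])

variable {X : Fr G F} {A S I : Subgroup G} {e : ℕ} {f : G} (D : X.O1 A e S f)
include D

theorem AC : A ≤ X.L ⊓ centralizer {f} := fun _ ha => ⟨D.A_le_L ha, mem_cen.2 (D.cjA ha D.fA)⟩

theorem AH : A ≤ X.Hf f := (AC D).trans le_adj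

theorem QH : adj A X.t ≤ X.Hf f := adj_le (AH D) self_mem_adj

theorem YA : zpowers f ≤ A := zpowers_le.2 D.fA

theorem rA {a : G} (ha : a ∈ A) : cj X.r a ∈ A := D.nA _ (rN X) a ha

theorem sq_mul {a b : G} (ha : a ∈ A) (hb : b ∈ A) : a * b * (a * b) = a * a * (b * b) :=
  Commute.mul_mul_mul_comm (D.comm hb ha) a b

theorem exists_sq {u : G} (hu : u ∈ X.V) : ∃ a ∈ A, a * a = u := by
  obtain ⟨a, ha, e1⟩ := D.eS u hu
  obtain ⟨k, hk⟩ := D.even_e D.ne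
  exact ⟨a ^ k, pow_mem ha k, by rw [← pow_add, ← hk, e1]⟩

theorem SC : S ⊓ centralizer (X.V : Set G) = A := by
  refine le_antisymm (fun s hs => ?_) (le_inf D.AS fun a ha u hu => (D.comm ha (D.VA hu)).symm)
  obtain ⟨k, hk⟩ := pg_pow D.sylS.pg hs.1
  exact D.cenM_two (D.SM hs.1) (D.sylS.le hs.1) (fun u hu => cj_eq_iff.2 (hs.2 u hu).symm) hk

theorem not_le4 {u : G} (mu : u ∈ X.V) : ¬ X.V ≤ adj (zpowers (X.v 1)) u := fun le => by
  classical
  have sub : (X.V : Set G) ⊆ ({1, X.v 1, u, u * X.v 1} : Finset G) := fun x hx => by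
    have := (mem_adj (fun k hk => by
      rw [D.cjA (D.VA mu) (D.VA (zpowers_le.2 (X.v_mem_V 1) hk))]; exact hk)
      (by rw [NrA.V_sq mu]; exact one_mem _)).1 (le hx)
    rw [NRC.mem_zp (X.v_sq 1), NRC.mem_zp (X.v_sq 1), inv_mul_eq_one, inv_mul_eq_iff_eq_mul] at this
    simp only [Finset.coe_insert, Finset.coe_singleton, Set.mem_insert_iff, Set.mem_singleton_iff]
    rcases this with (h | h) | h | h
    exacts [Or.inl h, Or.inr (Or.inl h), Or.inr (Or.inr (Or.inl h.symm)), Or.inr (Or.inr (Or.inr h))]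
  have h3 := Set.ncard_le_ncard sub (Finset.finite_toSet _)
  rw [Set.ncard_coe_finset] at h3
  have h4 : (X.V : Set G).ncard = 8 := D.card8
  have h5 := Finset.card_le_four (a := (1 : G)) (b := X.v 1) (c := u) (d := u * X.v 1)
  omega

/-- an element of `S` acting as an involution with a different centre -/
theorem exists_ntz : ∃ s ∈ S, (∀ u ∈ X.V, cj (s * s) u = u) ∧ ¬ X.Tz s := by
  obtain ⟨z, w, u, hV, h1, h2⟩ := D.flag D.sylS.pg (fun g hg => D.nrcV (D.SM hg)) (by rw [SC D, D.card])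
  have mz : z ∈ X.V := hV ▸ subset_closure (by simp)
  have mw : w ∈ X.V := hV ▸ subset_closure (by simp)
  have mu : u ∈ X.V := hV ▸ subset_closure (by simp)
  have ext : ∀ g, cj g z = z → cj g w = w → cj g u = u → ∀ x ∈ X.V, cj g x = x := fun g a b c x hx => by
    rw [← hV] at hx
    rw [NRC.cj_ext (g' := 1) (by simp [one_cj, a, b, c]) hx, one_cj]
  obtain ⟨g, hg, gw, gu⟩ := h2 w (u * w) (Or.inl rfl) (by simp)
  obtain ⟨k, hk, kw, ku⟩ := h2 (w * z) u (Or.inr rfl) (Or.inl rfl)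
  have gz := (h1 g hg).1
  have kz := (h1 k hk).1
  by_contra hn
  push Not at hn
  have tg := (tz_iff X).1 (hn g hg (ext _ (by rw [mul_cj, gz, gz]) (by rw [mul_cj, gw, gw])
    (by rw [mul_cj, gu, cj_mul, gu, gw, mul_assoc, NrA.V_sq mw, mul_one]))) u mu
  have tk := (tz_iff X).1 (hn k hk (ext _ (by rw [mul_cj, kz, kz])
    (by rw [mul_cj, kw, cj_mul, kw, kz, mul_assoc, NrA.V_sq mz, mul_one]) (by rw [mul_cj, ku, ku]))) w mw
  rw [gu, mul_eq_left, mul_right_inj, ← NRC.mem_zp (X.v_sq 1)] at tg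
  rw [kw, mul_eq_left, mul_right_inj, ← NRC.mem_zp (X.v_sq 1)] at tk
  refine not_le4 D mu ?_
  rw [← hV, closure_le]
  rintro x (rfl | rfl | rfl)
  exacts [le_adj tk, le_adj tg, self_mem_adj]

variable (p : PU (X.Hf f) (zpowers f) X.X5 I)
include p

theorem IL : I ≤ X.L := p.min _ (X.jf.XA.trans X.AL) (by
  have := X.nrm
  exact le_top.trans (normalizer_eq_top X.L).ge)

theorem rI : X.r ∈ I := p.XI X.jf.rX

theorem cmI {a x : G} (ha : a ∈ A) (hx : x ∈ I) : a⁻¹ * cj x a ∈ I := by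
  have := cj_mem_iff (x := x) (p.nI (AH D (inv_mem ha)))
  rw [show a⁻¹ * cj x a = cj a⁻¹ x * x⁻¹ by simp only [cj]; group]
  exact mul_mem (this.2 hx) (inv_mem hx)

theorem nC {c : F} (h0 : c ≠ 0) (h : c + c ^ 2 + c ^ 4 = 0) : X.v c ∉ 𝐂(I) := fun hc => by
  rcases rfix X (cj_eq_iff.2 (hc _ (rI D p))) with e | e
  · exact h0 e
  · have := X.jf.char
    rw [e] at h
    exact one_ne_zero (α := F) (by linear_combination h - this)

theorem exists_ab : ∃ a ∈ A ⊓ I, ∃ b ∈ A ⊓ I, a * a ∉ 𝐂(I) ∧ b * b ∉ 𝐂(I) ∧ a * a * (b * b) ∉ 𝐂(I) := by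
  obtain ⟨c, c0, hc⟩ := exists_c X
  obtain ⟨α, hα, e1⟩ := exists_sq D (X.v_mem_V c)
  have c2 := X.jf.char
  have c8 := p8 X c
  have mA := mul_mem (inv_mem hα) (rA D hα)
  have mI := cmI D p hα (rI D p)
  have e2 : α⁻¹ * cj X.r α * (α⁻¹ * cj X.r α) = X.v (c ^ 4) := by
    rw [sq_mul D (inv_mem hα) (rA D hα), ← mul_inv_rev, ← cj_mul, e1, X.jf.rv, X.v_inv, ← X.v_add]
    congr 1
    grind
  generalize α⁻¹ * cj X.r α = a at mA mI e2
  have e3 : cj X.r a * cj X.r a = X.v c := by rw [← cj_mul, e2, X.jf.rv, ← pow_mul, c8]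
  refine ⟨a, ⟨mA, mI⟩, cj X.r a, ⟨rA D mA, cj_mem (rI D p) mI⟩, ?_, ?_, ?_⟩
  · rw [e2]; exact nC D p (pow_ne_zero _ c0) (by grind)
  · rw [e3]; exact nC D p c0 hc
  · rw [e2, e3, ← X.v_add, show c ^ 4 + c = c ^ 2 by grind]
    exact nC D p (pow_ne_zero _ c0) (by grind)

theorem typ : LU I ∧ (IsL34 (I ⧸ center I) ∨ UF I) := by
  rcases p.typ with h | h | h
  · obtain ⟨a, ha, -, -, n, -⟩ := exists_ab D p
    exact absurd (h a ha.2 (P2.of_mem D.pg ha.1)) n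
  · exact ⟨lu_l34 p.perf h, Or.inl h⟩
  · exact ⟨(lu_u34 p.perf h).1, Or.inr (lu_u34 p.perf h).2⟩

theorem r4 {α : G} (hα : α ∈ A) : cj X.r (α ^ 4) = α ^ 4 := by
  have mA := mul_mem (inv_mem hα) (rA D hα)
  have h := cj_eq_iff.2 ((typ D p).1.e4 _ (cmI D p hα (rI D p)) (P2.of_mem D.pg mA) _ (rI D p))
  have p2 := (P2.of_mem D.pg mA).pow 4
  rw [Commute.mul_pow (D.comm (inv_mem hα) (rA D hα)), inv_pow, ← cj_pow] at h p2
  generalize α ^ 4 = β at h p2
  obtain ⟨δ, hδ⟩ : ∃ δ, cj X.r β = β * δ := ⟨β⁻¹ * cj X.r β, by group⟩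
  have h3 := r3 X β
  rw [hδ, inv_mul_cancel_left] at h p2
  rw [hδ, cj_mul, hδ, h, cj_mul, cj_mul, hδ, h, mul_assoc, mul_assoc, mul_eq_left, ← pow_three] at h3
  rw [hδ, p2.eq_one (Odd.of_dvd_nat (by decide) (orderOf_dvd_of_pow_eq_one h3)), mul_one]

theorem a4 {α : G} (hα : α ∈ A) : α ^ 4 = 1 := by
  by_contra h
  obtain ⟨n, hn⟩ := pg_pow D.pg (pow_mem hα 4)
  obtain ⟨m, h1, h2⟩ := exists_inv hn h
  obtain ⟨c, c0, hc⟩ := exists_c X
  obtain ⟨k, hk⟩ := D.transV (D.sqV (pow_mem (pow_mem hα 4) m) h2) h1 (X.v_mem_V c)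
    (fun e => c0 (X.v_eq_one.1 e))
  have := r4 D p (D.nA _ (X.h_N1 k) _ (pow_mem hα m))
  rw [← cj_pow, ← pow_mul, mul_comm, pow_mul, hk] at this
  rcases rfix X this with e | e
  · exact c0 e
  · have := X.jf.char
    rw [e] at hc
    exact one_ne_zero (α := F) (by linear_combination hc - this)

theorem sqe {a : G} (ha : a ∈ A) : a ^ e = a * a := by
  obtain ⟨k, hk⟩ := D.even_e D.ne
  have h : ∀ b ∈ A, b ^ e = b ^ (e % 4) := fun b hb => by
    conv_lhs => rw [← Nat.div_add_mod e 4, pow_add, pow_mul, a4 D p hb, one_pow, one_mul]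
  have : e % 4 = 0 ∨ e % 4 = 2 := by omega
  rcases this with h1 | h1
  · exact absurd (by rw [← D.fe, h f D.fA, h1, pow_zero]) (z1 X)
  · rw [h a ha, h1, pow_two]

theorem ff : f * f = X.v 1 := by rw [← sqe D p D.fA, D.fe]

theorem cardA : Nat.card A = 64 := by
  let φ : A →* G := MonoidHom.mk' (fun a => a * a) fun a b => sq_mul D a.2 b.2
  have h1 : φ.range = X.V := by
    ext u
    refine ⟨?_, fun hu => ?_⟩
    · rintro ⟨a, rfl⟩
      show (a : G) * a ∈ X.V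
      rw [← sqe D p a.2]
      exact D.eV _ a.2
    · obtain ⟨a, ha, e1⟩ := exists_sq D hu
      exact ⟨⟨a, ha⟩, e1⟩
  have h2 : φ.ker = X.V.subgroupOf A := by
    ext a
    exact ⟨fun h => D.sqV a.2 h, fun h => NrA.V_sq h⟩
  rw [← φ.ker.card_mul_index, index_ker, h1, h2, Nat.card_congr (subgroupOfEquivOfLe D.VA).toEquiv, D.card8]

theorem ordf : orderOf f = 4 :=
  orderOf_eq_prime_pow (p := 2) (n := 1) (by rw [pow_one, pow_two, ff D p]; exact z1 X) (a4 D p D.fA)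

theorem mem_Y {y : G} (hy : y ∈ zpowers f) (h : y * y = X.v 1) : y = f ∨ y = f⁻¹ := by
  classical
  obtain ⟨k, hk, rfl⟩ : ∃ k < 4, f ^ k = y := by
    rw [mem_zpowers_iff_mem_range_orderOf, ordf D p] at hy
    simpa using hy
  have h4 := a4 D p D.fA
  interval_cases k
  · exact absurd (by simpa using h.symm) (z1 X)
  · exact Or.inl (pow_one f)
  · exact absurd (by rw [← h, ← pow_add, h4]) (z1 X)
  · exact Or.inr (eq_inv_of_mul_eq_one_left (by rw [← pow_succ, h4]))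

/-- the Sylow subgroup of `I` -/
theorem exists_P : ∃ P, IsSylowIn 2 P I ∧ A ⊓ I ≤ P ∧ P ≤ 𝐍(adj A X.t) := by
  obtain ⟨P, h1, h2⟩ := exists_syl D.pgQ (QH D)
  exact ⟨P ⊓ I, (syl_iff.1 h2).inf_normal p.IH p.nI, inf_le_inf_right _ (le_adj.trans h1),
    inf_le_left.trans (D.weak P h2.pg h1)⟩

variable {P : Subgroup G} (hP : IsSylowIn 2 P I) (AP : A ⊓ I ≤ P) (PM : P ≤ 𝐍(adj A X.t))
include hP AP PM

theorem cY {x : G} (hx : x ∈ P) (h : x ∈ 𝐂(I)) : x ∈ zpowers f :=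
  p.cI x (p.IH (hP.le hx)) h (P2.of_mem hP.isP hx)

theorem cA {x a : G} (hx : x ∈ P) (ha : a ∈ A ⊓ I) (h : x * a ∈ 𝐂(I)) : x ∈ A :=
  (A.mul_mem_cancel_right ha.1).1 (YA D (cY D p hP AP PM (mul_mem hx (AP ha)) h))

theorem Pf {x : G} (hx : x ∈ P) : cj x f = f :=
  cj_eq_iff.2 (p.IY (hP.le hx) f (mem_zpowers f)).symm

theorem sqA {x : G} (hx : x ∈ P) : ∀ u ∈ X.V, cj (x * x) u = u := by
  obtain ⟨a, ha, b, hb, h1, h2, h3⟩ := exists_ab D p
  have : x * x ∈ A := by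
    rcases (typ D p).1.sq4 P hP.le hP.isP a (AP ha) b (AP hb) h1 h2 h3 x hx with h | h | h | h
    · exact cA D p hP AP PM (mul_mem hx hx) (one_mem _) (by rwa [mul_one])
    · exact cA D p hP AP PM (mul_mem hx hx) (mul_mem ha ha) h
    · exact cA D p hP AP PM (mul_mem hx hx) (mul_mem hb hb) h
    · exact cA D p hP AP PM (mul_mem hx hx) (mul_mem (mul_mem ha ha) (mul_mem hb hb)) h
  exact fun u hu => D.cjA this (D.VA hu)

theorem PT {x : G} (hx : x ∈ P) : X.Tz x :=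
  D.nocen x (PM hx) (IL D p (hP.le hx)) (sqA D p hP AP PM hx) (Pf D p hP AP PM hx)

theorem PR : P ≤ S ⊓ centralizer {f} := fun x hx =>
  ⟨D.TzS x (PM hx) (IL D p (hP.le hx)) (P2.of_mem hP.isP hx) (PT D p hP AP PM hx),
    mem_cen.2 (Pf D p hP AP PM hx)⟩

theorem cardP (h : f ∈ P) : Nat.card P = 256 := by
  have : P ⊓ 𝐂(I) = zpowers f := le_antisymm (fun x hx => cY D p hP AP PM hx.1 hx.2)
    (zpowers_le.2 ⟨h, fun i hi => (p.IY hi f (mem_zpowers f)).symm⟩)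
  rw [(typ D p).1.card P hP, this, Nat.card_zpowers, ordf D p]

theorem exists_x : ∃ x ∈ P, ¬ ∀ u ∈ X.V, cj x u = u := by
  by_contra h
  push Not at h
  have le : P ≤ A := fun x hx => by
    obtain ⟨k, hk⟩ := pg_pow hP.isP hx
    exact D.cenM_two (PM hx) (IL D p (hP.le hx)) (h x hx) hk
  have h1 := (typ D p).1.card P hP
  have h2 : 0 < Nat.card (P ⊓ 𝐂(I) : Subgroup G) := Nat.card_pos
  have h3 := cardA D p
  have h4 : P = A := eq_of_le_of_card_ge le (by omega)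
  have h5 := cardP D p hP AP PM (h4 ▸ D.fA)
  rw [h4] at h5
  omega

theorem fI : f ∈ I := by
  obtain ⟨x, hx, n⟩ := exists_x D p hP AP PM
  push Not at n
  obtain ⟨u, hu, n⟩ := n
  have e1 := ((tz_iff X).1 (PT D p hP AP PM hx) u hu).resolve_left n
  obtain ⟨α, hα, rfl⟩ := exists_sq D hu
  have xα := D.NA (PM hx) hα
  have mA := mul_mem (inv_mem hα) xα
  have mI := cmI D p hα (hP.le hx)
  have e2 : α⁻¹ * cj x α * (α⁻¹ * cj x α) = X.v 1 := by
    rw [sq_mul D (inv_mem hα) xα, ← mul_inv_rev, ← cj_mul, e1, inv_mul_cancel_left]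
  generalize α⁻¹ * cj x α = γ at mA mI e2
  have m1 := rA D mA
  have m2 := rA D m1
  have i1 := cj_mem (rI D p) mI
  have nI := mul_mem (mul_mem mI i1) (cj_mem (rI D p) i1)
  have nY := D.gen _ (mul_mem (mul_mem mA m1) m2) (by
    rw [cj_mul, cj_mul, r3, D.comm (mul_mem m1 m2) mA, mul_assoc])
  rcases mem_Y D p nY (by
    rw [sq_mul D (mul_mem mA m1) m2, sq_mul D mA m1, ← cj_mul, ← cj_mul, ← cj_mul, e2, rz, rz, X.v_sq,
      one_mul]) with h | h <;> rw [h] at nI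
  · exact nI
  · exact inv_mem_iff.1 nI

theorem RP : S ⊓ centralizer {f} = P := by
  have h1 := cardP D p hP AP PM (AP ⟨D.fA, fI D p hP AP PM⟩)
  have h2 : Nat.card S = 512 := by rw [D.card, cardA D p]
  have le := PR D p hP AP PM
  refine (eq_of_le_of_card_ge le ?_).symm
  obtain ⟨k, hk⟩ := card_dvd_of_le (inf_le_left : S ⊓ centralizer {f} ≤ S)
  have k1 : k ≠ 1 := fun h => by
    obtain ⟨s, hs, s2, n⟩ := exists_ntz D
    have : S ⊓ centralizer {f} = S := eq_of_le_of_card_ge inf_le_left (by rw [hk, h, mul_one])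
    exact n (D.nocen s (D.SM hs) (D.sylS.le hs) s2 (mem_cen.1 (this.ge hs).2))
  have k0 : k ≠ 0 := fun h => by rw [h] at hk; omega
  have k2 : 2 ≤ k := by omega
  nlinarith

theorem RT {s : G} (hs : s ∈ S) : cj s f = f ↔ X.Tz s := by
  have e1 := RP D p hP AP PM
  refine ⟨fun h => PT D p hP AP PM (e1.le ⟨hs, mem_cen.2 h⟩), fun h => ?_⟩
  by_contra n
  have sP : s ∉ P := fun k => n (Pf D p hP AP PM k)
  have le : P ≤ S := e1.ge.trans inf_le_left
  have i2 : (P.subgroupOf S).index = 2 := by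
    have := (P.subgroupOf S).card_mul_index
    rw [Nat.card_congr (subgroupOfEquivOfLe le).toEquiv, cardP D p hP AP PM (AP ⟨D.fA, fI D p hP AP PM⟩),
      D.card, cardA D p] at this
    omega
  obtain ⟨g, hg, -, ng⟩ := exists_ntz D
  have gP : g ∉ P := fun k => ng (PT D p hP AP PM k)
  have m : s⁻¹ * g ∈ P := (mul_mem_iff_of_index_two i2 (a := ⟨s⁻¹, inv_mem hs⟩) (b := ⟨g, hg⟩)).2
    (iff_of_false (fun k => sP (inv_mem_iff.1 k)) gP)
  have := tz_mul X h (PT D p hP AP PM m) (D.zS s hs)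
  rw [mul_inv_cancel_left] at this
  exact ng this

theorem l34 : IsL34 (I ⧸ center I) := by
  refine (typ D p).2.resolve_right fun uf => ?_
  obtain ⟨x, hx, n⟩ := exists_x D p hP AP PM
  obtain ⟨j, jM, jL, j2, ej⟩ := D.tvj x (PM hx) (sqA D p hP AP PM hx) n
  have tj : X.Tz j := fun u hu => by rw [ej u hu]; exact PT D p hP AP PM hx u hu
  have jS := D.TzS j jM jL (P2.of_sq j2) tj
  have jP : j ∈ P := (RP D p hP AP PM).le ⟨jS, mem_cen.2 ((RT D p hP AP PM jS).2 tj)⟩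
  obtain ⟨a, ha, b, hb, h1, h2, h3⟩ := exists_ab D p
  have : j ∈ A := by
    rcases uf P hP.le hP.isP a (AP ha) b (AP hb) h1 h2 h3 j jP (j2 ▸ one_mem _) with h | h | h | h
    · exact cA D p hP AP PM jP (one_mem _) (by rwa [mul_one])
    · exact cA D p hP AP PM jP (mul_mem ha ha) h
    · exact cA D p hP AP PM jP (mul_mem hb hb) h
    · exact cA D p hP AP PM jP (mul_mem (mul_mem ha ha) (mul_mem hb hb)) h
  exact n fun u hu => by rw [← ej u hu, D.cjA this (D.VA hu)]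

theorem cjP {g s : G} (hg : g ∈ 𝐍(adj A X.t)) (h : cj g (X.v 1) = X.v 1) (hs : s ∈ P) : cj g s ∈ P := by
  have t1 := tz_cj X (PT D p hP AP PM hs) (D.nrcV (inv_mem hg)) h
  have m := D.TzS _ (cj_mem hg (PM hs)) ((X.L_cj g).2 (IL D p (hP.le hs)))
    ((P2.of_mem hP.isP hs).conj g) t1
  exact (RP D p hP AP PM).le ⟨m, mem_cen.2 ((RT D p hP AP PM m).2 t1)⟩

theorem cVP {u : G} (hu : u ∈ X.V) (h : ∀ s ∈ P, cj s u = u) : u = 1 ∨ u = X.v 1 := by
  obtain ⟨y, rfl⟩ := X.mem_V.1 hu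
  by_contra k
  rw [not_or] at k
  obtain ⟨x, hx, n⟩ := exists_x D p hP AP PM
  obtain ⟨d, -, d1, -, ⟨w, hw, ew⟩, -, -, fin⟩ := e8_fix D.card8 (fun _ => NrA.V_sq) (D.nrcV (PM hx))
    (sqA D p hP AP PM hx) n
  have dz : d = X.v 1 := ((ew ▸ PT D p hP AP PM hx w hw :)).resolve_left d1
  have f2 : cj x (X.v (y ^ 2)) = X.v (y ^ 2) := by
    have := congrArg (cj X.r) (h _ (cjP D p hP AP PM (inv_mem (D.N1_le (rN X))) (inv_cj_eq.2 (rz X)) hx))
    rwa [← H4.YM.cj_cj, H4.YM.cj_inv_cj, X.jf.rv] at this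
  have y0 : y ≠ 0 := fun e => k.1 (X.v_eq_one.2 e)
  have y1 : y ≠ 1 := fun e => k.2 (by rw [e])
  have c2 := X.jf.char
  have y8 := p8 X y
  have := fin _ hu (h x hx) k.1 (dz ▸ k.2) _ (X.v_mem_V _) f2
  rw [dz, ← X.v_add, X.v_eq_one] at this
  rcases this with e | e | e | e
  · exact y0 (pow_eq_zero_iff two_ne_zero |>.1 e)
  all_goals have e := X.v_inj e; grind

theorem Mz {g : G} (hg : g ∈ 𝐍(adj A X.t)) (h : cj g (X.v 1) = X.v 1) : cj g f = f ∨ cj g f = f⁻¹ := by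
  have m := D.NA hg D.fA
  have s2 : f⁻¹ * cj g f * (f⁻¹ * cj g f) = 1 := by
    rw [sq_mul D (inv_mem D.fA) m, ← mul_inv_rev, ← cj_mul, ff D p, h, inv_mul_cancel]
  rcases cVP D p hP AP PM (D.sqV (mul_mem (inv_mem D.fA) m) s2) (fun s hs => by
    have := congrArg (cj g) (Pf D p hP AP PM (cjP D p hP AP PM (inv_mem hg) (inv_cj_eq.2 h) hs))
    rw [← H4.YM.cj_cj, H4.YM.cj_inv_cj] at this
    rw [cj_mul, cj_inv, Pf D p hP AP PM hs, this]) with e | e
  · exact Or.inl (inv_mul_eq_one.1 e).symm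
  · rw [inv_mul_eq_iff_eq_mul, ← ff D p] at e
    refine Or.inr (e.trans (eq_inv_of_mul_eq_one_left ?_))
    rw [← a4 D p D.fA]
    simp only [pow_succ, pow_zero, one_mul, mul_assoc]

theorem sylR : IsSylowIn 2 (S ⊓ centralizer {f}) (X.L ⊓ centralizer {f}) := by
  have h1 : S ≤ 𝐍(X.L ⊓ centralizer {f}) := fun s hs => mem_norm.2 fun x hx =>
    ⟨(X.L_cj s).2 hx.1, mem_cen.2 (by
      have e := H4.YM.cj_cj s x (cj s⁻¹ f)
      have e1 := mem_cen.1 hx.2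
      have e2 : cj x (cj s⁻¹ f) = cj s⁻¹ f := by
        rcases Mz D p hP AP PM (D.SM (inv_mem hs)) (D.zS _ (inv_mem hs)) with k | k <;> rw [k]
        · exact e1
        · rw [cj_inv, e1]
      rwa [e2, H4.YM.cj_inv_cj] at e)⟩
  have := (syl_iff.1 (D.sylS.mono (le_inf D.sylS.le h1) inf_le_left)).inf_normal
    (N := X.L ⊓ centralizer {f}) (le_inf inf_le_left le_normalizer) inf_le_right
  rwa [← inf_assoc, inf_eq_left.2 D.sylS.le] at this

end OB

theorem Fr.O1.o2 {X : Fr G F} {A S : Subgroup G} {e : ℕ} {f : G} (D : X.O1 A e S f) {I : Subgroup G}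
    (p : PU (X.Hf f) (zpowers f) X.X5 I) : X.O2 A e S f I := by
  obtain ⟨P, hP, AP, PM⟩ := OB.exists_P D p
  have e1 := OB.RP D p hP AP PM
  have l := OB.l34 D p hP AP PM
  have fI := OB.fI D p hP AP PM
  exact { D with
    pu := p
    lu := (OB.typ D p).1
    lf := lf_l34 p.perf l
    l34 := l
    a4 := fun _ => OB.a4 D p
    sqe := fun _ => OB.sqe D p
    cardA := OB.cardA D p
    IL := OB.IL D p
    fI := fI
    RI := fun s hs h => hP.le (e1.le ⟨hs, mem_cen.2 h⟩)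
    RT := fun _ => OB.RT D p hP AP PM
    cardR := e1 ▸ OB.cardP D p hP AP PM (AP ⟨D.fA, fI⟩)
    sylR := OB.sylR D p hP AP PM
    Mz := fun _ => OB.Mz D p hP AP PM }

end H79.JO
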