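import Cfsg.Agent.Lib.JO.Nr0
import Cfsg.Agent.Lib.JO.Defs2

set_option autoImplicit false
set_option linter.unusedSectionVars false

namespace H79.JO

open Subgroup H69 H36.SW H4.YM H4.TL
open H25.L2B (syl_iff Lie2)

variable {G : Type*} [Group G] [Finite G] {F : Type*} [Field F] [Finite F]

namespace OC

abbrev Y := Fin 3 → ZMod 2

def U (α β γ : ZMod 2) (y : Y) : Y := ![y 0 + α * y 1 + β * y 2, y 1 + γ * y 2, y 2]

/-- coordinates on `V` -/
structure Co (X : Fr G F) (S : Subgroup G) (ε : Y → G) : Prop where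
  add : ∀ x y, ε (x + y) = ε x * ε y
  inj : ∀ x y, ε x = ε y → x = y
  mem : ∀ u, u ∈ X.V ↔ ∃ y, u = ε y
  act : ∀ s ∈ S, ∃ α β γ, ∀ y, cj s (ε y) = ε (U α β γ y)
  all : ∀ α β γ, ∃ s ∈ S, ∀ y, cj s (ε y) = ε (U α β γ y)
  z : X.v 1 = ε ![1, 0, 0]

theorem Co.zero {X : Fr G F} {S : Subgroup G} {ε : Y → G} (C : Co X S ε) : ε 0 = 1 := by
  have := C.add 0 0
  rw [add_zero] at this
  exact (mul_eq_left.1 this.symm)

theorem Co.eq_one {X : Fr G F} {S : Subgroup G} {ε : Y → G} (C : Co X S ε) {y : Y} (h : ε y = 1) :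
    y = 0 := C.inj _ _ (h.trans C.zero.symm)

theorem Co.memV {X : Fr G F} {S : Subgroup G} {ε : Y → G} (C : Co X S ε) (y : Y) : ε y ∈ X.V :=
  (C.mem _).2 ⟨y, rfl⟩

variable {X : Fr G F} {A S I : Subgroup G} {e : ℕ} {f : G}

theorem SL (D : X.NS A e S) {s : G} (hs : s ∈ S) : s ∈ X.L := D.sylS.le hs

theorem cenS (D : X.NS A e S) {s : G} (hs : s ∈ S) (h : ∀ u ∈ X.V, cj s u = u) : s ∈ A := by
  obtain ⟨k, hk⟩ := pg_pow D.sylS.pg hs
  exact D.toNE.cenM_two (D.SM hs) (SL D hs) h hk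

theorem AV (D : X.NS A e S) {a u : G} (ha : a ∈ A) (hu : u ∈ X.V) : cj a u = u :=
  D.toGood.cjA ha (D.VA hu)

theorem exists_co (D : X.ON A e S f) : ∃ ε, Co X S ε := by
  have hc : Nat.card S = 8 * Nat.card (S ⊓ centralizer (X.V : Set G) : Subgroup G) := by
    have : S ⊓ centralizer (X.V : Set G) = A := by
      apply le_antisymm
      · intro s hs
        exact cenS D.toNS hs.1 fun u hu => cj_eq_iff.2 ((mem_centralizer_iff.1 hs.2) u hu).symm
      · intro a ha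
        exact ⟨D.AS ha, mem_centralizer_iff.2 fun u hu => (cj_eq_iff.1 (AV D.toNS ha hu)).symm⟩
    rw [this, D.card]
  obtain ⟨z, w, u, hcl, h1, h2⟩ := D.toNE.flag D.sylS.pg (fun g hg => D.toNE.nrcV (D.SM hg)) hc
  obtain ⟨a, rfl⟩ := X.mem_V.1 (hcl ▸ subset_closure (by simp) : z ∈ X.V)
  obtain ⟨b, rfl⟩ := X.mem_V.1 (hcl ▸ subset_closure (by simp) : w ∈ X.V)
  obtain ⟨c, rfl⟩ := X.mem_V.1 (hcl ▸ subset_closure (by simp) : u ∈ X.V)
  obtain ⟨p, pa, pb, pc⟩ := NRC.coords X.toHyp D.eight hcl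
  have add : ∀ x y : Y, X.v (p (x + y)) = X.v (p x) * X.v (p y) := fun x y => by
    rw [map_add, X.v_add]
  have ext : ∀ (s : G) (α β γ : ZMod 2), cj s (X.v a) = X.v a →
      cj s (X.v b) = X.v (p (U α β γ (Pi.single 1 1))) →
      cj s (X.v c) = X.v (p (U α β γ (Pi.single 2 1))) →
      ∀ y, cj s (X.v (p y)) = X.v (p (U α β γ y)) := by
    intro s α β γ ha hb hc
    have ha' : cj s (X.v (p (Pi.single 0 1))) = X.v (p (U α β γ (Pi.single 0 1))) := by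
      have : U α β γ (Pi.single 0 1) = Pi.single 0 1 :=
        (by decide : ∀ α β γ, U α β γ (Pi.single 0 1) = Pi.single 0 1) α β γ
      rw [this, pa, ha]
    rw [← pb] at hb
    rw [← pc] at hc
    have hadd : ∀ x y : Y, cj s (X.v (p x)) = X.v (p (U α β γ x)) →
        cj s (X.v (p y)) = X.v (p (U α β γ y)) →
        cj s (X.v (p (x + y))) = X.v (p (U α β γ (x + y))) := by
      intro x y hx hy
      have : U α β γ (x + y) = U α β γ x + U α β γ y := by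
        funext i; fin_cases i <;> simp [U] <;> ring
      rw [this, add, add, cj_mul, hx, hy]
    have h0 : cj s (X.v (p 0)) = X.v (p (U α β γ 0)) := by
      have : U α β γ 0 = 0 := by funext i; fin_cases i <;> simp [U]
      rw [this, map_zero, X.v_zero, H4.YM.cj_one]
    intro y
    have : ∀ y : Y, y = 0 ∨ y = Pi.single 0 1 ∨ y = Pi.single 1 1 ∨ y = Pi.single 2 1 ∨
        y = Pi.single 0 1 + Pi.single 1 1 ∨ y = Pi.single 0 1 + Pi.single 2 1 ∨
        y = Pi.single 1 1 + Pi.single 2 1 ∨ y = Pi.single 0 1 + Pi.single 1 1 + Pi.single 2 1 := by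
      decide
    rcases this y with rfl | rfl | rfl | rfl | rfl | rfl | rfl | rfl
    exacts [h0, ha', hb, hc, hadd _ _ ha' hb, hadd _ _ ha' hc, hadd _ _ hb hc,
      hadd _ _ (hadd _ _ ha' hb) hc]
  have e1 : ∀ β γ, X.v (p (U 0 β γ (Pi.single 1 1))) = X.v b := fun β γ => by
    rw [show U 0 β γ (Pi.single 1 1) = Pi.single 1 1 by revert β γ; decide, pb]
  have e2 : ∀ β γ, X.v (p (U 1 β γ (Pi.single 1 1))) = X.v b * X.v a := fun β γ => by
    rw [show U 1 β γ (Pi.single 1 1) = Pi.single 1 1 + Pi.single 0 1 by revert β γ; decide, add, pb, pa]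
  have e3 : ∀ α, X.v (p (U α 0 0 (Pi.single 2 1))) = X.v c := fun α => by
    rw [show U α 0 0 (Pi.single 2 1) = Pi.single 2 1 by revert α; decide, pc]
  have e4 : ∀ α, X.v (p (U α 1 0 (Pi.single 2 1))) = X.v c * X.v a := fun α => by
    rw [show U α 1 0 (Pi.single 2 1) = Pi.single 2 1 + Pi.single 0 1 by revert α; decide, add, pc, pa]
  have e5 : ∀ α, X.v (p (U α 0 1 (Pi.single 2 1))) = X.v c * X.v b := fun α => by
    rw [show U α 0 1 (Pi.single 2 1) = Pi.single 2 1 + Pi.single 1 1 by revert α; decide, add, pc, pb]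
  have e6 : ∀ α, X.v (p (U α 1 1 (Pi.single 2 1))) = X.v c * (X.v b * X.v a) := fun α => by
    rw [show U α 1 1 (Pi.single 2 1) = Pi.single 2 1 + (Pi.single 1 1 + Pi.single 0 1) by
      revert α; decide, add, add, pc, pb, pa]
  have all : ∀ α β γ, ∃ s ∈ S, ∀ y, cj s (X.v (p y)) = X.v (p (U α β γ y)) := by
    intro α β γ
    have k : ∀ x : ZMod 2, x = 0 ∨ x = 1 := by decide
    obtain ⟨g, hg, g1, g2⟩ := h2 (X.v (p (U α β γ (Pi.single 1 1)))) (X.v (p (U α β γ (Pi.single 2 1))))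
      (by rcases k α with rfl | rfl
          exacts [Or.inl (e1 _ _), Or.inr (e2 _ _)])
      (by rcases k β with rfl | rfl <;> rcases k γ with rfl | rfl
          exacts [Or.inl (e3 _), Or.inr (Or.inr (Or.inl (e5 _))), Or.inr (Or.inl (e4 _)),
            Or.inr (Or.inr (Or.inr (e6 _)))])
    exact ⟨g, hg, ext g α β γ (h1 g hg).1 g1 g2⟩
  have inj : ∀ x y : Y, X.v (p x) = X.v (p y) → x = y := fun x y h => p.injective (X.v_inj h)
  refine ⟨fun y => X.v (p y), add, inj, fun u => ?_, fun s hs => ?_, all, ?_⟩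
  · rw [X.mem_V]
    exact ⟨fun ⟨a, ha⟩ => ⟨p.symm a, by simp [ha]⟩, fun ⟨y, hy⟩ => ⟨_, hy⟩⟩
  · obtain ⟨s1, s2, s3⟩ := h1 s hs
    rcases s2 with s2 | s2 <;> rcases s3 with s3 | s3 | s3 | s3
    · exact ⟨0, 0, 0, ext s _ _ _ s1 (s2.trans (e1 _ _).symm) (s3.trans (e3 _).symm)⟩
    · exact ⟨0, 1, 0, ext s _ _ _ s1 (s2.trans (e1 _ _).symm) (s3.trans (e4 _).symm)⟩
    · exact ⟨0, 0, 1, ext s _ _ _ s1 (s2.trans (e1 _ _).symm) (s3.trans (e5 _).symm)⟩
    · exact ⟨0, 1, 1, ext s _ _ _ s1 (s2.trans (e1 _ _).symm) (s3.trans (e6 _).symm)⟩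
    · exact ⟨1, 0, 0, ext s _ _ _ s1 (s2.trans (e2 _ _).symm) (s3.trans (e3 _).symm)⟩
    · exact ⟨1, 1, 0, ext s _ _ _ s1 (s2.trans (e2 _ _).symm) (s3.trans (e4 _).symm)⟩
    · exact ⟨1, 0, 1, ext s _ _ _ s1 (s2.trans (e2 _ _).symm) (s3.trans (e5 _).symm)⟩
    · exact ⟨1, 1, 1, ext s _ _ _ s1 (s2.trans (e2 _ _).symm) (s3.trans (e6 _).symm)⟩
  · obtain ⟨y, hy⟩ := p.surjective 1
    have hf : ∀ α β γ, U α β γ y = y := fun α β γ => by
      obtain ⟨s, hs, h⟩ := all α β γ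
      refine inj _ _ ?_
      rw [← h, hy]; exact D.zS s hs
    have h0 : y ≠ 0 := fun h => by
      rw [h, map_zero] at hy; exact zero_ne_one hy
    have : ∀ y : Y, (∀ α β γ, U α β γ y = y) → y ≠ 0 → y = ![1, 0, 0] := by decide
    show X.v 1 = X.v (p _)
    rw [← this y hf h0, hy]

theorem sqV (D : X.O2 A e S f I) {a : G} (ha : a ∈ A) : a * a ∈ X.V := D.sqe a ha ▸ D.eV a ha

theorem ff (D : X.O2 A e S f I) : f * f = X.v 1 := by rw [← D.sqe f D.fA, D.fe]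

theorem z1 (X : Fr G F) : X.v 1 ≠ 1 := fun h => one_ne_zero (X.v_eq_one.1 h)

theorem toA (D : X.NS A e S) {ε : Y → G} (C : Co X S ε) {s : G} (hs : s ∈ S)
    (h : ∀ y, cj s (ε y) = ε y) : s ∈ A :=
  cenS D hs fun u hu => by obtain ⟨y, rfl⟩ := (C.mem u).1 hu; exact h y

theorem wcA (D : X.O2 A e S f I) (g : G) (hg : ∀ a ∈ A, cj g a ∈ S) : ∀ a ∈ A, cj g a ∈ A := by
  classical
  obtain ⟨ε, C⟩ := exists_co D.toON
  have comm : ∀ a ∈ A, ∀ b ∈ A, cj g a * cj g b = cj g b * cj g a := fun a ha b hb => by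
    rw [← cj_mul, ← cj_mul, D.toGood.comm ha hb]
  have h8 : Nat.card X.V = 8 := D.toNE.card8
  -- squares lie in `A`
  have sq : ∀ a ∈ A, cj g a * cj g a ∈ A := by
    intro a ha
    by_contra hn
    obtain ⟨α, β, γ, hb⟩ := C.act _ (hg a ha)
    have k1 : α = 1 ∧ γ = 1 := by
      by_contra k
      refine hn (toA D.toNS C (S.mul_mem (hg a ha) (hg a ha)) fun y => ?_)
      rw [mul_cj, hb, hb]
      exact congrArg ε ((by decide : ∀ α β γ, ¬ (α = 1 ∧ γ = 1) → ∀ y, U α β γ (U α β γ y) = y)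
        α β γ k y)
    obtain ⟨rfl, rfl⟩ := k1
    -- squares of elements of `A ∩ A^g`
    have k2 : ∀ c ∈ A, cj g c ∈ A → cj g (c * c) = 1 ∨ cj g (c * c) = X.v 1 := by
      intro c hc hc'
      obtain ⟨y, hy⟩ := (C.mem _).1 (sqV D hc')
      have : cj (cj g a) (ε y) = ε y := by
        rw [← hy, cj_mul, cj_eq_iff.2 (comm a ha c hc)]
      rw [hb] at this
      rcases (by decide : ∀ β y, U 1 β 1 y = y → y = 0 ∨ y = ![1, 0, 0]) β y (C.inj _ _ this) with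
        rfl | rfl
      · left; rw [cj_mul, hy, C.zero]
      · right; rw [cj_mul, hy, C.z]
    have k3 : ∀ c ∈ A, ∃ i : ℕ, cj g (c * a ^ i) ∈ A := by
      intro c hc
      obtain ⟨α', β', γ', hb'⟩ := C.act _ (hg c hc)
      have k4 : ∀ y, U α' β' γ' (U 1 β 1 y) = U 1 β 1 (U α' β' γ' y) := fun y => by
        refine C.inj _ _ ?_
        rw [← hb', ← hb, ← hb, ← hb', ← mul_cj, ← mul_cj, comm c hc a ha]
      have hS : ∀ i : ℕ, cj g (c * a ^ i) ∈ S := fun i => hg _ (A.mul_mem hc (A.pow_mem ha i))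
      rcases (by decide : ∀ α' β' γ' β, (∀ y, U α' β' γ' (U 1 β 1 y) = U 1 β 1 (U α' β' γ' y)) →
        (∀ y, U α' β' γ' y = y) ∨ (∀ y, U α' β' γ' (U 1 β 1 y) = y) ∨
        (∀ y, U α' β' γ' (U 1 β 1 (U 1 β 1 y)) = y) ∨
        ∀ y, U α' β' γ' (U 1 β 1 (U 1 β 1 (U 1 β 1 y))) = y) α' β' γ' β k4 with k | k | k | k
      · exact ⟨0, toA D.toNS C (hS 0) fun y => by rw [pow_zero, mul_one, hb', k]⟩
      · exact ⟨1, toA D.toNS C (hS 1) fun y => by rw [pow_one, cj_mul, mul_cj, hb, hb', k]⟩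
      · exact ⟨2, toA D.toNS C (hS 2) fun y => by
          rw [pow_two, cj_mul, cj_mul, mul_cj, mul_cj, hb, hb, hb', k]⟩
      · exact ⟨3, toA D.toNS C (hS 3) fun y => by
          rw [pow_three, cj_mul, cj_mul, cj_mul, mul_cj, mul_cj, mul_cj, hb, hb, hb, hb', k]⟩
    have a2 : a * a * (a * a) = 1 := NrA.V_sq (sqV D ha)
    have k5 : ∀ u ∈ X.V, u ∈ ({1, cj g⁻¹ (X.v 1), a * a, cj g⁻¹ (X.v 1) * (a * a)} : Finset G) := by
      intro u hu
      obtain ⟨c, hc, rfl⟩ := D.eS u hu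
      rw [D.sqe c hc]
      obtain ⟨i, hi⟩ := k3 c hc
      have hci := A.mul_mem hc (A.pow_mem ha i)
      have e1 : c * a ^ i * (c * a ^ i) = c * c * (a * a) ^ i := by
        have c1 : Commute c a := D.toGood.comm hc ha
        rw [(Commute.refl a).mul_pow, mul_assoc, ← mul_assoc (a ^ i), ← (c1.pow_right i).eq]
        simp only [mul_assoc]
      have e2 : (a * a) ^ i = 1 ∨ (a * a) ^ i = a * a := by
        rcases Nat.even_or_odd i with ⟨j, rfl⟩ | h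
        · left; rw [← two_mul, pow_mul, pow_two, a2, one_pow]
        · right; exact pow_odd_of_sq a2 h
      have e3 : c * c = c * c * (a * a) ^ i * (a * a) ^ i := by
        rcases e2 with h | h <;> rw [h]
        · simp
        · rw [mul_assoc (c * c), a2, mul_one]
      have e4 : c * c * (a * a) ^ i = 1 ∨ c * c * (a * a) ^ i = cj g⁻¹ (X.v 1) := by
        rcases k2 _ hci hi with h | h
        · left; rw [← e1]; exact cj_eq_one.1 h
        · right; rw [← e1]; exact (inv_cj_eq.2 h).symm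
      rw [e3]
      rcases e4 with h | h <;> rw [h] <;> rcases e2 with h' | h' <;> rw [h'] <;> simp
    obtain ⟨x, hx, hx'⟩ := exists_notMem (K := X.V)
      (s := {1, cj g⁻¹ (X.v 1), a * a, cj g⁻¹ (X.v 1) * (a * a)})
      (by rw [h8]; exact lt_of_le_of_lt Finset.card_le_four (by norm_num))
    exact hx' (k5 x hx)
  have hV : g ∈ normalizer (X.V : Set G) := mem_norm.2 fun u hu => by
    obtain ⟨c, hc, rfl⟩ := D.eS u hu
    rw [D.sqe c hc, cj_mul]
    refine D.toGood.sqV (sq c hc) ?_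
    rw [← cj_mul]
    exact cj_sq (NrA.V_sq (sqV D hc))
  intro a ha
  refine cenS D.toNS (hg a ha) fun u hu => ?_
  have hu' : cj g⁻¹ u ∈ X.V := (cj_mem_iff (inv_mem hV)).2 hu
  rw [← cj_inv_cj g u, H4.YM.cj_cj, AV D.toNS ha hu']

theorem mem_of_coprime {H : Subgroup G} {k : G} {a b : ℕ} (h : Nat.Coprime a b) (ha : k ^ a ∈ H)
    (hb : k ^ b ∈ H) : k ∈ H := by
  have := Nat.gcd_eq_gcd_ab a b
  rw [h.gcd_eq_one] at this
  have e : k = (k ^ a) ^ (Nat.gcdA a b) * (k ^ b) ^ (Nat.gcdB a b) := by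
    rw [← zpow_natCast, ← zpow_natCast, ← zpow_mul, ← zpow_mul, ← zpow_add, ← this]; simp
  rw [e]
  exact H.mul_mem (H.zpow_mem ha _) (H.zpow_mem hb _)

theorem actA (D : X.O2 A e S f I) (g : G) (hL : g ∈ X.L) (hg : ∀ a ∈ A, cj g a ∈ A) :
    ∃ m ∈ 𝐍(adj A X.t), m ∈ X.L ∧ ∀ a ∈ A, cj g a = cj m a := by
  obtain ⟨ε, C⟩ := exists_co D.toON
  have nV : ∀ x, (∀ a ∈ A, cj x a ∈ A) → x ∈ normalizer (X.V : Set G) := fun x hx =>
    mem_norm.2 fun u hu => D.toGood.sqV (hx u (D.VA hu)) (cj_sq (NrA.V_sq hu))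
  have cl : closure {ε (Pi.single 0 1), ε (Pi.single 1 1), ε (Pi.single 2 1)} = X.V := by
    apply le_antisymm
    · rw [closure_le]
      rintro x (rfl | rfl | rfl) <;> exact C.memV _
    · intro u hu
      obtain ⟨y, rfl⟩ := (C.mem u).1 hu
      set W := closure {ε (Pi.single 0 1), ε (Pi.single 1 1), ε (Pi.single 2 1)}
      have w0 : ε (Pi.single 0 1) ∈ W := subset_closure (by simp)
      have w1 : ε (Pi.single 1 1) ∈ W := subset_closure (by simp)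
      have w2 : ε (Pi.single 2 1) ∈ W := subset_closure (by simp)
      have : ∀ y : Y, y = 0 ∨ y = Pi.single 0 1 ∨ y = Pi.single 1 1 ∨ y = Pi.single 2 1 ∨
          y = Pi.single 0 1 + Pi.single 1 1 ∨ y = Pi.single 0 1 + Pi.single 2 1 ∨
          y = Pi.single 1 1 + Pi.single 2 1 ∨ y = Pi.single 0 1 + Pi.single 1 1 + Pi.single 2 1 := by
        decide
      rcases this y with rfl | rfl | rfl | rfl | rfl | rfl | rfl | rfl <;>
        (try simp only [C.zero, C.add])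
      exacts [W.one_mem, w0, w1, w2, W.mul_mem w0 w1, W.mul_mem w0 w2, W.mul_mem w1 w2,
        W.mul_mem (W.mul_mem w0 w1) w2]
  have cl' : closure {cj g (ε (Pi.single 0 1)), cj g (ε (Pi.single 1 1)), cj g (ε (Pi.single 2 1))} =
      X.V := by
    have h1 : X.V.map (MulAut.conj g).toMonoidHom = X.V := by
      ext x
      exact (mem_cm (h := g)).trans (cj_mem_iff (inv_mem (nV g hg)))
    rw [← h1, ← cl, MonoidHom.map_closure]
    congr 1
    simp [Set.image_insert_eq, cj]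
  obtain ⟨m, hm, mL, m0, m1, m2⟩ := D.toNE.basis cl cl'
  have hk : ∀ u ∈ X.V, cj (m⁻¹ * g) u = u := fun u hu => by
    rw [mul_cj, inv_cj_eq]
    refine NRC.cj_ext (s := {ε (Pi.single 0 1), ε (Pi.single 1 1), ε (Pi.single 2 1)}) ?_ (cl ▸ hu)
    rintro x (rfl | rfl | rfl)
    exacts [m0, m1, m2]
  have kN : m⁻¹ * g ∈ normalizer (A : Set G) := mem_norm.2 fun a ha => by
    rw [mul_cj]; exact D.toGood.NA (inv_mem hm) (hg a ha)
  have kL : m⁻¹ * g ∈ X.L := X.L.mul_mem (inv_mem mL) hL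
  have kC : m⁻¹ * g ∈ centralizer (X.V : Set G) :=
    mem_centralizer_iff.2 fun u hu => (cj_eq_iff.1 (hk u hu)).symm
  generalize hkk : m⁻¹ * g = k at hk kN kL kC
  have key : k ∈ centralizer (A : Set G) := by
    obtain ⟨r, o, ho, hr⟩ := Nat.exists_eq_two_pow_mul_odd (orderOf_pos k).ne'
    have vC : ∀ n : ℕ, ∀ u ∈ X.V, cj (k ^ n) u = u := fun n u hu =>
      cj_eq_iff.2 (mem_centralizer_iff.1 (pow_mem kC n) u hu).symm
    refine mem_of_coprime (a := 2 ^ r) (b := o) ((Nat.coprime_two_left.2 ho).pow_left r) ?_ ?_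
    · refine mem_centralizer_iff.2 fun a ha => (H4.YM.cj_eq_iff.1 ?_).symm
      refine D.toGood.odd_cen ?_ (mem_norm.1 (pow_mem kN _)) (fun a => vC _ _ (X.v_mem_V a)) ha
      refine ho.of_dvd_nat (orderOf_dvd_of_pow_eq_one ?_)
      rw [← pow_mul, ← hr, pow_orderOf_eq_one]
    · have h2 : (k ^ o) ^ 2 ^ r = 1 := by rw [← pow_mul, mul_comm, ← hr, pow_orderOf_eq_one]
      have pg : IsPGroup 2 (A ⊔ zpowers (k ^ o) : Subgroup G) := by
        rw [sup_comm]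
        exact IsPGroup.to_sup_of_normal_right' (pg_zpowers h2) D.pg
          (zpowers_le.2 (pow_mem kN _))
      obtain ⟨x, hx, hle⟩ := D.sylS.conj pg (sup_le D.toGood.A_le_L (zpowers_le.2 (pow_mem kL _)))
      have x1 := wcA D x⁻¹ fun a ha => mem_cm.1 (hle (mem_sup_left ha))
      have x2 : cj x⁻¹ (k ^ o) ∈ A := by
        refine cenS D.toNS (mem_cm.1 (hle (mem_sup_right (mem_zpowers _)))) fun u hu => ?_
        have hu' : cj x u ∈ X.V := (cj_mem_iff (by simpa using inv_mem (nV _ x1))).2 hu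
        rw [← inv_cj_cj x u, H4.YM.cj_cj, vC _ _ hu']
      have x3 : k ^ o ∈ A := (cj_mem_iff (mem_norm.2 x1)).1 x2
      exact mem_centralizer_iff.2 fun a ha => D.toGood.comm ha x3
  refine ⟨m, hm, mL, fun a ha => ?_⟩
  have : cj k a = a := cj_eq_iff.2 (mem_centralizer_iff.1 key a ha).symm
  rw [← hkk, mul_cj, inv_cj_eq] at this
  exact this.symm

theorem fpow (D : X.O2 A e S f I) {y : G} (hy : y ∈ zpowers f) :
    y = 1 ∨ y = f ∨ y = X.v 1 ∨ y = f⁻¹ := by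
  have h4 : f ^ 4 = 1 := D.a4 f D.fA
  obtain ⟨n, rfl⟩ := mem_powers_iff_mem_zpowers.2 hy
  show f ^ n = 1 ∨ f ^ n = f ∨ f ^ n = X.v 1 ∨ f ^ n = f⁻¹
  rw [← Nat.div_add_mod n 4, pow_add, pow_mul, h4, one_pow, one_mul]
  have : n % 4 < 4 := Nat.mod_lt _ (by norm_num)
  interval_cases n % 4
  · simp
  · simp
  · right; right; left; rw [pow_two, ff D]
  · right; right; right; rw [eq_inv_iff_mul_eq_one, ← pow_succ, h4]

theorem exists_w (D : X.O2 A e S f I) :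
    ∃ w ∈ X.V, w ∈ I ∧ cj X.r w ≠ w := by
  classical
  have := Fintype.ofFinite F
  have h8 : Fintype.card F = 8 := by rw [← Nat.card_eq_fintype_card, D.eight]
  obtain ⟨c, hc⟩ : ∃ c : F, c ∉ ({0, 1} : Finset F) := by
    by_contra h
    push Not at h
    have := Finset.card_le_card (fun x _ => h x : Finset.univ ⊆ ({0, 1} : Finset F))
    rw [Finset.card_univ, h8] at this
    exact absurd (this.trans Finset.card_le_two) (by norm_num)
  have c8 : c ^ 8 = c := by rw [← h8]; exact FiniteField.pow_card c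
  have h2 : (2 : F) = 0 := X.char
  have tr : (c + c ^ 2) + (c + c ^ 2) ^ 2 + (c + c ^ 2) ^ 4 = 0 := by
    linear_combination c8 + (c + c ^ 2 + c ^ 3 + c ^ 4 + 2 * c ^ 5 + 3 * c ^ 6 + 2 * c ^ 7) * h2
  refine ⟨X.v (c + c ^ 2), X.v_mem_V _, D.pu.XI ((X.jf.vX _).2 tr), fun h => ?_⟩
  rw [X.jf.rv] at h
  have h1 := X.v_inj h
  simp only [Finset.mem_insert, Finset.mem_singleton, not_or] at hc
  have h3 : (c + c ^ 2) ^ 4 = 0 := by linear_combination tr - h1 - (c + c ^ 2) * h2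
  have h4 : c * (c - 1) = 0 := by
    linear_combination (pow_eq_zero_iff (by norm_num)).1 h3 - c * h2
  rcases mul_eq_zero.1 h4 with h | h
  exacts [hc.1 h, hc.2 (sub_eq_zero.1 h)]

theorem nC (D : X.O2 A e S f I) {w : G} (h : cj X.r w ≠ w) : w ∉ 𝐂(I) := fun k =>
  h (H4.YM.cj_eq_iff.2 (mem_centralizer_iff.1 k _ (D.pu.XI X.jf.rX)))

theorem cI (D : X.O2 A e S f I) {c : G} (hc : c ∈ I) (h : c ∈ 𝐂(I)) (h2 : P2 c) : c ∈ zpowers f :=
  D.pu.cI c (D.pu.IH hc) h h2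

theorem fA (D : X.O2 A e S f I) {c : G} (hc : c ∈ zpowers f) : c ∈ A := zpowers_le.2 D.fA hc

theorem tz (_D : X.O2 A e S f I) {ε : Y → G} (C : Co X S ε) {g : G} {α β : ZMod 2}
    (h : ∀ y, cj g (ε y) = ε (U α β 0 y)) : X.Tz g := fun u hu => by
  obtain ⟨y, rfl⟩ := (C.mem u).1 hu
  rw [h, ← C.add, C.z, ← C.zero]
  rcases (by decide : ∀ α β y, y + U α β 0 y = 0 ∨ y + U α β 0 y = ![1, 0, 0]) α β y with k | k <;>
    rw [k] <;> simp

theorem invS (D : X.O2 A e S f I) (i : G) (hi : i ∈ S) (ii : i * i = 1) :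
    ∃ m ∈ 𝐍(adj A X.t), m ∈ X.L ∧ ∃ g ∈ I, cj (g * m) i ∈ X.V := by
  obtain ⟨ε, C⟩ := exists_co D.toON
  by_cases hA : i ∈ A
  · exact ⟨1, one_mem _, one_mem _, 1, one_mem _, by
      rw [mul_one, one_cj]; exact D.toGood.sqV hA ii⟩
  obtain ⟨ρ, hρ, ρa⟩ := C.all 1 0 0
  have nρ : ¬ ∀ u ∈ X.V, cj ρ u = u := fun h => by
    have := h _ (C.memV ![0, 1, 0])
    rw [ρa] at this
    exact absurd (C.inj _ _ this) (by decide)
  obtain ⟨m0, hm0, h0⟩ := D.toNE.conj_inv (D.SM hi) (fun u _ => by rw [ii, one_cj])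
    (fun h => hA (cenS D.toNS hi h)) (D.SM hρ) (fun u hu => by
      obtain ⟨y, rfl⟩ := (C.mem u).1 hu
      rw [mul_cj, ρa, ρa, (by decide : ∀ y, U 1 0 0 (U 1 0 0 y) = y)]) nρ
  obtain ⟨m, hm, mL, h⟩ : ∃ m ∈ 𝐍(adj A X.t), m ∈ X.L ∧ ∀ u ∈ X.V, cj (cj m i) u = cj ρ u := by
    rcases X.top m0 with k | k
    · exact ⟨m0, hm0, k, h0⟩
    · refine ⟨X.t * m0, mul_mem (le_normalizer self_mem_adj) hm0, k, fun u hu => ?_⟩
      rw [mul_cj, ← NRC.t_V X.toHyp hu, H4.YM.cj_cj, h0 u hu, NRC.t_V X.toHyp hu,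
        NRC.t_V X.toHyp (D.toNE.nrcV (D.SM hρ) u hu)]
  have iM : cj m i ∈ 𝐍(adj A X.t) := cj_mem hm (D.SM hi)
  have iL : cj m i ∈ X.L := (X.L_cj m).2 (SL D.toNS hi)
  have i2 : cj m i * cj m i = 1 := cj_sq ii
  have iT : X.Tz (cj m i) := tz D C fun y => (h _ (C.memV y)).trans (ρa y)
  have iS : cj m i ∈ S := D.TzS _ iM iL (P2.of_sq i2) iT
  have iI : cj m i ∈ I := D.RI _ iS ((D.RT _ iS).2 iT)
  have iC : cj m i ∉ 𝐂(I) := fun k =>
    nρ fun u hu => (h u hu).symm.trans (AV D.toNS (fA D (cI D iI k (P2.of_sq i2))) hu)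
  obtain ⟨w, wV, wI, wr⟩ := exists_w D
  have w2 : w * w = 1 := NrA.V_sq wV
  obtain ⟨g, hg, hc⟩ := D.lu.one _ iI w wI iC (nC D wr) (i2 ▸ one_mem _) (w2 ▸ one_mem _)
  refine ⟨m, hm, mL, g, hg, ?_⟩
  rw [mul_cj]
  change cj g (cj m i) * w ∈ _ at hc
  have j2 : cj g (cj m i) * cj g (cj m i) = 1 := cj_sq i2
  have jI : cj g (cj m i) ∈ I := cj_mem hg iI
  generalize cj g (cj m i) = j at hc j2 jI
  have c2 : j * w * (j * w) = 1 := by
    have := mem_centralizer_iff.1 hc w wI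
    calc j * w * (j * w) = j * (w * (j * w)) := by simp only [mul_assoc]
      _ = j * j * (w * w) := by rw [this]; simp only [mul_assoc]
      _ = 1 := by rw [j2, w2, mul_one]
  have : j * w ∈ X.V := D.toGood.sqV (fA D (cI D (I.mul_mem jI wI) hc (P2.of_sq c2))) c2
  exact (X.V.mul_mem_cancel_right wV).1 this

theorem isoA (D : X.O2 A e S f I) {y : G} (hy : y ∈ S) (y2 : y * y = X.v 1) : X.Tz y := by
  obtain ⟨ε, C⟩ := exists_co D.toON
  obtain ⟨α, β, γ, ha⟩ := C.act y hy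
  have zA : X.v 1 ∈ A := D.VA (X.v_mem_V 1)
  have yy : ∀ u ∈ X.V, cj (y * y) u = u := fun u hu => by rw [y2]; exact AV D.toNS zA hu
  rcases (by decide : ∀ x : ZMod 2, x = 0 ∨ x = 1) γ with rfl | rfl
  · exact tz D C ha
  exfalso
  obtain rfl : α = 0 := by
    have := yy _ (C.memV ![0, 0, 1])
    rw [mul_cj, ha, ha] at this
    exact (by decide : ∀ α β, U α β 1 (U α β 1 ![0, 0, 1]) = ![0, 0, 1] → α = 0) α β (C.inj _ _ this)
  have ny : ¬ ∀ u ∈ X.V, cj y u = u := fun h => by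
    have := h _ (C.memV ![0, 0, 1])
    rw [ha] at this
    exact (by decide : ∀ β, U 0 β 1 ![0, 0, 1] ≠ ![0, 0, 1]) β (C.inj _ _ this)
  obtain ⟨j, jM, jL, jj, hj⟩ := D.tvj y (D.SM hy) yy ny
  have ja : ∀ x, cj j (ε x) = ε (U 0 β 1 x) := fun x => (hj _ (C.memV x)).trans (ha x)
  have jA : ∀ a ∈ A, cj j a ∈ A := fun a h => D.toGood.NA jM h
  have ji : j⁻¹ = j := inv_eq_of_mul_eq_one_right jj
  have jjc : ∀ x, cj j (cj j x) = x := fun x => by rw [← mul_cj, jj, one_cj]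
  obtain ⟨a, aA, o, ho, hao⟩ := D.toNE.cenM (mul_mem jM (D.SM hy)) (mul_mem jL (SL D.toNS hy))
    fun u hu => by rw [mul_cj, ← hj u hu, jjc]
  have sqj : j * a * (j * a) = cj j a * a := by rw [cj, ji]; simp only [mul_assoc]
  have y4 : P2 y := P2.of_mem D.sylS.pg hy
  have ye : y = j * a * o := by rw [mul_assoc, ← hao, ← mul_assoc, jj, one_mul]
  have o1 : o = 1 := by
    refine P2.odd_eq_one (y := j * a) (P2.of_mul_self ?_) (ye ▸ y4) ?_ ((D.toPure.mem_O0).1 ho).2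
    · rw [sqj]; exact P2.of_mem D.pg (A.mul_mem (jA a aA) aA)
    · refine H4.YM.cj_eq_iff.1 ?_
      rw [mul_cj, cj_comm.1 (D.toGood.O0_A ho aA), D.cO j jM (P2.of_sq jj) o ho]
  rw [o1, mul_one] at ye
  rw [ye, sqj, C.z] at y2
  have nj : ¬ ∀ u ∈ X.V, cj j u = u := fun h => ny fun u hu => (hj u hu).symm.trans (h u hu)
  have cm : ∀ {x x'}, x ∈ A → x' ∈ A → x * x' = x' * x := fun h h' => D.toGood.comm h h'
  have eA : ∀ x, ε x ∈ A := fun x => D.VA (C.memV x)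
  have e2 : ∀ x, ε x * ε x = 1 := fun x => NrA.V_sq (C.memV x)
  -- squares of fixed elements
  have fx : ∀ b ∈ A, cj j b = b → ∀ q, b * b = ε q → q = 0 ∨ q = ![β, 1, 0] := by
    intro b hb h q hq
    obtain ⟨u, hu, k⟩ := D.toNE.dfix D.ne jM (jj ▸ one_mem _) nj hb h
    obtain ⟨x, rfl⟩ := (C.mem u).1 hu
    rw [D.sqe b hb, hq, ja, ← C.add] at k
    rw [C.inj _ _ k]
    exact (by decide : ∀ β x, x + U 0 β 1 x = 0 ∨ x + U 0 β 1 x = ![β, 1, 0]) β x
  obtain ⟨q, hq⟩ := (C.mem _).1 (sqV D aA)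
  have ja' : cj j a = a * ε (q + ![1, 0, 0]) := by
    have a4 : a * (a * a * a) = 1 := by rw [← D.a4 a aA]; simp only [pow_succ, pow_zero, one_mul, mul_assoc]
    calc cj j a = cj j a * a * (a * a * a) := by rw [mul_assoc, a4, mul_one]
      _ = a * ε (q + ![1, 0, 0]) := by
        rw [y2, hq, C.add, ← mul_assoc, cm (A.mul_mem (eA _) (eA _)) aA, cm (eA _) (eA q)]
  have qf : U 0 β 1 q = q := by
    refine C.inj _ _ ?_
    rw [← ja, ← hq, cj_mul, ja']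
    calc _ = a * a * (ε (q + ![1, 0, 0]) * ε (q + ![1, 0, 0])) := by
          rw [mul_assoc, ← mul_assoc (ε _), cm (eA _) aA]; simp only [mul_assoc]
      _ = _ := by rw [e2, mul_one]
  -- norms of elements `n x`, `n` fixed
  have nm : ∀ n ∈ A, cj j n = n → n * n = a * a → False := by
    intro n hn h1 h2
    have hx : n⁻¹ * a ∈ A := A.mul_mem (A.inv_mem hn) aA
    obtain ⟨x, hx'⟩ := (C.mem _).1 (D.toGood.sqV hx (by
      rw [mul_assoc, ← mul_assoc a, cm aA (A.inv_mem hn), mul_assoc, ← h2]; group))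
    have ae : a = n * ε x := by rw [← hx']; group
    have h3 : cj j a = a * ε (x + U 0 β 1 x) := by
      rw [ae, cj_mul, h1, ja, C.add, mul_assoc, ← mul_assoc (ε x), e2, one_mul]
    have h4 := C.inj _ _ (mul_left_cancel (ja'.symm.trans h3))
    have h5 := fx n hn h1 q (h2.trans hq)
    exact (by decide : ∀ β q x, q + ![1, 0, 0] = x + U 0 β 1 x → ¬ (q = 0 ∨ q = ![β, 1, 0])) β q x h4 h5
  rcases (by decide : ∀ β q, U 0 β 1 q = q → q = 0 ∨ q = ![β, 1, 0] ∨ q = ![1, 0, 0] ∨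
    q + ![1, 0, 0] = ![β, 1, 0]) β q qf with h | h | h | h
  · exact nm 1 A.one_mem (H4.YM.cj_one j) (by rw [hq, h, C.zero, mul_one])
  · obtain ⟨a0, h0, k0⟩ := D.eS _ (C.memV ![0, 0, 1])
    rw [D.sqe a0 h0] at k0
    refine nm (a0 * cj j a0) (A.mul_mem h0 (jA _ h0)) (by rw [cj_mul, jjc, cm (jA _ h0) h0]) ?_
    rw [mul_assoc, ← mul_assoc (cj j a0), cm (jA _ h0) h0, mul_assoc, ← cj_mul, ← mul_assoc, k0, ja,
      ← C.add, hq, h]
    exact congrArg ε ((by decide : ∀ β, ![0, 0, 1] + U 0 β 1 ![0, 0, 1] = ![β, 1, 0]) β)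
  · refine nm a aA ?_ rfl
    rw [ja', h, (by decide : (![1, 0, 0] + ![1, 0, 0] : Y) = 0), C.zero, mul_one]
  · refine nm (a * ε ![0, 0, 1]) (A.mul_mem aA (eA _)) ?_ ?_
    · rw [cj_mul, ja', ja, h, mul_assoc, ← C.add]
      exact congrArg (fun x => a * ε x)
        ((by decide : ∀ β, ![β, 1, 0] + U 0 β 1 ![0, 0, 1] = ![0, 0, 1]) β)
    · rw [mul_assoc, ← mul_assoc (ε _), cm (eA _) aA, mul_assoc, e2, mul_one]

theorem iso (D : X.O2 A e S f I) (g : G) (gL : g ∈ X.L) (gz : cj g (X.v 1) = X.v 1)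
    (hy : cj g f ∈ S) : cj g f = f ∨ cj g f = f⁻¹ := by
  have y2 : cj g f * cj g f = X.v 1 := by rw [← cj_mul, ff D, gz]
  have yI : cj g f ∈ I := D.RI _ hy ((D.RT _ hy).2 (isoA D hy y2))
  have zf : X.v 1 ∈ zpowers f := ff D ▸ mul_mem (mem_zpowers f) (mem_zpowers f)
  have fC : ∀ x ∈ zpowers f, x ∈ 𝐂(I) := fun x hx => mem_centralizer_iff.2 fun i hi =>
    (mem_centralizer_iff.1 (D.pu.IY hi) x hx).symm
  by_cases hC : cj g f ∈ 𝐂(I)
  · rcases fpow D (cI D yI hC (P2.of_mem D.sylS.pg hy)) with h | h | h | h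
    · rw [h, mul_one] at y2; exact absurd y2.symm (z1 X)
    · exact Or.inl h
    · rw [h, X.v_sq] at y2; exact absurd y2.symm (z1 X)
    · exact Or.inr h
  exfalso
  obtain ⟨w, wV, wI, wr⟩ := exists_w D
  have w2 : w * w = 1 := NrA.V_sq wV
  obtain ⟨i, hi, hc⟩ := D.lu.one _ yI w wI hC (nC D wr) (y2 ▸ fC _ zf) (w2 ▸ one_mem _)
  change cj i (cj g f) * w ∈ _ at hc
  have jI : cj i (cj g f) ∈ I := cj_mem hi yI
  rw [← mul_cj] at hc jI
  have g'L : i * g ∈ X.L := mul_mem (D.IL hi) gL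
  have g'z : cj (i * g) (X.v 1) = X.v 1 := by
    rw [mul_cj, gz]; exact H4.YM.cj_eq_iff.2 (mem_centralizer_iff.1 (fC _ zf) i hi)
  generalize i * g = k at hc jI g'L g'z
  have c2 : P2 (cj k f * w) := by
    refine P2.mul (P2.conj (P2.of_four (D.a4 f D.fA)) k) (P2.of_sq w2) ?_
    have := mem_centralizer_iff.1 hc w wI
    rw [← mul_assoc] at this
    exact (mul_right_cancel this).symm
  have cf := cI D (I.mul_mem jI wI) hc c2
  have yA : cj k f ∈ A := (A.mul_mem_cancel_right (D.VA wV)).1 (fA D cf)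
  have yf : cj k f ∉ zpowers f := fun h => by
    have hw : w ∈ zpowers f := ((zpowers f).mul_mem_cancel_left h).1 cf
    exact nC D wr (fC w hw)
  obtain ⟨c, hc0, hle⟩ := (syl_iff.2 D.sylR).conj (pg_cm D.pg k⁻¹) (X := cm k⁻¹ A) fun x hx => by
    have hx' : cj k x ∈ A := by simpa using mem_cm.1 hx
    refine ⟨(X.L_cj k).1 (D.toGood.A_le_L hx'), mem_cen.2 (cj_inj k ?_)⟩
    rw [← H4.YM.cj_cj, D.toGood.cjA hx' yA]
  have cf' : cj c f = f := mem_cen.1 hc0.2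
  have h1 := wcA D (c⁻¹ * k⁻¹) fun a ha => by
    rw [mul_cj]; exact (mem_cm.1 (hle (cj_mem_cm.2 ha))).1
  obtain ⟨m, hm, -, h2⟩ := actA D _ (mul_mem (inv_mem hc0.1) (inv_mem g'L)) h1
  have h3 : cj (c⁻¹ * k⁻¹) (cj k f) = f := by rw [mul_cj, inv_cj_cj, inv_cj_eq, cf']
  have h4 : cj m (X.v 1) = X.v 1 := by
    rw [← h2 _ (D.VA (X.v_mem_V 1)), mul_cj, inv_cj_eq.2 g'z, inv_cj_eq, ← ff D, cj_mul, cf']
  refine yf ?_
  rcases D.Mz m hm h4 with h | h <;> rw [← h2 f D.fA] at h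
  · rw [cj_inj _ (h3.trans h.symm)]; exact mem_zpowers f
  · have : cj (c⁻¹ * k⁻¹) f⁻¹ = f := by rw [cj_inv, h, inv_inv]
    rw [cj_inj _ (h3.trans this.symm)]; exact inv_mem (mem_zpowers f)

end OC

theorem Fr.O2.o3 {X : Fr G F} {A S I : Subgroup G} {e : ℕ} {f : G} (D : X.O2 A e S f I) :
    X.O3 A e S f I :=
  { D with
    wcA := OC.wcA D
    actA := OC.actA D
    invS := OC.invS D
    iso := OC.iso D }

end H79.JO
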