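import Cfsg.Agent.Lib.JO.Nr0
import Cfsg.Agent.Lib.JO.Defs2
import Cfsg.Agent.Lib.Perm29.AutAlt

/-! The hypotheses of the pump-up lemma hold in `C_L(f)⟨t⟩` (helper75). -/

set_option autoImplicit false
set_option linter.unusedSectionVars false

namespace H79.JO

open Subgroup H69 H36.SW H4.YM H4.TL
open H25.L2B (syl_iff Lie2)

variable {G : Type*} [Group G] [Finite G] {F : Type*} [Field F] [Finite F]

namespace OP

set_option synthInstance.maxSize 2048 in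
theorem dec5 : ∀ σ : Equiv.Perm (Fin 5), σ * σ = 1 → σ ≠ 1 →
    (∀ i j : Fin 5, i ≠ j → σ ≠ Equiv.swap i j) → ∀ τ : Equiv.Perm (Fin 5), τ * τ = 1 → τ ≠ 1 →
    (∀ i j : Fin 5, i ≠ j → τ ≠ Equiv.swap i j) → σ ≠ τ → σ * τ = τ * σ →
    ∃ i j : Fin 5, i ≠ j ∧ Equiv.swap i j * σ = σ * Equiv.swap i j ∧
      Equiv.swap i j * τ = σ * τ * Equiv.swap i j := by
  decide +kernel

theorem a5_aut {X : Subgroup G} (h : Nonempty (X ≃* alternatingGroup (Fin 5))) {x w w' : G}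
    (hx : x ∈ 𝐍(X)) (hw : w ∈ X) (hw' : w' ∈ X) (w2 : w * w = 1) (w1 : w ≠ 1)
    (w2' : w' * w' = 1) (w1' : w' ≠ 1) (ne : w ≠ w') (c : w * w' = w' * w) :
    (∃ a ∈ X, a⁻¹ * x ∈ 𝐂(X)) ∨ ∃ a ∈ X, cj (a * x) w = w ∧ cj (a * x) w' = w * w' := by
  obtain ⟨e⟩ := h
  let ξ : X →* Equiv.Perm (Fin 5) := (alternatingGroup (Fin 5)).subtype.comp e.toMonoidHom
  have ξi : Function.Injective ξ := (subtype_injective _).comp e.injective
  have ξs : ∀ σ : Equiv.Perm (Fin 5), Equiv.Perm.sign σ = 1 → ∃ a, ξ a = σ := fun σ hσ =>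
    ⟨e.symm ⟨σ, Equiv.Perm.mem_alternatingGroup.2 hσ⟩, congrArg Subtype.val (e.apply_symm_apply _)⟩
  have ξe : ∀ a, Equiv.Perm.sign (ξ a) = 1 := fun a => Equiv.Perm.mem_alternatingGroup.1 (e a).2
  obtain ⟨g, hg⟩ := H29.exists_perm_of_aut (α := Fin 5) (by simp) (by simp)
    ((e.symm.trans (X.normalizerMonoidHom ⟨x, hx⟩)).trans e)
  have hm : ∀ u ∈ X, cj x u ∈ X := fun u hu => (cj_mem_iff hx).2 hu
  have key : ∀ u (hu : u ∈ X), ξ ⟨cj x u, hm u hu⟩ = g * ξ ⟨u, hu⟩ * g⁻¹ := fun u hu => by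
    have := hg (e ⟨u, hu⟩)
    rw [MulEquiv.trans_apply, MulEquiv.trans_apply, e.symm_apply_apply] at this
    exact this
  have key2 : ∀ (a : X) u (hu : u ∈ X) u' (hu' : u' ∈ X),
      ξ a * g * ξ ⟨u, hu⟩ = ξ ⟨u', hu'⟩ * (ξ a * g) → cj (a * x) u = u' := fun a u hu u' hu' k => by
    have k2 : ξ (a * ⟨cj x u, hm u hu⟩ * a⁻¹) = ξ ⟨u', hu'⟩ := by
      rw [map_mul, map_mul, map_inv, key u hu]
      calc _ = ξ a * g * ξ ⟨u, hu⟩ * (ξ a * g)⁻¹ := by group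
        _ = _ := by rw [k]; group
    rw [mul_cj]
    exact congrArg Subtype.val (ξi k2)
  rcases Int.units_eq_one_or (Equiv.Perm.sign g) with s | s
  · obtain ⟨a, ha⟩ := ξs g s
    refine Or.inl ⟨a, a.2, fun u hu => ?_⟩
    have := key2 a⁻¹ u hu u hu (by rw [map_inv, ha]; group)
    exact (cj_eq_iff.1 this).symm
  · have ns : ∀ a : X, ∀ i j : Fin 5, i ≠ j → ξ a ≠ Equiv.swap i j := fun a i j hij k => by
      have := ξe a
      rw [k, Equiv.Perm.sign_swap hij] at this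
      exact absurd this (by decide)
    have n1 : ∀ u (hu : u ∈ X), u ≠ 1 → ξ ⟨u, hu⟩ ≠ 1 := fun u hu u1 k =>
      u1 (congrArg Subtype.val (ξi (k.trans (map_one ξ).symm)))
    have sq : ∀ u (hu : u ∈ X), u * u = 1 → ξ ⟨u, hu⟩ * ξ ⟨u, hu⟩ = 1 := fun u hu k => by
      rw [← map_mul, ← map_one ξ]; exact congrArg ξ (Subtype.ext k)
    obtain ⟨i, j, hij, k1, k2⟩ := dec5 (ξ ⟨w, hw⟩) (sq w hw w2) (n1 w hw w1) (ns _) (ξ ⟨w', hw'⟩)
      (sq w' hw' w2') (n1 w' hw' w1') (ns _) (fun k => ne (congrArg Subtype.val (ξi k)))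
      (by rw [← map_mul, ← map_mul]; exact congrArg ξ (Subtype.ext c))
    obtain ⟨a, ha⟩ := ξs (Equiv.swap i j * g⁻¹) (by
      rw [map_mul, map_inv, s, Equiv.Perm.sign_swap hij]; decide)
    have hb : ξ a * g = Equiv.swap i j := by rw [ha]; group
    refine Or.inr ⟨a, a.2, key2 a w hw w hw (by rw [hb, k1]), key2 a w' hw' _ (mul_mem hw hw') ?_⟩
    rw [hb, k2, ← map_mul]; rfl

variable {X : Fr G F}

theorem pow8 (X : Fr G F) (c : F) : c ^ 8 = c := by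
  have := Fintype.ofFinite F
  have h := FiniteField.pow_card c
  rwa [← Nat.card_eq_fintype_card, X.jf.card8] at h

theorem exists_a (X : Fr G F) : ∃ a : F, a ≠ 0 ∧ a ^ 3 + a + 1 = 0 := by
  have h2 := X.jf.char
  obtain ⟨b, b0, b1⟩ : ∃ b : F, b ≠ 0 ∧ b ≠ 1 := by
    by_contra hn
    push Not at hn
    have hs : (Set.univ : Set F) ⊆ {0, 1} := fun b _ => by
      by_cases k : b = 0
      · exact Or.inl k
      · exact Or.inr (hn b k)
    have := Set.ncard_le_ncard hs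
    rw [Set.ncard_univ, X.jf.card8] at this
    have := Set.ncard_insert_le (0 : F) {1}
    rw [Set.ncard_singleton] at this
    omega
  have a0 : b + b ^ 2 ≠ 0 := fun k => by
    have : b * (b - 1) = 0 := by linear_combination k - b * h2
    rcases mul_eq_zero.1 this with k | k
    · exact b0 k
    · exact b1 (sub_eq_zero.1 k)
  refine ⟨b + b ^ 2, a0, mul_left_cancel₀ a0 ?_⟩
  linear_combination pow8 X b + (b + b ^ 2 + b ^ 3 + b ^ 4 + 2 * b ^ 5 + 3 * b ^ 6 + 2 * b ^ 7) * h2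

theorem ker_tr (X : Fr G F) {a c : F} (h3 : a ^ 3 + a + 1 = 0) (h : c + c ^ 2 + c ^ 4 = 0) :
    c = 0 ∨ c = a ∨ c = a ^ 2 ∨ c = a + a ^ 2 := by
  have h2 := X.jf.char
  have : c * (c + a) * (c + a ^ 2) * (c + (a + a ^ 2)) = 0 := by
    linear_combination h + (c ^ 2 * (a + 1) + c * (a ^ 2 + a + 1)) * h3 +
      (c ^ 3 * (a + a ^ 2) + c ^ 2 * (a ^ 3 - a - 1) - c * (a ^ 3 + a ^ 2 + a + 1)) * h2
  simp only [mul_eq_zero] at this
  rcases this with ((k | k) | k) | k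
  · exact Or.inl k
  · exact Or.inr (Or.inl (by linear_combination k - a * h2))
  · exact Or.inr (Or.inr (Or.inl (by linear_combination k - a ^ 2 * h2)))
  · exact Or.inr (Or.inr (Or.inr (by linear_combination k - (a + a ^ 2) * h2)))

theorem z_X (X : Fr G F) {x : G} (hx : x ∈ X.X5) : cj x (X.v 1) = X.v 1 :=
  (X.jf.cz x (X.jf.XA hx)).2 (Or.inl hx)

theorem z_nX (X : Fr G F) : X.v 1 ∉ X.X5 := fun k => by
  have := (X.jf.vX 1).1 k
  exact one_ne_zero (α := F) (by linear_combination this - X.jf.char)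

/-- the elements of `V` -/
theorem V_cases (X : Fr G F) {a : F} (h3 : a ^ 3 + a + 1 = 0) {u : G} (hu : u ∈ X.V) :
    ∃ u', (u = u' ∨ u = X.v 1 * u') ∧
      (u' = 1 ∨ u' = X.v a ∨ u' = X.v (a ^ 2) ∨ u' = X.v a * X.v (a ^ 2)) := by
  have aux : ∀ c, X.v c ∈ X.X5 →
      X.v c = 1 ∨ X.v c = X.v a ∨ X.v c = X.v (a ^ 2) ∨ X.v c = X.v a * X.v (a ^ 2) := fun c hc => by
    rcases ker_tr X h3 ((X.jf.vX c).1 hc) with k | k | k | k
    · exact Or.inl (by rw [k, X.v_zero])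
    · exact Or.inr (Or.inl (by rw [k]))
    · exact Or.inr (Or.inr (Or.inl (by rw [k])))
    · exact Or.inr (Or.inr (Or.inr (by rw [k, X.v_add])))
  obtain ⟨c, rfl⟩ := X.mem_V.1 hu
  rcases (X.jf.cz _ (X.jf.vA c)).1 (X.v_comm c 1) with k | k
  · exact ⟨_, Or.inl rfl, aux c k⟩
  · rw [← X.v_add] at k
    exact ⟨_, Or.inr (by rw [X.v_add, ← mul_assoc, X.v_sq, one_mul]), aux _ k⟩

theorem inv_A0 (P : X.Pure) (tL : X.t ∉ X.L) {c : G} (hL : c ∈ X.L) (hc : cj c X.t = X.t) (h2 : c * c = 1) :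
    c ∈ X.A0 := by
  obtain ⟨a, ha, κ, hκ, rfl⟩ := X.aut hc
  have cm : κ * a = a * κ := cj_eq_iff.1 ((X.mem_K.1 hκ).2 a ha)
  have e1 : a * a = (κ * κ)⁻¹ := by
    rw [eq_inv_iff_mul_eq_one, ← h2]
    calc _ = a * (a * κ) * κ := by group
      _ = a * (κ * a) * κ := by rw [cm]
      _ = _ := by group
  have e2 : a * a = 1 := X.cen_A0 (mul_mem ha ha) fun b hb => by
    rw [e1]; exact (X.mem_K.1 (inv_mem (mul_mem hκ hκ))).2 b hb
  have e3 : κ * κ = 1 := by rw [← inv_eq_one, ← e1, e2]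
  rcases P.K_split hκ with k | k
  · have : κ = 1 := GoodAux.eq_one_of (P.mem_O0.1 k).2 (j := 1) (by rw [pow_one, sq, e3])
    rw [this, mul_one]; exact ha
  · have ct : κ * X.t = X.t * κ := cj_eq_iff.1 (X.mem_K.1 hκ).1
    have : X.t * κ = 1 := GoodAux.eq_one_of (P.mem_O0.1 k).2 (j := 1) (by
      rw [pow_one, sq]
      calc _ = X.t * (κ * X.t) * κ := by group
        _ = X.t * X.t * (κ * κ) := by rw [ct]; group
        _ = 1 := by rw [X.tt, e3, mul_one])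
    have hκt : κ = X.t := by rw [← X.tinv]; exact (eq_inv_of_mul_eq_one_right this)
    rw [hκt] at hL
    exact absurd ((mul_mem_cancel_left (X.AL ha)).1 hL) tL

/-- a normal subgroup of `X5` given by a predicate -/
theorem all_X5 (X : Fr G F) {N : Subgroup G} (hn : ∀ b ∈ X.X5, ∀ u ∈ X.X5, u ∈ N → cj b u ∈ N)
    {u : G} (hu : u ∈ X.X5) (u1 : u ≠ 1) (uN : u ∈ N) : X.X5 ≤ N := by
  obtain ⟨e⟩ := X.jf.isoX
  have : IsSimpleGroup X.X5 := e.isSimpleGroup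
  have nn : (N.subgroupOf X.X5).Normal := ⟨fun n k g => hn g g.2 n n.2 k⟩
  rcases nn.eq_bot_or_eq_top with k | k
  · have : (⟨u, hu⟩ : X.X5) ∈ N.subgroupOf X.X5 := uN
    rw [k] at this
    exact absurd (congrArg Subtype.val (mem_bot.1 this)) u1
  · exact subgroupOf_eq_top.1 k

theorem norm_X5 (P : X.Pure) (tL : X.t ∉ X.L) {x : G} (hz : cj x (X.v 1) = X.v 1)
    (ht : ∀ u ∈ X.X5, cj u (cj x X.t) = cj x X.t) : x ∈ 𝐍(X.X5) := by
  obtain ⟨a, a0, h3⟩ := exists_a X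
  have hw : X.v a ∈ X.X5 := (X.jf.vX a).2 (by linear_combination a * h3)
  let N : Subgroup G → Subgroup G := fun B => B.comap (MulAut.conj x⁻¹).toMonoidHom
  have hN : ∀ B u, u ∈ N B ↔ cj x⁻¹ u ∈ B := fun B u => Iff.rfl
  have ct : ∀ u ∈ X.X5, cj (cj x⁻¹ u) X.t = X.t := fun u hu => by
    have := H4.YM.cj_cj x⁻¹ u (cj x X.t)
    rwa [ht u hu, inv_cj_cj] at this
  have cz : ∀ u ∈ X.X5, cj (cj x⁻¹ u) (X.v 1) = X.v 1 := fun u hu => by
    have := H4.YM.cj_cj x⁻¹ u (X.v 1)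
    rwa [z_X X hu, inv_cj_eq.2 hz] at this
  have h1 : X.X5 ≤ N X.A0 := all_X5 X (fun b hb u _ k => by
      rw [hN, ← H4.YM.cj_cj]; exact X.C_A0 (ct b hb) k) hw (fun k => a0 (X.v_eq_one.1 k))
    (inv_A0 P tL ((X.L_cj _).2 (X.AL (X.jf.XA hw))) (ct _ hw) (cj_sq (X.v_sq a)))
  have h2 : ∀ u ∈ X.X5, cj x⁻¹ u ∈ X.X5 ∨ X.v 1 * cj x⁻¹ u ∈ X.X5 := fun u hu =>
    (X.jf.cz _ (h1 hu)).1 (cz u hu)
  have r1 : X.r ≠ 1 := fun k => by
    have := X.jf.rv a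
    rw [k, one_cj] at this
    have h4 := X.v_inj this
    have : a = 1 := mul_left_cancel₀ a0 (by linear_combination -h4)
    rw [this] at h3
    exact one_ne_zero (α := F) (by linear_combination h3 - X.jf.char)
  have h5 : X.X5 ≤ N X.X5 := all_X5 X (fun b hb u _ k => by
      rw [hN, ← H4.YM.cj_cj]
      rcases h2 b hb with l | l
      · exact cj_mem l k
      · have := cj_mem l ((hN _ _).1 k)
        rw [mul_cj] at this
        rwa [cj_inj _ (cj_comm.1 (z_X X this))] at this) X.jf.rX r1 (by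
      rw [hN]
      rcases h2 _ X.jf.rX with l | l
      · exact l
      · have c3 : cj x⁻¹ X.r ^ 3 = 1 := by rw [← cj_pow, X.jf.r3, H4.YM.cj_one]
        have cm := cj_eq_iff.1 (cz _ X.jf.rX)
        have e1 : (X.v 1 * cj x⁻¹ X.r) * (X.v 1 * cj x⁻¹ X.r) = cj x⁻¹ X.r ^ 2 := by
          calc _ = X.v 1 * (cj x⁻¹ X.r * X.v 1) * cj x⁻¹ X.r := by group
            _ = X.v 1 * X.v 1 * cj x⁻¹ X.r ^ 2 := by rw [cm, sq]; simp only [mul_assoc]
            _ = _ := by rw [X.v_sq, one_mul]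
        have l2 := mul_mem l l
        rw [e1] at l2
        have l3 := mul_mem l2 l2
        rwa [← pow_add, show 2 + 2 = 3 + 1 from rfl, pow_succ, c3, one_mul] at l3)
  exact (inv_mem_iff (H := 𝐍(X.X5))).1 (mem_norm.2 fun u hu => h5 hu)

variable {A S : Subgroup G} {e : ℕ} {f : G}

theorem mem_Hf (D : X.O1 A e S f) {x : G} : x ∈ X.Hf f ↔
    (x ∈ X.L ∧ cj x f = f) ∨ (X.t * x ∈ X.L ∧ cj (X.t * x) f = f) := by
  have ti := D.toGood.inv D.fA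
  rw [Fr.Hf, mem_adj (fun k hk => ?_) (by rw [X.tt]; exact one_mem _), X.tinv, mem_inf, mem_inf,
    mem_cen, mem_cen]
  refine mem_inf.2 ⟨(X.L_cj _).2 (mem_inf.1 hk).1, mem_cen.2 ?_⟩
  have := H4.YM.cj_cj X.t k f⁻¹
  rw [cj_inv k, mem_cen.1 (mem_inf.1 hk).2, cj_inv X.t, ti, inv_inv] at this
  exact this

theorem Hf_f (D : X.O1 A e S f) {x : G} (hx : x ∈ X.Hf f) : cj x f = f ∨ cj x f = f⁻¹ := by
  rcases (mem_Hf D).1 hx with k | k
  · exact Or.inl k.2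
  · right
    have := k.2
    rw [mul_cj, ← X.tinv, inv_cj_eq, D.toGood.inv D.fA] at this
    exact this.symm

theorem Hf_z (D : X.O1 A e S f) {x : G} (hx : x ∈ X.Hf f) : cj x (X.v 1) = X.v 1 := by
  rcases Hf_f D hx with k | k
  · rw [← D.fe, cj_pow, k]
  · rw [← D.fe, cj_pow, k, inv_pow, D.fe, X.v_inv]

theorem X5_Hf (D : X.O1 A e S f) : X.X5 ≤ X.Hf f := fun x hx =>
  (mem_Hf D).2 (Or.inl ⟨X.AL (X.jf.XA hx), D.fX x hx⟩)

theorem X5_Y (D : X.O1 A e S f) {x y : G} (hx : x ∈ X.X5) (hy : y ∈ zpowers f) : cj x y = y := by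
  obtain ⟨n, rfl⟩ := (mem_powers_iff_mem_zpowers.2 hy)
  exact (cj_pow x f n).trans (by rw [D.fX x hx])

theorem X5_t (X : Fr G F) {x : G} (hx : x ∈ X.X5) : cj x X.t = X.t :=
  cj_comm.1 (X.tA x (X.jf.XA hx))

theorem cjt_Y (D : X.O1 A e S f) {x : G} (h : x * X.t * x⁻¹ * X.t ∈ zpowers f) :
    ∃ y ∈ zpowers f, cj x X.t = X.t * y := by
  refine ⟨_, inv_mem h, ?_⟩
  have := D.toGood.inv (zpowers_le.2 D.fA h)
  rw [← this, cj, cj, X.tinv, ← mul_assoc, ← mul_assoc, X.tt, one_mul, mul_assoc _ X.t X.t, X.tt,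
    mul_one]

theorem mem_M (D : X.O1 A e S f) {x y : G} (hy : y ∈ A) (h : cj x X.t = X.t * y)
    (hV : ∀ u ∈ X.V, cj x u ∈ X.V) : x ∈ 𝐍(adj A X.t) := by
  obtain ⟨m, hm, k⟩ := D.tr y hy
  have : m⁻¹ * x ∈ X.N1 := X.mem_N1.2 ⟨by rw [mul_cj, h, inv_cj_eq, k], fun a => by
    rw [mul_cj]; exact NrA.nv D.toGood (inv_mem hm) (hV _ (X.v_mem_V a))⟩
  exact (mul_mem_cancel_left (inv_mem hm)).1 (D.toGood.N1_le this)

theorem rep (D : X.O1 A e S f) {x : G} (hx : x ∈ X.Hf f) (hM : x ∈ 𝐍(adj A X.t)) :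
    ∃ g ∈ 𝐍(adj A X.t), g ∈ X.L ∧ cj g f = f ∧ (g = x ∨ g = X.t * x) ∧
      ∀ u ∈ X.V, cj g u = cj x u := by
  rcases (mem_Hf D).1 hx with k | k
  · exact ⟨x, hM, k.1, k.2, Or.inl rfl, fun _ _ => rfl⟩
  · exact ⟨_, mul_mem (le_normalizer self_mem_adj) hM, k.1, k.2, Or.inr rfl, fun u hu => by
      rw [mul_cj, NRC.t_V X.toHyp (NrA.nv D.toGood hM hu)]⟩

theorem h1 (D : X.O1 A e S f) {x : G} (hx : x ∈ X.Hf f) (h : x * X.t * x⁻¹ * X.t ∈ zpowers f) :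
    ∃ a ∈ X.X5, a⁻¹ * x ∈ 𝐂(X.X5) := by
  obtain ⟨y, hy, ky⟩ := cjt_Y D h
  have hn : x ∈ 𝐍(X.X5) := norm_X5 D.toPure D.tL (Hf_z D hx) fun u hu => by
    rw [ky, cj_mul, X5_t X hu, X5_Y D hu hy]
  obtain ⟨a, a0, h3⟩ := exists_a X
  have hw : X.v a ∈ X.X5 := (X.jf.vX a).2 (by linear_combination a * h3)
  have hw' : X.v (a ^ 2) ∈ X.X5 := by rw [← X.jf.rv]; exact cj_mem X.jf.rX hw
  have w1 : X.v a ≠ 1 := fun k => a0 (X.v_eq_one.1 k)
  have cm : X.v a * X.v (a ^ 2) = X.v (a ^ 2) * X.v a := cj_eq_iff.1 (X.v_comm _ _)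
  rcases a5_aut X.jf.isoX hn hw hw' (X.v_sq _) w1 (X.v_sq _)
    (fun k => pow_ne_zero 2 a0 (X.v_eq_one.1 k)) (fun k => by
      have h4 := X.v_inj k
      have : a = 1 := mul_left_cancel₀ a0 (by linear_combination -h4)
      rw [this] at h3
      exact one_ne_zero (α := F) (by linear_combination h3 - X.jf.char)) cm with k | ⟨b, hb, k1, k2⟩
  · exact k
  exfalso
  have hx' : b * x ∈ X.Hf f := mul_mem (X5_Hf D hb) hx
  have kz := Hf_z D hx'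
  have ky' : cj (b * x) X.t = X.t * y := by rw [mul_cj, ky, cj_mul, X5_t X hb, X5_Y D hb hy]
  generalize b * x = x' at hx' kz ky' k1 k2
  have k3 : cj x' (X.v a * X.v (a ^ 2)) = X.v (a ^ 2) := by
    rw [cj_mul, k1, k2, ← mul_assoc, X.v_sq, one_mul]
  have act : ∀ u ∈ X.V, cj x' u ∈ X.V ∧ cj x' (cj x' u) = u := fun u hu => by
    obtain ⟨u', l1, l2⟩ := V_cases X h3 hu
    have : cj x' u' ∈ X.V ∧ cj x' (cj x' u') = u' := by
      rcases l2 with l | l | l | l <;> rw [l]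
      · rw [H4.YM.cj_one, H4.YM.cj_one]; exact ⟨one_mem _, rfl⟩
      · rw [k1, k1]; exact ⟨X.v_mem_V _, rfl⟩
      · rw [k2, k3]; exact ⟨mul_mem (X.v_mem_V _) (X.v_mem_V _), rfl⟩
      · rw [k3, k2]; exact ⟨X.v_mem_V _, rfl⟩
    rcases l1 with l | l <;> rw [l]
    · exact this
    · rw [cj_mul, kz, cj_mul, kz, this.2]; exact ⟨mul_mem (X.v_mem_V _) this.1, rfl⟩
  have hM := mem_M D (zpowers_le.2 D.fA hy) ky' fun u hu => (act u hu).1
  obtain ⟨g, gM, gL, gf, -, gV⟩ := rep D hx' hM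
  have tz := D.nocen g gM gL (fun u hu => by
    rw [mul_cj, gV u hu, gV _ (act u hu).1, (act u hu).2]) gf _ (X.v_mem_V (a ^ 2))
  rw [gV _ (X.v_mem_V _), k2, cm, ← mul_assoc, X.v_sq, one_mul] at tz
  rcases tz with l | l
  · exact w1 l
  · exact z_nX X (l ▸ hw)

theorem h2 (D : X.O1 A e S f) {x : G} (hx : x ∈ X.Hf f) (hc : x ∈ 𝐂(X.X5)) (hp : P2 x)
    (h : x * X.t * x⁻¹ * X.t ∈ zpowers f) : x ∈ zpowers f ∨ x * X.t ∈ zpowers f := by
  obtain ⟨y, hy, ky⟩ := cjt_Y D h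
  obtain ⟨j, hj⟩ := hp
  have cx : ∀ u ∈ X.X5, cj x u = u := fun u hu => cj_eq_iff.2 (hc u hu).symm
  have act : ∀ u ∈ X.V, cj x u = u := fun u hu => by
    obtain ⟨c, rfl⟩ := X.mem_V.1 hu
    rcases (X.jf.cz _ (X.jf.vA c)).1 (X.v_comm c 1) with k | k
    · exact cx _ k
    · have := cx _ k
      rw [cj_mul, Hf_z D hx] at this
      exact mul_left_cancel this
  have hM := mem_M D (zpowers_le.2 D.fA hy) ky fun u hu => by rw [act u hu]; exact hu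
  obtain ⟨g, gM, gL, -, gx, gV⟩ := rep D hx hM
  have gV' : ∀ u ∈ X.V, cj g u = u := fun u hu => by rw [gV u hu, act u hu]
  rcases gx with rfl | rfl
  · exact Or.inl (D.gen _ (D.toNE.cenM_two gM gL gV' hj) (cj_comm.1 (cx _ X.jf.rX)))
  · right
    obtain ⟨α, hα, o, ho, k⟩ := D.toNE.cenM gM gL gV'
    have tα : X.t * α ∈ adj A X.t := mul_mem self_mem_adj (le_adj hα)
    have o1 : o = 1 := GoodAux.odd_part (y := X.t * α) (i := 1) (j := j)
      (cj_eq_iff.1 (D.toGood.O0_Q ho tα)).symm (D.toPure.mem_O0.1 ho).2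
      (by rw [pow_one, sq, X.sqΩ (D.Ω α hα)]) (by rw [mul_assoc, ← k, X.ttu, hj])
    rw [o1, mul_one] at k
    have hA : X.t * x ∈ A := k ▸ hα
    have hY := D.gen _ hA (cj_comm.1 (by
      rw [mul_cj, cx _ X.jf.rX, X.tA _ (X.jf.XA X.jf.rX)]))
    have := D.toGood.inv hA
    rw [cj, X.ttu, X.tinv] at this
    rw [this]
    exact inv_mem hY

end OP

theorem Fr.O1.ph {X : Fr G F} {A S : Subgroup G} {e : ℕ} {f : G} (D : X.O1 A e S f) :
    ∃ w g, PH (X.Hf f) (zpowers f) X.X5 X.t w g := by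
  obtain ⟨a, a0, h3⟩ := OP.exists_a X
  have hw : X.v a ∈ X.X5 := (X.jf.vX a).2 (by linear_combination a * h3)
  obtain ⟨α, hα, k⟩ := D.eS _ (X.v_mem_V a)
  obtain ⟨n, hn⟩ := D.toNE.even_e D.ne
  have hg : (α ^ n)⁻¹ ∈ A := inv_mem (pow_mem hα n)
  have AH : A ≤ X.Hf f := fun b hb =>
    (OP.mem_Hf D).2 (Or.inl ⟨D.toGood.A_le_L hb, D.toGood.cjA hb D.fA⟩)
  refine ⟨X.v a, (α ^ n)⁻¹, D.pg.to_le (zpowers_le.2 D.fA), (zpowers_le.2 D.fA).trans AH,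
    fun x hx => mem_norm.2 fun y hy => ?_, OP.X5_Hf D, self_mem_adj, X.tt,
    fun l => D.toGood.tA (zpowers_le.2 D.fA l), X.jf.isoX, fun x hx => cj_eq_iff.1 (OP.X5_t X hx),
    fun x hx y hy => (cj_eq_iff.1 (OP.X5_Y D hx hy)).symm, fun x hx => OP.h1 D hx,
    fun x hx => OP.h2 D hx, hw, X.v_sq a, fun l => a0 (X.v_eq_one.1 l), AH hg,
    D.toGood.comm hg (D.VA (X.v_mem_V a)), ?_⟩
  · obtain ⟨m, rfl⟩ := (mem_powers_iff_mem_zpowers.2 hy)
    change cj x (f ^ m) ∈ _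
    rw [cj_pow]
    rcases OP.Hf_f D hx with l | l <;> rw [l]
    · exact pow_mem (mem_zpowers f) m
    · exact pow_mem (inv_mem (mem_zpowers f)) m
  · have := D.toGood.cjt hg
    rw [inv_inv, ← pow_add, ← hn, k] at this
    exact this

end H79.JO
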