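import Cfsg.Agent.Lib.JO.Bas

/-! The fusion in `E`. -/

set_option autoImplicit false
set_option linter.unusedSectionVars false

namespace H79.JO

open Subgroup H4.YM H4.TL

variable {G : Type*} [Group G] [Finite G] {F : Type*} [Field F] [Finite F]

namespace Pur

omit [Finite F] in
theorem tr {a b : F} (ha : a ≠ 0) (hb : b ≠ 0) : ∃ k : Fˣ, (k : F) * a = b :=
  ⟨Units.mk0 (b * a⁻¹) (mul_ne_zero hb (inv_ne_zero ha)), by simp [ha]⟩

variable (X : Fr G F)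

/-- the elementary abelian case -/
theorem ce (hT : X.T = X.E) : ∃ B, CE X.t X.V B := by
  let B : Subgroup G :=
    { carrier := {n | cj n X.t = X.t ∧ ∃ k : Fˣ, ∀ a, cj n (X.v a) = X.v (k * a)}
      mul_mem' := by
        rintro a b ⟨h1, k, hk⟩ ⟨h2, l, hl⟩
        exact ⟨by rw [mul_cj, h2, h1], k * l, fun c => by
          rw [mul_cj, hl, hk, Units.val_mul, mul_assoc]⟩
      one_mem' := ⟨one_cj _, 1, fun a => by rw [one_cj, Units.val_one, one_mul]⟩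
      inv_mem' := by
        rintro a ⟨h1, k, hk⟩
        exact ⟨inv_cj_eq.2 h1, k⁻¹, fun c => inv_cj_eq.2 (by
          rw [hk, ← mul_assoc, Units.mul_inv, one_mul])⟩ }
  refine ⟨B, X.tt, fun e => X.t_A0 (X.V_le_A0 e), fun u hu => ?_, fun u hu => ?_, ?_, ?_,
    fun β hβ => hβ.1, fun β hβ u hu => ?_, fun u hu w hw u1 w1 => ?_, fun a ha b hb u hu => ?_,
    fun g h1 h2 β hβ => ?_, fun g h1 h2 => ?_⟩
  · obtain ⟨a, rfl⟩ := X.mem_V.1 hu; exact X.v_sq a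
  · obtain ⟨a, rfl⟩ := X.mem_V.1 hu; exact X.v_t a
  · rw [X.card_V]; exact X.four
  · have := X.syl
    rwa [hT] at this
  · obtain ⟨a, rfl⟩ := X.mem_V.1 hu
    obtain ⟨-, k, hk⟩ := hβ
    rw [hk]; exact X.v_mem_V _
  · obtain ⟨a, rfl⟩ := X.mem_V.1 hu
    obtain ⟨b, rfl⟩ := X.mem_V.1 hw
    obtain ⟨k, rfl⟩ := tr (mt X.v_eq_one.2 u1) (mt X.v_eq_one.2 w1)
    exact ⟨X.h k, ⟨X.h_t k, k, X.h_v k⟩, X.h_v k a⟩
  · obtain ⟨c, rfl⟩ := X.mem_V.1 hu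
    obtain ⟨-, k, hk⟩ := ha
    obtain ⟨-, l, hl⟩ := hb
    rw [mul_cj, mul_cj, hl, hk, hk, hl, mul_left_comm]
  · obtain ⟨k, τ, hk⟩ := X.N1_act (X.mem_N1.2 ⟨h1, fun a => h2 _ (X.v_mem_V a)⟩)
    obtain ⟨h3, l, hl⟩ := hβ
    refine ⟨by rw [← h1, cj_cj, h3, h1], Units.map (τ : F →* F) l, fun a => ?_⟩
    obtain ⟨b, rfl⟩ : ∃ b, a = k * τ b := ⟨τ.symm ((k⁻¹ : Fˣ) * a), by
      rw [RingEquiv.apply_symm_apply, ← mul_assoc, Units.mul_inv, one_mul]⟩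
    rw [← hk, cj_cj, hl, hk, map_mul, mul_left_comm]
    rfl
  · exact ⟨h1, 1, fun a => by rw [h2 _ (X.v_mem_V a), Units.val_one, one_mul]⟩

end Pur

theorem Fr.tL (X : Fr G F) : X.t ∉ X.L := fun h3 => by
  obtain ⟨B, C⟩ := Pur.ce X X.T_E
  obtain ⟨-, h8⟩ := C.main (X.idx2 h3)
  have := X.card_E
  rw [show Nat.card X.E = 8 from h8, X.jf.card8] at this
  omega

theorem Fr.pure (X : Fr G F) : X.Pure := by
  have nV : ∀ a, ¬ X.Ω (X.v a) := fun a h => X.tL ((X.Ω_L h).1 (X.AL (X.jf.vA a)))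
  refine ⟨fun ρ => X.R_two, nV, fun a => ?_, fun g h a => ?_⟩
  · by_cases a0 : a = 0
    · rw [a0, X.v_zero, mul_one]; exact X.Ω_t
    obtain ⟨s, hs, hΩ, st⟩ := X.zstT
    obtain ⟨b, rfl | rfl⟩ := X.mem_E.1 (X.T_E ▸ hs)
    · exact absurd hΩ (nV b)
    obtain ⟨k, rfl⟩ := Pur.tr (a := b) (fun e => st (by rw [e, X.v_zero, mul_one])) a0
    rwa [← X.h_v, ← X.h_t k, ← cj_mul, X.Ω_cj]
  · obtain ⟨b, e | e⟩ := X.mem_E.1 (X.T_E ▸ h a)
    · exact e ▸ X.v_mem_V b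
    · have := (X.L_cj g).2 (X.AL (X.jf.vA a))
      rw [e] at this
      exact absurd ((mul_mem_cancel_right (X.AL (X.jf.vA b))).1 this) X.tL

end H79.JO
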