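import Cfsg.Agent.Lib.JO.Good
import Cfsg.Agent.Lib.L2B.Aff
import Cfsg.Agent.Lib.JO.Tow1

set_option autoImplicit false

namespace H79.JO.TWB

open Subgroup H4.YM H4.TL H79.JO
open H25.L2B (syl_iff aut_comm Aff' Aff'.eight)

universe u

variable {G : Type u} [Group G] [Finite G] {F : Type*} [Field F] [Finite F]

set_option hygiene false in
local notation "𝐐" => adj A X.t
set_option hygiene false in
local notation "𝐍" => normalizer ((adj A X.t : Subgroup G) : Set G)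

/-- a normal transitive `2`-subgroup -/
structure Ful (X : Fr G F) (A : Subgroup G) (e : ℕ) (b : G → F) (R : Subgroup G) : Prop
    extends Coc X A e b where
  pgR : IsPGroup 2 R
  QR : 𝐐 ≤ R
  RN : R ≤ 𝐍
  RV : ∀ r ∈ R, ∀ a, cj r (X.v a) = X.v a
  RO : ∀ r ∈ R, ∀ o ∈ X.O0, cj r o = o
  nR : ∀ g ∈ 𝐍, ∀ r ∈ R, cj g r ∈ R
  tr : ∀ a ∈ A, ∃ r ∈ R, cj r X.t = X.t * a

variable {X : Fr G F} {A R : Subgroup G} {e : ℕ} {b : G → F}

theorem exists_unit (X : Fr G F) : ∃ κ : Fˣ, (1 : F) + κ ≠ 0 := by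
  obtain ⟨x, x0, x1⟩ : ∃ x : F, x ≠ 0 ∧ x ≠ 1 := by
    by_contra! q
    have h4 := X.four
    have : Nat.card F ≤ 2 := by
      rw [← Set.ncard_univ, ← Set.ncard_pair (zero_ne_one (α := F))]
      exact Set.ncard_le_ncard fun y _ => or_iff_not_imp_left.2 (q y)
    omega
  exact ⟨Units.mk0 x x0, fun q => x1 (by
    rw [Units.val_mk0] at q; linear_combination q - z2 X 1)⟩

theorem orb_eq' (D : X.Good A) {K : Subgroup G} (hK : K ≤ 𝐍)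
    (h : ∀ a ∈ A, ∃ r ∈ K, cj r X.t = X.t * a) : orb K X.t = (fun x => X.t * x) '' (A : Set G) := by
  ext x
  exact ⟨fun ⟨g, hg, e⟩ => ⟨_, D.Nt (hK hg), by simp only [X.ttu, e]⟩,
    fun ⟨a, ha, e⟩ => e ▸ h a ha⟩

theorem Coc.binv (D : Coc X A e b) {g : G} (hg : g ∈ 𝐍) (c : ∀ a, cj g (X.v a) = X.v a) :
    b g⁻¹ = b g := by
  have := D.hom hg (inv_mem hg) c
  rw [mul_inv_cancel, D.bQ' (one_mem _)] at this
  linear_combination z2 X (b g⁻¹) + this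

theorem Coc.bdel (D : Coc X A e b) (κ : Fˣ) {g : G} (hg : g ∈ 𝐍) (c : ∀ a, cj g (X.v a) = X.v a) :
    b (g * cj (X.h κ) g⁻¹) = (1 + κ) * b g := by
  rw [D.hom hg (cj_mem (D.toGood.N1_le (X.h_N1 κ)) (inv_mem hg)) c, D.bh κ (inv_mem hg),
    D.binv hg c, add_mul, one_mul]

theorem Coc.ful (D : Coc X A e b) {k : G} (hk : k ∈ 𝐍) (hV : ∀ a, cj k (X.v a) = X.v a)
    (h : b k ≠ 0) : ∃ R, Ful X A e b R := by
  obtain ⟨K, mK⟩ : ∃ K : Subgroup G, ∀ g, g ∈ K ↔ g ∈ 𝐍 ∧ (∀ a, cj g (X.v a) = X.v a) ∧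
      ∀ o ∈ X.O0, cj g o = o :=
    ⟨𝐍 ⊓ (centralizer (Set.range X.v) ⊓ centralizer X.O0), fun g => and_congr_right fun _ =>
      and_congr (Set.forall_mem_range.trans (forall_congr' fun a => by rw [cj_eq_iff, eq_comm]))
        (forall₂_congr fun u _ => by rw [cj_eq_iff, eq_comm])⟩
  have KN : K ≤ 𝐍 := fun g hg => ((mK g).1 hg).1
  have QK : 𝐐 ≤ K := fun x hx => (mK x).2 ⟨le_normalizer hx, D.toGood.QV hx, fun o ho => by
    have c : cj o X.t = X.t := (X.mem_K.1 (X.O0_le_K ho)).1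
    exact cj_comm.1 (mem_cen.1 (adj_le (L := centralizer {o}) (fun a ha => mem_cen.2
      (cj_comm.1 (D.toGood.O0_A ho ha))) (mem_cen.2 (cj_comm.1 c)) hx) |> cj_comm.1)⟩
  have Kn : ∀ β ∈ 𝐍, ∀ g ∈ K, cj β g ∈ K := fun β hβ g hg => (mK _).2 ⟨cj_mem hβ (KN hg),
    fun a => by
      obtain ⟨c, hc⟩ := X.mem_V.1 (D.toGood.NV (inv_mem hβ) a)
      rw [← cj_inv_cj β (X.v a), cj_cj, hc, ((mK g).1 hg).2.1],
    fun o ho => by
      rw [← cj_inv_cj β o, cj_cj, ((mK g).1 hg).2.2 _ (D.toGood.O0_norm (inv_mem hβ) ho)]⟩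
  obtain ⟨κ, hκ⟩ := exists_unit X
  have hN : ∀ l, X.h l ∈ 𝐍 := fun l => D.toGood.N1_le (X.h_N1 l)
  have hO : ∀ l, ∀ o ∈ X.O0, cj (X.h l) o = o := fun l o ho => by
    exact cj_comm.1 ((X.mem_K.1 (X.O0_le_K ho)).2 _ (X.h_mem l))
  have k1 : k * cj (X.h κ) k⁻¹ ∈ K := (mK _).2 ⟨mul_mem hk (cj_mem (hN κ) (inv_mem hk)), fun a => by
    obtain ⟨c, hc⟩ := X.mem_V.1 (D.toGood.NV (inv_mem (hN κ)) a)
    rw [mul_cj, ← cj_inv_cj (X.h κ) (X.v a), cj_cj, hc, inv_cj_eq.2 (hV c), ← hc, cj_inv_cj, hV],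
    fun o ho => by
      rw [mul_cj]
      conv_lhs => rw [← hO κ o ho, cj_cj, hO κ _ (D.toGood.O0_norm (inv_mem hk) ho), cj_inv_cj]⟩
  have b1 : b (k * cj (X.h κ) k⁻¹) ≠ 0 := by
    rw [D.bdel κ hk hV]; exact mul_ne_zero hκ h
  have trK : ∀ a ∈ A, ∃ r ∈ K, cj r X.t = X.t * a := fun a ha => by
    obtain ⟨c, hc⟩ := X.mem_V.1 (D.e1 a ha)
    obtain ⟨g, hg, q⟩ : ∃ g ∈ K, b g = c := by
      by_cases c0 : c = 0
      · exact ⟨1, one_mem _, by rw [c0, D.bQ' (one_mem _)]⟩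
      · exact ⟨_, Kn _ (hN (Units.mk0 _ (div_ne_zero c0 b1))) _ k1, by
          rw [D.bh _ (KN k1), Units.val_mk0, div_mul_cancel₀ _ b1]⟩
    obtain ⟨α, hα, r⟩ := D.bs ha (KN hg) (by rw [q, hc])
    exact ⟨_, mul_mem (QK (le_adj hα)) hg, r⟩
  obtain ⟨R, QR, S⟩ := exists_syl D.toGood.pgQ QK
  have trR : ∀ a ∈ A, ∃ r ∈ R, cj r X.t = X.t * a := fun a ha => by
    obtain ⟨n, hn⟩ := pg_card D.pg
    have q := orb_eq' D.toGood KN trK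
    have : X.t * a ∈ orb R X.t := by
      rw [S.orb_pow (k := n) (by rw [q, ncard_coset, hn]), q]; exact ⟨a, ha, rfl⟩
    exact this
  refine ⟨R, D, S.pg, QR, S.le.trans KN, fun r hr => ((mK r).1 (S.le hr)).2.1,
    fun r hr => ((mK r).1 (S.le hr)).2.2, fun β hβ r hr => ?_, trR⟩
  obtain ⟨j, hj⟩ := pg_pow S.pg hr
  have h1 := Kn β hβ r (S.le hr)
  have h2 : cj β r ^ 2 ^ j = 1 := by rw [← cj_pow, hj, cj_one]
  generalize cj β r = g at h1 h2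
  obtain ⟨s, hs, q⟩ := trR _ (D.toGood.Nt (KN h1))
  rw [X.ttu] at q
  obtain ⟨x, hx, o, ho, q'⟩ := D.toPure.cenE (c := s⁻¹ * g) (by rw [mul_cj, inv_cj_eq, q])
    ((mK _).1 (mul_mem (inv_mem (S.le hs)) h1)).2.1
  have h3 := mul_mem hs (QR (D.toGood.EQ hx))
  rw [inv_mul_eq_iff_eq_mul, ← mul_assoc] at q'
  obtain ⟨i, hi⟩ := pg_pow S.pg h3
  have c : Commute (s * x) o := cj_eq_iff.1 (((mK _).1 (S.le h3)).2.2 o ho)
  have h4 : o ^ 2 ^ (i + j) = 1 := by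
    have : g ^ 2 ^ (i + j) = 1 := by rw [pow_add, mul_comm, pow_mul, h2, one_pow]
    rwa [q', c.mul_pow, pow_add, pow_mul, hi, one_pow, one_mul, ← pow_add] at this
  have h5 : orderOf o = 1 := Nat.Coprime.eq_one_of_dvd
    ((Nat.coprime_two_right.2 (D.toPure.mem_O0.1 ho).2).pow_right _) (orderOf_dvd_of_pow_eq_one h4)
  rwa [q', orderOf_eq_one_iff.1 h5, mul_one]

namespace Ful

variable (D : Ful X A e b R)
include D

theorem hom {x y : G} (hx : x ∈ R) (hy : y ∈ R) : b (x * y) = b x + b y :=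
  D.toCoc.hom (D.RN hx) (D.RN hy) (D.RV x hx)

theorem AR : A ≤ R := le_adj.trans D.QR

theorem tR : X.t ∈ R := D.QR self_mem_adj

theorem cenR {r : G} (hr : r ∈ R) (h : cj r X.t = X.t) : r ∈ X.E :=
  let ⟨_, hj⟩ := pg_pow D.pgR hr; D.toPure.cenE_two h (D.RV r hr) hj

theorem bq {r : G} (hr : r ∈ R) (h : b r = 0) : r ∈ 𝐐 := by
  obtain ⟨α, hα, q⟩ := (D.toCoc.b1 (D.RN hr)).1 h
  exact (mul_mem_cancel_left (le_adj hα)).1 (D.toGood.EQ (D.cenR (mul_mem (D.AR hα) hr) q))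

theorem prod {s s' : G} (h : s ∈ R) (h' : s' ∈ R) (hs : X.Ω s) (hs' : X.Ω s') : ¬ X.Ω (s * s') :=
  D.toPure.prod hs hs' (D.RV s h) (D.RV s' h')

theorem cls {s : G} (hs : s ∈ R) (hΩ : X.Ω s) {a : G} (ha : a ∈ A) : X.Ω (s * a) := by
  have h1 : orb R s ⊆ (fun x => s * x) '' (A : Set G) := fun x ⟨r, hr, q⟩ =>
    ⟨_, D.toGood.memA (D.bq (mul_mem hs (cj_mem hr hs)) (by
        rw [D.hom hs (cj_mem hr hs), cj, D.hom (mul_mem hr hs) (inv_mem hr), D.hom hr hs,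
          D.toCoc.binv (D.RN hr) (D.RV r hr)]
        linear_combination z2 X (b r) + z2 X (b s)))
      (D.prod hs (cj_mem hr hs) hΩ ((X.Ω_cj r).2 hΩ)), by
      simp only; rw [← mul_assoc, X.sqΩ hΩ, one_mul, q]⟩
  have h2 := card_orb R s
  have I : Idx X.V (adj X.V s) s := idx_adj (fun q => D.toPure.nΩV q hΩ) (fun u hu => by
    obtain ⟨c, rfl⟩ := X.mem_V.1 hu
    rw [D.RV s hs]; exact hu) (X.sqΩ hΩ ▸ one_mem _)
  have h3 : Nat.card (R ⊓ centralizer {s} : Subgroup G) ≤ Nat.card X.E := by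
    rw [X.iE.card, ← I.card]
    refine card_le_of_le fun x hx => I.mem_iff.2 ?_
    obtain ⟨j, hj⟩ := pg_pow D.pgR hx.1
    rw [inv_eq_of_mul_eq_one_right (X.sqΩ hΩ)]
    exact D.toPure.pstar hΩ (D.RV s hs) (mem_cen.1 hx.2) (D.RV x hx.1) hj
  have h0 : Nat.card R = Nat.card A * Nat.card X.E := by
    rw [← card_orb R X.t, orb_eq' D.toGood D.RN D.tr, ncard_coset, le_antisymm
      (fun x hx => D.cenR hx.1 (mem_cen.1 hx.2)) (le_inf (D.toGood.EQ.trans D.QR) fun x hx =>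
        mem_cen.2 (X.E_comm hx X.iE.mem))]
  rw [h0] at h2
  have h4 : Nat.card A ≤ (orb R s).ncard :=
    Nat.le_of_mul_le_mul_right (h2 ▸ Nat.mul_le_mul_left _ h3) Nat.card_pos
  have h5 := Set.eq_of_subset_of_ncard_le h1 (by rwa [ncard_coset])
  obtain ⟨r, -, q⟩ : s * a ∈ orb R s := h5 ▸ ⟨a, ha, rfl⟩
  exact q ▸ (X.Ω_cj r).2 hΩ

theorem ΩQ (hmax : ∀ E, X.Good E → A ≤ E → E = A) {s : G} (hs : s ∈ R) (hΩ : X.Ω s) : s ∈ 𝐐 := by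
  by_contra hsQ
  have dich : ∀ r ∈ R, ¬ X.Ω r → X.Ω (X.t * r) := fun r hr hn => by
    by_cases hrQ : r ∈ 𝐐
    · exact D.Ω r (D.toGood.memA hrQ hn)
    have s0 : b s ≠ 0 := fun q => hsQ (D.bq hs q)
    have r0 : b r ≠ 0 := fun q => hrQ (D.bq hr q)
    have q := D.toCoc.bh (Units.mk0 _ (div_ne_zero r0 s0)) (D.RN hs)
    rw [Units.val_mk0, div_mul_cancel₀ _ s0] at q
    have h3 := D.nR _ (D.toGood.N1_le (X.h_N1 (Units.mk0 _ (div_ne_zero r0 s0)))) s hs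
    have h2 := (X.Ω_cj (X.h (Units.mk0 _ (div_ne_zero r0 s0)))).2 hΩ
    generalize cj (X.h (Units.mk0 _ (div_ne_zero r0 s0))) s = s' at q h2 h3
    have h4 := D.bq (R.mul_mem h3 hr) (by rw [D.hom h3 hr, q, z2 X])
    have h5 : r = s' * (s' * r) := by rw [← mul_assoc, X.sqΩ h2, one_mul]
    rcases D.toGood.iQ.cases h4 with h6 | ⟨a, ha, h6⟩
    · exact absurd (h5 ▸ D.cls h3 h2 h6) hn
    · have := D.cls (cj_mem D.tR h3) ((X.Ω_cj X.t).2 h2) ha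
      rw [cj, X.tinv] at this
      rwa [h5, h6, ← mul_assoc, ← mul_assoc]
  let E : Subgroup G :=
    { carrier := {r | r ∈ R ∧ ¬ X.Ω r}
      one_mem' := ⟨R.one_mem, X.nΩ1⟩
      inv_mem' := fun {x} hx => ⟨R.inv_mem hx.1, fun h => hx.2 (by
        rwa [← inv_eq_of_mul_eq_one_right (X.sqΩ h), inv_inv] at h)⟩
      mul_mem' := fun {x y} hx hy => ⟨R.mul_mem hx.1 hy.1, by
        have := D.prod (cj_mem D.tR (mul_mem D.tR hx.1)) (mul_mem D.tR hy.1)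
          ((X.Ω_cj X.t).2 (dich x hx.1 hx.2)) (dich y hy.1 hy.2)
        rwa [cj, X.ttu, X.tinv, mul_assoc, X.ttu] at this⟩ }
  have hAE : A ≤ E := fun a ha => ⟨D.AR ha, D.toGood.nΩA ha⟩
  have := hmax E ⟨D.toPure, pg_le D.pgR fun x hx => hx.1, D.VA.trans hAE,
    fun x hx => dich x hx.1 hx.2, fun n hn x hx => ⟨D.nR n (D.toGood.N1_le hn) x hx.1,
      fun h => hx.2 ((X.Ω_cj n).1 h)⟩⟩ hAE
  have h1 : X.t * s ∈ E := ⟨R.mul_mem D.tR hs, D.prod D.tR hs X.Ω_t hΩ⟩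
  exact hsQ ((mul_mem_cancel_left self_mem_adj).1 (le_adj (this ▸ h1)))

theorem sqA {r : G} (hr : r ∈ R) : r * r ∈ A :=
  let ⟨_, hj⟩ := pg_pow D.pgR hr
  D.toGood.memA (D.bq (mul_mem hr hr) (by rw [D.hom hr hr, z2 X])) (D.toPure.nsq (D.RV r hr) hj)

/-- the elementary abelian quotient -/
theorem exists_pi : ∃ (M : Type u) (_ : CommGroup M) (π : G → M),
    (∀ x ∈ R, ∀ y ∈ R, π (x * y) = π x * π y) ∧ ∀ x ∈ R, π x = 1 ↔ x ∈ A := by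
  classical
  haveI : (A.subgroupOf R).Normal := ⟨fun a ha r => D.toGood.NA (D.RN r.2) ha⟩
  have sq : ∀ x : R ⧸ A.subgroupOf R, x * x = 1 := fun x => by
    obtain ⟨r, rfl⟩ := QuotientGroup.mk_surjective x
    exact (QuotientGroup.eq_one_iff (r * r)).2 (D.sqA r.2)
  refine ⟨R ⧸ A.subgroupOf R, { (inferInstance : Group (R ⧸ A.subgroupOf R)) with
    mul_comm := fun x y => comm_of_sq (sq x) (sq y) (sq _) },
    fun x => if h : x ∈ R then QuotientGroup.mk ⟨x, h⟩ else 1, fun x hx y hy => ?_, fun x hx => ?_⟩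
  · simp only [dif_pos hx, dif_pos hy, dif_pos (mul_mem hx hy)]
    rfl
  · simp only [dif_pos hx]
    exact QuotientGroup.eq_one_iff _

theorem tow (hmax : ∀ E, X.Good E → A ≤ E → E = A) : ∃ Y, X.Tow A Y b := by
  obtain ⟨M, _, π, pm, pk⟩ := D.exists_pi
  obtain ⟨κ, hκ⟩ := exists_unit X
  have p1 : π 1 = 1 := (pk 1 (one_mem _)).2 (one_mem _)
  have pi : ∀ x ∈ R, π x⁻¹ = (π x)⁻¹ := fun x hx =>
    eq_inv_of_mul_eq_one_left (by rw [← pm _ (inv_mem hx) _ hx, inv_mul_cancel, p1])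
  have pe : ∀ x ∈ R, ∀ y ∈ R, π x = π y ↔ x⁻¹ * y ∈ A := fun x hx y hy => by
    rw [← pk _ (mul_mem (inv_mem hx) hy), pm _ (inv_mem hx) _ hy, pi x hx, inv_mul_eq_one]
  have pc : ∀ r ∈ R, ∀ x ∈ R, π (cj r x) = π x := fun r hr x hx => by
    rw [cj, pm _ (mul_mem hr hx) _ (inv_mem hr), pm _ hr _ hx, pi r hr, mul_inv_cancel_comm]
  have pn : ∀ n ∈ 𝐍, ∀ x ∈ R, ∀ y ∈ R, π x = π y → π (cj n x) = π (cj n y) :=
    fun n hn x hx y hy q => (pe _ (D.nR n hn x hx) _ (D.nR n hn y hy)).2 (by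
      rw [← cj_inv, ← cj_mul]; exact D.toGood.NA hn ((pe x hx y hy).1 q))
  have hN : ∀ l, X.h l ∈ 𝐍 := fun l => D.toGood.N1_le (X.h_N1 l)
  have hR : ∀ l, ∀ w ∈ R, cj (X.h l) w ∈ R := fun l => D.nR _ (hN l)
  have dR : ∀ l, ∀ w ∈ R, w * cj (X.h l) w⁻¹ ∈ R := fun l w hw => mul_mem hw (hR l _ (inv_mem hw))
  have pd : ∀ l, ∀ w ∈ R, π (w * cj (X.h l) w⁻¹) = π w * (π (cj (X.h l) w))⁻¹ := fun l w hw => by
    rw [pm _ hw _ (hR l _ (inv_mem hw)), cj_inv, pi _ (hR l w hw)]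
  let Y : Subgroup G :=
    { carrier := {y | y ∈ R ∧ ∃ w ∈ R, π (w * cj (X.h κ) w⁻¹) = π y}
      one_mem' := ⟨one_mem _, 1, one_mem _, by rw [inv_one, cj_one, mul_one]⟩
      mul_mem' := by
        rintro x y ⟨hx, w, hw, q⟩ ⟨hy, w', hw', q'⟩
        refine ⟨mul_mem hx hy, _, mul_mem hw hw', ?_⟩
        rw [pm x hx y hy, ← q, ← q', pd κ _ (mul_mem hw hw'), pd κ w hw, pd κ w' hw', cj_mul,
          pm _ hw _ hw', pm _ (hR κ w hw) _ (hR κ w' hw'), mul_inv, mul_mul_mul_comm]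
      inv_mem' := by
        rintro x ⟨hx, w, hw, q⟩
        refine ⟨inv_mem hx, _, inv_mem hw, ?_⟩
        rw [pi x hx, ← q, pd κ _ (inv_mem hw), pd κ w hw, cj_inv, pi w hw, pi _ (hR κ w hw),
          mul_inv] }
  have YR : Y ≤ R := fun y hy => hy.1
  have Yπ : ∀ x ∈ R, ∀ y ∈ Y, π y = π x → x ∈ Y := fun x hx y ⟨_, w, hw, q⟩ r =>
    ⟨hx, w, hw, q.trans r⟩
  have AY : A ≤ Y := fun a ha => Yπ a (D.AR ha) 1 (one_mem _) (p1.trans ((pk a (D.AR ha)).2 ha).symm)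
  have pt : ∀ l, ∀ w ∈ R, π (w * X.t * cj (X.h l) (w * X.t)⁻¹) = π (w * cj (X.h l) w⁻¹) :=
    fun l w hw => by
      rw [pd l _ (mul_mem hw D.tR), pd l w hw, cj_mul, X.h_t, pm _ hw _ D.tR,
        pm _ (hR l w hw) _ D.tR, mul_inv, mul_mul_mul_comm, mul_inv_cancel, mul_one]
  have cQ : ∀ x ∈ 𝐐, x ∈ A ∨ x * X.t ∈ A := fun x hx => (D.toGood.iQ.cases hx).imp_right (by
    rintro ⟨a, ha, rfl⟩
    have := D.toGood.NA (le_normalizer self_mem_adj) ha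
    rwa [cj, X.tinv] at this)
  have tY : X.t ∉ Y := by
    rintro ⟨-, w, hw, q⟩
    have h1 := (pe _ (dR κ w hw) _ D.tR).1 q
    have h2 : w ∈ 𝐐 := D.bq hw ((mul_eq_zero.1 ((D.toCoc.bdel κ (D.RN hw) (D.RV w hw)).symm.trans
      (D.toCoc.bQ' (inv_mem_iff.1 ((mul_mem_cancel_right self_mem_adj).1 (le_adj h1)))))).resolve_left hκ)
    have h3 : ∀ a ∈ A, π (a * cj (X.h κ) a⁻¹) = 1 := fun a ha =>
      (pk _ (dR κ a (D.AR ha))).2 (mul_mem ha (D.toGood.NA (hN κ) (inv_mem ha)))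
    refine D.toGood.tA ((pk _ D.tR).1 (q.symm.trans ((cQ w h2).elim (h3 w) fun r => ?_)))
    rw [← pt κ w hw, h3 _ r]
  have QY : ∀ y ∈ Y, y ∈ 𝐐 → y ∈ A := fun y hy q => (cQ y q).resolve_right fun r =>
    tY ((mul_mem_cancel_left hy).1 (AY r))
  have bR : ∀ c, ∃ r ∈ R, b r = c := fun c => by
    obtain ⟨a, ha, q⟩ := D.e2 _ (X.v_mem_V c)
    obtain ⟨r, hr, q'⟩ := D.tr a ha
    exact ⟨r, hr, X.v_inj ((D.toCoc.bt (D.RN hr) q').trans q)⟩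
  have dich : ∀ r ∈ R, r ∈ Y ∨ r * X.t ∈ Y := fun r hr => by
    obtain ⟨w, hw, q⟩ := bR (b r / (1 + κ))
    have h1 := dR κ w hw
    have h2 := D.bq (mul_mem (inv_mem h1) hr) (by
      rw [D.hom (inv_mem h1) hr, D.toCoc.binv (D.RN h1) (D.RV _ h1),
        D.toCoc.bdel κ (D.RN hw) (D.RV w hw), q, mul_div_cancel₀ _ hκ, z2 X])
    exact (cQ _ h2).imp (fun a => ⟨hr, w, hw, (pe _ h1 _ hr).2 a⟩) fun a =>
      ⟨mul_mem hr D.tR, w, hw, (pe _ h1 _ (mul_mem hr D.tR)).2 (mul_assoc _ r _ ▸ a)⟩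
  have hY : ∀ l, ∀ y ∈ Y, cj (X.h l) y ∈ Y := fun l y ⟨hy, w, hw, q⟩ =>
    ⟨hR l y hy, _, hR l w hw, by
      rw [← pn _ (hN l) _ (dR κ w hw) y hy q, cj_mul, ← cj_inv, ← mul_cj, ← mul_cj, ← map_mul,
        ← map_mul, mul_comm]⟩
  have dY : ∀ l, ∀ w ∈ R, w * cj (X.h l) w⁻¹ ∈ Y := fun l w hw =>
    (dich w hw).elim (fun q => mul_mem q (hY l _ (inv_mem q))) fun q =>
      Yπ _ (dR l w hw) _ (mul_mem q (hY l _ (inv_mem q))) (pt l w hw)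
  have trY : ∀ a ∈ A, ∃ y ∈ Y, cj y X.t = X.t * a := fun a ha => by
    obtain ⟨r, hr, q⟩ := D.tr a ha
    exact (dich r hr).elim (fun h => ⟨r, h, q⟩) fun h =>
      ⟨_, h, by rw [mul_cj, cj_eq_iff.2 rfl, q]⟩
  refine ⟨Y, D.toGood, pg_le D.pgR YR, AY, fun y hy => D.RV y hy.1,
    fun y hy a => D.toGood.NA (D.RN hy.1), fun n hn y ⟨hy, w, hw, q⟩ => ?_,
    fun y ⟨hy, w, hw, q⟩ => ?_, fun y hy h => ?_,
    fun y hy h => D.toGood.nΩA (QY y hy (D.ΩQ hmax hy.1 h)) h,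
    fun y hy h => QY y hy ((mul_mem_cancel_left self_mem_adj).1 (D.ΩQ hmax (mul_mem D.tR hy.1) h)),
    fun y hy => D.toGood.Nt (D.RN hy.1), trY, fun g hg => ?_, fun x hx y hy => D.hom hx.1 hy.1,
    fun y hy => ⟨fun h => QY y hy (D.bq hy.1 h), fun h => D.toCoc.bQ' (le_adj h)⟩, fun c => ?_,
    fun n hn y hy => D.toCoc.bcj hn (D.RN hy.1), e, D.e1, D.e2, D.e3, fun y hy => D.hb y (D.RN hy.1)⟩
  · have nN := D.toGood.N1_le hn
    have w' := D.nR n nN w hw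
    obtain ⟨k, τ, r⟩ := X.N1_act hn
    obtain ⟨a, z, hz, r'⟩ := X.scal (n := cj n (X.h κ)) (k := Units.map (τ : F →* F) κ)
      (by rw [← (X.mem_N1.1 hn).1, cj_cj, X.h_t]) fun a => by
        obtain ⟨c, rfl⟩ : ∃ c, a = k * τ c := ⟨τ.symm (k⁻¹ * a), by simp⟩
        rw [← r, cj_cj, X.h_v, r, map_mul, mul_left_comm]
        rfl
    refine Yπ _ (D.nR n nN y hy) _ (dY (Units.map (τ : F →* F) κ) _ w') ?_
    have i' := inv_mem w'
    have zR : cj z (cj n w)⁻¹ ∈ R := D.nR z (D.toGood.N1_le (X.K_le_N1 hz)) _ i'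
    have zz : π (cj z (cj n w)⁻¹) = π (cj n w)⁻¹ := by
      rcases D.toPure.K_split hz with o | o
      · rw [cj_comm.1 (D.RO _ i' _ o)]
      · rw [← pc _ D.tR _ zR, ← mul_cj, cj_comm.1 (D.RO _ i' _ o)]
    rw [← pn n nN _ (dR κ w hw) y hy q, cj_mul, ← cj_cj, r', cj_inv n, mul_cj, mul_cj,
      pm _ w' _ (hR _ _ i'), pm _ w' _ (cj_mem (D.AR (D.VA (X.v_mem_V a))) (hR _ _ zR)),
      pc _ (D.AR (D.VA (X.v_mem_V a))) _ (hR _ _ zR), pn _ (hN _) _ zR _ i' zz]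
  · have hL := X.A0_le_L (X.h_mem κ)
    refine (mul_mem_cancel_left (inv_mem ?_)).1 (D.toGood.A_le_L ((pe _ (dR κ w hw) _ hy).1 q))
    rw [show w * cj (X.h κ) w⁻¹ = w * X.h κ * w⁻¹ * (X.h κ)⁻¹ by simp only [cj, mul_assoc]]
    exact mul_mem (X.nrm.conj_mem _ hL w) (inv_mem hL)
  · exact D.toGood.sqV (QY y hy (D.toGood.EQ (D.cenR hy.1 h))) (X.E_sq (D.cenR hy.1 h))
  · obtain ⟨y, hy, q⟩ := trY _ (D.toGood.Nt hg)
    rw [X.ttu] at q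
    exact ⟨y, hy, y⁻¹ * g, D.toGood.N1_of (mul_mem (inv_mem (D.RN hy.1)) hg)
      (by rw [mul_cj, inv_cj_eq, q]), (mul_inv_cancel_left _ _).symm⟩
  · obtain ⟨a, ha, q⟩ := D.e2 _ (X.v_mem_V c)
    obtain ⟨y, hy, q'⟩ := trY a ha
    exact ⟨y, hy, X.v_inj ((D.toCoc.bt (D.RN hy.1) q').trans q)⟩

end Ful

end H79.JO.TWB

namespace H79.JO

open Subgroup H4.YM H4.TL Matrix MatrixGroups H79.JO.TWB
open H25.L2B (fix_sq fix_trace aut_comm aut_inv_uniq syl_iff WrD Lie2 Eight)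

variable {G : Type*} [Group G] [Finite G] {F : Type*} [Field F] [Finite F]

theorem Fr.Pure.tower {X : Fr G F} (P : X.Pure) :
    (∃ A Y b, X.Tow A Y b) ∨ ∃ A, X.NR A := by
  obtain ⟨A, D, hmax⟩ := exists_max (p := X.Good) P.good
  obtain ⟨e, b, C⟩ := exists_coc D
  refine or_iff_not_imp_left.2 fun hn => ⟨A, C.nr fun k hk h => by_contra fun q => hn ?_⟩
  obtain ⟨R, S⟩ := C.ful hk h q
  obtain ⟨Y, T⟩ := S.tow hmax
  exact ⟨A, Y, b, T⟩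

end H79.JO
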